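import Cfsg.Agent.Lib.Th3.Bas

/-! Package AUT: automorphisms of `S`. -/

set_option autoImplicit false
set_option maxRecDepth 100000
set_option linter.unusedSectionVars false

namespace CfsgLib.Th3

open Subgroup Cfsg Cfsg.FusionSystem CfsgLib.Comput CfsgLib.Fusion CfsgLib.ExSp4

/-- powers of codes -/
noncomputable def auP (a n : ℕ) : ℕ := Nat.rec 0 (fun _ r => mul r a) n

/-- the code of `a * b * a⁻¹ * b⁻¹` -/
noncomputable def auC (a b : ℕ) : ℕ := cm (inv a) (inv b)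

/-- the check `⁅G i, G j⁆ ≤ G k` -/
noncomputable def auG (i j k : ℕ) : Bool :=
  allE (aG i) fun a => allE (aG j) fun b => Nat.beq (cm a b % 3 ^ k) 0

theorem au_G : (auG 2 0 4 = true ∧ auG 4 0 5 = true ∧ auG 2 2 5 = true ∧ auG 4 0 6 = true ∧
    auG 2 2 6 = true) ∧ (auG 6 0 7 = true ∧ auG 2 5 7 = true ∧ auG 7 0 8 = true ∧ auG 2 6 8 = true) ∧
    auG 8 0 9 = true ∧ auG 2 7 9 = true ∧ auG 9 0 10 = true ∧ auG 2 8 10 = true := by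
  decide +kernel

theorem au_A : (auC 3 1 % 3 ^ 4 = 27 % 3 ^ 4 ∧ auC 27 1 % 3 ^ 5 = 81 % 3 ^ 5 ∧
    auC 27 3 % 3 ^ 6 = 243 % 3 ^ 6 ∧ auC 243 1 % 3 ^ 7 = 729 % 3 ^ 7 ∧
    auC 729 1 % 3 ^ 8 = 2187 % 3 ^ 8 ∧ auC 2187 3 % 3 ^ 9 = 6561 % 3 ^ 9 ∧
    auC 6561 1 % 3 ^ 10 = 19683 % 3 ^ 10) ∧ auC 9 1 % 3 ^ 5 = 0 % 3 ^ 5 ∧
    auC 9 3 % 3 ^ 6 = 243 % 3 ^ 6 := by
  decide +kernel

theorem au_B : ∀ a ∈ [1, 2], ∀ b ∈ [1, 2],
    (auP 27 (a * b) % 3 ^ 4 = auC (auP 3 b) (auP 1 a) % 3 ^ 4 ∧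
    auP 81 b % 3 ^ 5 = auC (auP 27 (a * b)) (auP 1 a) % 3 ^ 5 ∧
    auP 243 a % 3 ^ 6 = auC (auP 27 (a * b)) (auP 3 b) % 3 ^ 6 ∧
    auP 729 1 % 3 ^ 7 = auC (auP 243 a) (auP 1 a) % 3 ^ 7 ∧
    auP 2187 a % 3 ^ 8 = auC (auP 729 1) (auP 1 a) % 3 ^ 8 ∧
    auP 6561 (a * b) % 3 ^ 9 = auC (auP 2187 a) (auP 3 b) % 3 ^ 9 ∧
    auP 19683 b % 3 ^ 10 = auC (auP 6561 (a * b)) (auP 1 a) % 3 ^ 10) ∧
    (auP 27 (a * b) % 3 ^ 2 = 0 ∧ auP 243 a % 3 ^ 5 = 0 ∧ auP 729 1 % 3 ^ 6 = 0 ∧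
    auP 2187 a % 3 ^ 7 = 0 ∧ auP 6561 (a * b) % 3 ^ 8 = 0) ∧
    ∀ x < 9, 0 % 3 ^ 5 = auC (9 * x) (auP 1 a) % 3 ^ 5 →
      auP 243 a % 3 ^ 6 = auC (9 * x) (auP 3 b) % 3 ^ 6 →
      auP 9 (a * b) % 3 ^ 3 = 9 * x % 3 ^ 3 := by
  decide +kernel

theorem au_D : auP 1 1 = 1 ∧ auP 1 2 = 2 ∧ auP 3 1 = 3 ∧ auP 3 2 = 6 ∧ auP 6561 2 = 13122 ∧
    auP 19683 2 = 39366 := by
  decide +kernel

variable {Ω : Type*} [Group Ω] {S : Subgroup Ω} [Finite S] {F : FusionSystem S} {ν : ℕ → Ω}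

/-- `f (ν A) ≡ ν x` modulo `G k` -/
def AuR (ν : ℕ → Ω) (f : Ω → Ω) (x A k : ℕ) : Prop := (ν x)⁻¹ * f (ν A) ∈ G ν k

section Aux

variable (h : Mod S ν) {f : Ω → Ω} {x y A B i j k : ℕ}
include h

theorem au_P (a n : ℕ) : ν (auP a n) = ν a ^ n := by
  induction n with
  | zero => rw [pow_zero]; exact h.zero
  | succ n ih => rw [pow_succ, ← ih]; exact h.mul _ _

theorem au_cos (hk : k ≤ 10) : (ν x)⁻¹ * ν y ∈ G ν k ↔ x % 3 ^ k = y % 3 ^ k := by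
  rw [eq_comm, ← h.coset hk]
  constructor
  · intro H; simpa [mul_assoc] using h.G_conj hk (h.mem x) H
  · intro H; simpa [mul_assoc] using h.G_conj hk (inv_mem (h.mem x)) H

theorem au_uniq (hk : k ≤ 10) (H : AuR ν f x A k) (H' : AuR ν f y A k) : x % 3 ^ k = y % 3 ^ k := by
  rw [← au_cos h hk]
  simpa [mul_assoc] using mul_mem H (inv_mem H')

theorem au_chg (hc : Chr F ν) (hf : Au F S f) (hk : k ≤ 10) (H : AuR ν f x A k)
    (e1 : y % 3 ^ k = x % 3 ^ k) (e2 : A % 3 ^ k = B % 3 ^ k) : AuR ν f y B k := by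
  have h1 := hc.sG k hk f hf _ (mul_mem (inv_mem (h.mem A)) (h.mem B)) ((au_cos h hk).2 e2)
  rw [hf.1.map_mul (inv_mem (h.mem A)) (h.mem B), hf.1.map_inv (h.mem A)] at h1
  simpa [mul_assoc, AuR] using mul_mem (mul_mem ((au_cos h hk).2 e1) H) h1

theorem au_step (hc : Chr F ν) (hf : Au F S f) {z C : ℕ} (hi : i ≤ 10) (hj : j ≤ 10) (hk : k ≤ 10)
    (HA : AuR ν f x A i) (HB : AuR ν f y B 2) (c1 : auG i 0 k = true) (c2 : auG 2 j k = true)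
    (hx : x % 3 ^ j = 0) (e1 : z % 3 ^ k = auC x y % 3 ^ k) (e2 : auC A B % 3 ^ k = C % 3 ^ k) :
    AuR ν f z C k := by
  refine au_chg h hc hf hk ?_ e1 e2
  have hA := h.mem A
  have hB := h.mem B
  have H := h.comm_congr (K := G ν k) (fun s hs t ht => h.G_conj hk hs ht) (h.mem x) (h.mem y)
    (h.G_le _ HA) (h.G_le _ HB) (h.comm_G hi (by omega) hk c1 _ HA _ (by
      rw [h.G_zero]; exact mul_mem (h.mem y) (h.G_le _ HB)))
    (h.comm_G (by omega) hj hk c2 _ HB _ ((h.mem_G hj).2 hx))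
  rw [mul_inv_cancel_left, mul_inv_cancel_left] at H
  rw [AuR, auC, auC, h.cmM, h.cmM, hf.1.map_mul (mul_mem (mul_mem hA hB) (inv_mem hA)) (inv_mem hB),
    hf.1.map_conj hA hB, hf.1.map_inv hB]
  exact H

theorem au_all (hc : Chr F ν) (hf : Au F S f) : ∃ a ∈ [1, 2], ∃ b ∈ [1, 2],
    AuR ν f (auP 1 a) 1 2 ∧ AuR ν f (auP 3 b) 3 2 ∧ AuR ν f (auP 9 (a * b)) 9 3 ∧
    AuR ν f (auP 27 (a * b)) 27 4 ∧ AuR ν f (auP 81 b) 81 5 ∧ AuR ν f (auP 243 a) 243 6 ∧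
    AuR ν f (auP 729 1) 729 7 ∧ AuR ν f (auP 2187 a) 2187 8 ∧ AuR ν f (auP 6561 (a * b)) 6561 9 ∧
    AuR ν f (auP 19683 b) 19683 10 := by
  obtain ⟨g, hg, e, -⟩ := hf.exists_inv
  have back : ∀ k ≤ 10, ∀ A, f (ν A) ∈ G ν k → A % 3 ^ k = 0 := fun k hk A H => by
    have := hc.sG k hk g hg _ (hf.2 _ (h.mem A)) H
    rwa [e _ (h.mem A), h.mem_G hk] at this
  obtain ⟨d1, d2, d3, d4, -⟩ := au_D
  obtain ⟨a, ha, r0⟩ : ∃ a ∈ [1, 2], AuR ν f (auP 1 a) 1 2 := by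
    obtain ⟨y, hy⟩ := h.surj _ (hf.2 _ (h.mem 1))
    have h1 := hc.sE f hf _ (h.mem 1) (h.mem_E2.2 (by norm_num))
    have h2 := back 1 (by omega) 1
    rw [← hy, h.mem_E2] at h1
    rw [← hy, h.mem_G (by omega)] at h2
    by_cases hy1 : y % 3 = 1
    · exact ⟨1, by simp, by rw [AuR, ← hy, au_cos h (by omega), d1]; omega⟩
    · exact ⟨2, by simp, by rw [AuR, ← hy, au_cos h (by omega), d2]; omega⟩
  obtain ⟨b, hb, r1⟩ : ∃ b ∈ [1, 2], AuR ν f (auP 3 b) 3 2 := by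
    obtain ⟨y, hy⟩ := h.surj _ (hf.2 _ (h.mem 3))
    have h1 := hc.sG 1 (by omega) f hf _ (h.mem 3) ((h.mem_G (by omega)).2 (by norm_num))
    have h2 := back 2 (by omega) 3
    rw [← hy, h.mem_G (by omega)] at h1 h2
    by_cases hy1 : y % 9 = 3
    · exact ⟨1, by simp, by rw [AuR, ← hy, au_cos h (by omega), d3]; omega⟩
    · exact ⟨2, by simp, by rw [AuR, ← hy, au_cos h (by omega), d4]; omega⟩
  obtain ⟨⟨g1, g2, g3, g4, g5⟩, ⟨g6, g7, g8, g9⟩, g10, g11, g12, g13⟩ := au_G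
  obtain ⟨⟨a3, a4, a5, a6, a7, a8, a9⟩, a10, a11⟩ := au_A
  obtain ⟨⟨b3, b4, b5, b6, b7, b8, b9⟩, ⟨c3, c5, c6, c7, c8⟩, b2⟩ := au_B a ha b hb
  have r3 := au_step h hc hf (j := 0) (by omega) (by omega) (by omega) r1 r0 g1 g1 (Nat.mod_one _) b3 a3
  have r4 := au_step h hc hf (by omega) (by omega) (by omega) r3 r0 g2 g3 c3 b4 a4
  have r5 := au_step h hc hf (by omega) (by omega) (by omega) r3 r1 g4 g5 c3 b5 a5
  have r6 := au_step h hc hf (by omega) (by omega) (by omega) r5 r0 g6 g7 c5 b6 a6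
  have r7 := au_step h hc hf (by omega) (by omega) (by omega) r6 r0 g8 g9 c6 b7 a7
  have r8 := au_step h hc hf (by omega) (by omega) (by omega) r7 r1 g10 g11 c7 b8 a8
  have r9 := au_step h hc hf (by omega) (by omega) (by omega) r8 r0 g12 g13 c8 b9 a9
  refine ⟨a, ha, b, hb, r0, r1, ?_, r3, r4, r5, r6, r7, r8, r9⟩
  obtain ⟨y, hy⟩ := h.surj _ (hf.2 _ (h.mem 9))
  have h1 := hc.sG 2 (by omega) f hf _ (h.mem 9) ((h.mem_G (by omega)).2 (by norm_num))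
  rw [← hy, h.mem_G (by omega)] at h1
  have r2 : AuR ν f (9 * (y / 9 % 9)) 9 4 := by rw [AuR, ← hy, au_cos h (by omega)]; omega
  have c2 : 9 * (y / 9 % 9) % 3 ^ 2 = 0 := by omega
  have z5 : AuR ν f 0 0 5 := by rw [AuR, h.zero, hf.1.map_one, mul_one]; exact inv_mem (one_mem _)
  have := b2 (y / 9 % 9) (Nat.mod_lt _ (by omega))
    (au_uniq h (by omega) z5 (au_step h hc hf (by omega) (by omega) (by omega) r2 r0 g2 g3 c2 rfl a10))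
    (au_uniq h (by omega) r5 (au_step h hc hf (by omega) (by omega) (by omega) r2 r1 g4 g5 c2 rfl a11))
  rw [AuR, ← hy, au_cos h (by omega), this]; omega

end Aux

variable (h : Mod S ν) (hc : Chr F ν)
include h hc

theorem aut {f : Ω → Ω} (hf : Au F S f) : ∃ a b : ℕ, (a = 1 ∨ a = 2) ∧ (b = 1 ∨ b = 2) ∧
    (ν 1 ^ a)⁻¹ * f (ν 1) ∈ G ν 2 ∧ (ν 3 ^ b)⁻¹ * f (ν 3) ∈ G ν 2 ∧
    (ν 9 ^ (a * b))⁻¹ * f (ν 9) ∈ G ν 3 ∧ (ν 2187 ^ a)⁻¹ * f (ν 2187) ∈ G ν 8 ∧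
    (ν 6561 ^ (a * b))⁻¹ * f (ν 6561) ∈ G ν 9 ∧ f (ν 19683) = ν 19683 ^ b := by
  obtain ⟨a, ha, b, hb, r0, r1, r2, -, -, -, -, r7, r8, r9⟩ := au_all h hc hf
  simp only [AuR, au_P h] at r0 r1 r2 r7 r8 r9
  rw [h.G_ten, mem_bot, inv_mul_eq_one] at r9
  exact ⟨a, b, by simpa using ha, by simpa using hb, r0, r1, r2, r7, r8, r9.symm⟩

theorem au_gen {f : Ω → Ω} (hf : Au F S f) (h9 : f (ν 19683) = ν 19683)
    (h8 : (ν 6561)⁻¹ * f (ν 6561) ∈ G ν 9) (i : ℕ) (hi : i < 10) :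
    (ν (3 ^ i))⁻¹ * f (ν (3 ^ i)) ∈ G ν (i + 1) := by
  obtain ⟨a, ha, b, hb, r0, r1, r2, r3, r4, r5, r6, r7, r8, r9⟩ := au_all h hc hf
  obtain ⟨-, -, -, -, d5, d6⟩ := au_D
  have hb1 : b = 1 := by
    have := au_uniq h le_rfl r9 (y := 19683) (by rw [AuR, h9, inv_mul_cancel]; exact one_mem _)
    by_contra hb1
    have hb2 : b = 2 := by simpa [hb1] using hb
    rw [hb2, d6] at this; omega
  have ha1 : a = 1 := by
    have := au_uniq h (by omega) r8 (y := 6561) h8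
    by_contra ha1
    have ha2 : a * b = 2 := by rw [hb1, mul_one]; simpa [ha1] using ha
    rw [ha2, d5] at this; omega
  simp only [AuR, au_P h, ha1, hb1, mul_one, pow_one] at r0 r1 r2 r3 r4 r5 r6 r7 r8 r9
  have r0' := h.G_anti (i := 1) (by omega) (by omega) r0
  interval_cases i <;> norm_num only <;> assumption

theorem au_stab {f : Ω → Ω} (hf : Au F S f) (h9 : f (ν 19683) = ν 19683)
    (h8 : (ν 6561)⁻¹ * f (ν 6561) ∈ G ν 9) (i : ℕ) (hi : i < 10) :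
    ∀ x ∈ G ν i, x⁻¹ * f x ∈ G ν (i + 1) := by
  refine h.stab_cl (g := aG i) (hf.1.mono (h.G_le i)).hom (fun x hx k hk => ?_) fun d hd => ?_
  · have := h.G_conj (i := i + 1) (by omega) (inv_mem (h.cl_le _ hx)) hk
    rwa [inv_inv] at this
  · rw [ent_aG hi.le hd]
    split_ifs with hid
    · exact h.G_anti (by omega) (by omega) (au_gen h hc hf h9 h8 d hd)
    · rw [h.zero, hf.1.map_one, mul_one]; exact inv_mem (one_mem _)

theorem inner (hF : F.IsSaturated 3) {f : Ω → Ω} (hf : Au F S f) (h9 : f (ν 19683) = ν 19683)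
    (h8 : (ν 6561)⁻¹ * f (ν 6561) ∈ G ν 9) : ∃ s ∈ S, ∀ x ∈ S, f x = s * x * s⁻¹ := by
  have : Fact (Nat.Prime 3) := ⟨Nat.prime_three⟩
  have st := au_stab h hc hf h9 h8
  have hG := hc.sG
  have h10 := h.G_ten
  have h0 := h.G_zero
  generalize G ν = K at st hG h10 h0
  have := finite_autGroup F S
  obtain ⟨α, hα, e⟩ := hf.1.exists_aut_of_mem hf.2
  have h3 := mem_map_pCore_of_chain (p := 3) h.isPGroup (fun i => K (10 - i)) 10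
    (fun α hα i x hx H => hG _ (by omega) _ (au_ext le_rfl hα) x hx H)
    (fun x _ H => mem_bot.1 (h10.le H)) h0.ge hα fun i hi x hx H => by
      rw [e x hx, show 10 - i = 10 - (i + 1) + 1 by omega]
      exact st _ (by omega) x H
  obtain ⟨s, hs, e'⟩ := mem_autInducedBy.1 ((sat_sylIn h.isPGroup hF
    (fullyNormalized_of_le_normalizer le_rfl le_normalizer)).le_of_le_normalizer
    (Core.isPGroup_map_pCore _) (map_subtype_le _)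
    (le_normalizer.trans (Core.normalizer_le_normalizer_map_pCore _)) h3)
  exact ⟨s, hs, fun x hx => by rw [← e x hx, e' x hx]⟩

theorem fin (hF : F.IsSaturated 3) {𝓔 : FusionSystem S} (hI : 𝓔.IsInvariantIn F) {f₁ f₂ : Ω → Ω}
    (h1 : Au 𝓔 S f₁) (h2 : Au 𝓔 S f₂) (a9 : f₁ (ν 19683) = (ν 19683)⁻¹)
    (a8 : ν 6561 * f₁ (ν 6561) ∈ G ν 9)
    (b : (f₂ (ν 19683) = ν 19683 ∧ ν 6561 * f₂ (ν 6561) ∈ G ν 9) ∨
      (f₂ (ν 19683) = (ν 19683)⁻¹ ∧ (ν 6561)⁻¹ * f₂ (ν 6561) ∈ G ν 9)) :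
    ∀ P : Subgroup Ω, 𝓔.Hom P = F.Hom P := by
  have up : ∀ {f}, Au 𝓔 S f → Au F S f := fun hf => ⟨hf.1.sub (inv_sub hI), hf.2⟩
  have hy := h.mem 6561
  have hz := h.mem 19683
  have canc : ∀ {f g}, Au F S f → Au 𝓔 S g → Mor 𝓔 S (fun x => g (f x)) → Mor 𝓔 S f :=
    fun hf hg H => by
      obtain ⟨k, hk, e, -⟩ := hg.exists_inv
      exact (H.comp' hk.1 fun x hx => hg.2 _ (hf.2 x hx)).congr fun x hx => e _ (hf.2 x hx)
  obtain ⟨f₃, h3, c9, c8⟩ : ∃ f₃, Au 𝓔 S f₃ ∧ f₃ (ν 19683) = ν 19683 ∧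
      ν 6561 * f₃ (ν 6561) ∈ G ν 9 := by
    rcases b with b | b
    · exact ⟨f₂, h2, b⟩
    · refine ⟨_, h2.comp h1, by rw [b.1, h1.1.map_inv hz, a9, inv_inv], ?_⟩
      have := hc.sG 9 (by omega) _ (up h1) _ (h.G_le _ b.2) b.2
      rw [h1.1.map_mul (inv_mem hy) (h2.2 _ hy), h1.1.map_inv hy] at this
      simpa [mul_assoc] using mul_mem a8 this
  have y3 := h.G_pow (i := 8) (by omega) ((h.mem_G (a := 6561) (by omega)).2 (by norm_num))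
  have z3 := h.G_pow (i := 9) (by omega) ((h.mem_G (a := 19683) (by omega)).2 (by norm_num))
  rw [h.G_ten, mem_bot] at z3
  have A0 : ∀ f, Au F S f → f (ν 19683) = ν 19683 → (ν 6561)⁻¹ * f (ν 6561) ∈ G ν 9 → Mor 𝓔 S f :=
    fun f hf e9 e8 => by
      obtain ⟨s, hs, e⟩ := inner h hc hF hf e9 e8
      exact (Mor.conj 𝓔 le_rfl hs).congr fun x hx => (e x hx).symm
  have A1 : ∀ f, Au F S f → f (ν 19683) = ν 19683 → Mor 𝓔 S f := fun f hf e9 => by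
    obtain ⟨a, b, ha, hb, -, -, -, -, e8, -⟩ := aut h hc hf
    have e := mul_mem y3 e8
    obtain H | H | H : a * b = 1 ∨ a * b = 4 ∨ a * b = 2 := by
      rcases ha with rfl | rfl <;> rcases hb with rfl | rfl <;> simp
    · exact A0 f hf e9 (by rwa [H, pow_one] at e8)
    · exact A0 f hf e9 (by rw [H] at e; convert e using 1; group)
    · have e' : ν 6561 * f (ν 6561) ∈ G ν 9 := by rw [H] at e; convert e using 1; group
      refine canc hf h3 (A0 _ (hf.comp (up h3)) (by rw [e9, c9]) ?_)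
      have := hc.sG 9 (by omega) _ (up h3) _ (h.G_le _ e') e'
      rw [h3.1.map_mul hy (hf.2 _ hy)] at this
      simpa [mul_assoc] using
        mul_mem (h.G_conj (by omega) (inv_mem hy) (inv_mem c8)) (h.G_conj (by omega) (one_mem _) this)
  have A2 : ∀ f, Au F S f → Mor 𝓔 S f := fun f hf => by
    obtain ⟨a, b, -, hb, -, -, -, -, -, e9⟩ := aut h hc hf
    rcases hb with rfl | rfl
    · exact A1 f hf (by rw [e9, pow_one])
    · refine canc hf h1 (A1 _ (hf.comp (up h1)) ?_)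
      rw [e9, sq, h1.1.map_mul hz hz, a9, ← mul_inv_rev, inv_eq_iff_mul_eq_one, ← z3, pow_three']
  intro P
  refine hom_eq_iff.2 fun f => ⟨fun hf => hf.sub (inv_sub hI), fun hf => ?_⟩
  obtain ⟨a, f₀, ha, -, h0, e⟩ := inv_frattini hI hf.le hf
  exact (h0.comp' (A2 a ⟨ha, fun x hx => ha.mem hx⟩) fun x hx => h0.mem hx).congr
    fun x hx => (e x hx).symm

end CfsgLib.Th3
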