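import Cfsg.Agent.Lib.Th3.Code

/-! Package BAS: basic properties of the model. -/

set_option autoImplicit false
set_option maxRecDepth 100000
set_option linter.unusedSectionVars false

namespace CfsgLib.Th3

open Subgroup Cfsg Cfsg.FusionSystem CfsgLib.Comput CfsgLib.Fusion CfsgLib.ExSp4

variable {Ω : Type*} [Group Ω] {S K T : Subgroup Ω} {ν : ℕ → Ω} {g : ℕ}

theorem ent_mem_cl (ν : ℕ → Ω) (g : ℕ) {d : ℕ} (hd : d < 10) : ν (ent g d) ∈ cl ν g :=
  subset_closure ⟨d, hd, rfl⟩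

theorem cl_le_iff : cl ν g ≤ K ↔ ∀ d < 10, ν (ent g d) ∈ K := by
  rw [cl, closure_le]
  exact ⟨fun H d hd => H ⟨d, hd, rfl⟩, by rintro H _ ⟨d, hd, rfl⟩; exact H d hd⟩

theorem allE_sound {P : ℕ → Bool} (h : allE g P = true) :
    ∀ d < 10, ent g d = 0 ∨ P (ent g d) = true := by
  intro d hd
  have := allLt_sound h d hd
  rw [force_eq, cnd_eq] at this
  split_ifs at this with e
  · exact Or.inl (Nat.eq_of_beq_eq_true e)
  · exact Or.inr this

theorem wf_sound (h : wf g = true) : ∀ d < 10, ent g d = 0 ∨ ent g d % 3 ^ (d + 1) = 3 ^ d := by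
  intro d hd
  have := allLt_sound h d hd
  rw [force_eq, cnd_eq] at this
  split_ifs at this with e
  · exact Or.inl (Nat.eq_of_beq_eq_true e)
  · exact Or.inr (Nat.eq_of_beq_eq_true this)

theorem ent_aG {i d : ℕ} (hi : i ≤ 10) (hd : d < 10) : ent (aG i) d = if i ≤ d then 3 ^ d else 0 := by
  have : ∀ i < 11, ∀ d < 10, ent (aG i) d = if i ≤ d then 3 ^ d else 0 := by decide +kernel
  exact this i (by omega) d hd

namespace Bas

theorem dig_le {i a : ℕ} (hi : i ≤ 10) (ha : a % 3 ^ i = 0) (b : ℕ) :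
    mul a b % 3 ^ i = b % 3 ^ i := by
  rcases i with _ | j
  · simp only [pow_zero, Nat.mod_one]
  · have h1 : a % 3 ^ j = 0 := by
      rw [← Nat.mod_mod_of_dvd a (pow_dvd_pow 3 (Nat.le_succ j)), ha, Nat.zero_mod]
    rw [dig (by omega) h1, Nat.add_mod, ha, Nat.zero_add, Nat.mod_mod]

theorem mod_succ_iff {i a : ℕ} : a % 3 ^ (i + 1) = 0 ↔ a % 3 ^ i = 0 ∧ a / 3 ^ i % 3 = 0 := by
  rw [Nat.mod_pow_succ, Nat.add_eq_zero_iff, Nat.mul_eq_zero]
  have : 3 ^ i ≠ 0 := by positivity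
  tauto

theorem dig_digit {i a b : ℕ} (hi : i < 10) (ha : a % 3 ^ i = 0) (hb : b % 3 ^ i = 0) :
    mul a b % 3 ^ i = 0 ∧ mul a b / 3 ^ i % 3 = (a / 3 ^ i % 3 + b / 3 ^ i % 3) % 3 := by
  have h1 : mul a b % 3 ^ i = 0 := by rw [dig_le hi.le ha, hb]
  refine ⟨h1, ?_⟩
  have h2 := dig hi ha b
  have h3 : (a + b) % 3 ^ i = 0 := by rw [Nat.add_mod, ha, hb]; simp
  rw [Nat.mod_pow_succ, Nat.mod_pow_succ, h1, h3, Nat.zero_add, Nat.zero_add,
    Nat.add_div_of_dvd_right (Nat.dvd_of_mod_eq_zero ha)] at h2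
  rw [Nat.eq_of_mul_eq_mul_left (by positivity) h2, ← Nat.add_mod]

theorem mod_of_mod {i a b : ℕ} (hi : i ≤ 10) (h : a % 59049 = b % 59049) : a % 3 ^ i = b % 3 ^ i := by
  have hd : 3 ^ i ∣ 59049 := pow_dvd_pow 3 hi
  rw [← Nat.mod_mod_of_dvd a hd, h, Nat.mod_mod_of_dvd b hd]

theorem mod_of_le {i j a : ℕ} (hij : i ≤ j) (h : a % 3 ^ j = 0) : a % 3 ^ i = 0 := by
  rw [← Nat.mod_mod_of_dvd a (pow_dvd_pow 3 hij), h, Nat.zero_mod]

theorem le_norm (H : ∀ s ∈ S, ∀ x ∈ K, s * x * s⁻¹ ∈ K) : S ≤ normalizer (K : Set Ω) := by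
  intro s hs
  refine mem_normalizer_iff.2 fun x => ⟨H s hs x, fun hx => ?_⟩
  have := H s⁻¹ (inv_mem hs) _ hx
  rwa [show s⁻¹ * (s * x * s⁻¹) * s⁻¹⁻¹ = x by group] at this

end Bas

open Bas

namespace Mod

variable (h : Mod S ν)
include h

theorem zero : ν 0 = 1 := by
  have h1 := h.mul 0 0
  rw [show Th3.mul 0 0 = 0 by decide +kernel] at h1
  exact left_eq_mul.1 h1

theorem eq_one {a : ℕ} : ν a = 1 ↔ a % 59049 = 0 := by
  rw [← h.zero, h.eq_iff]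

theorem surj' {x : Ω} (hx : x ∈ S) : ∃ a < 59049, ν a = x := by
  obtain ⟨a, rfl⟩ := h.surj x hx
  exact ⟨a % 59049, Nat.mod_lt _ (by norm_num), (h.eq_iff _ _).2 (Nat.mod_mod _ _)⟩

theorem inv (a : ℕ) : ν (inv a) = (ν a)⁻¹ := by
  refine eq_inv_of_mul_eq_one_left ?_
  rw [← h.mul, inv_mul_code, h.zero]

theorem cm (a b : ℕ) : ν (cm a b) = (ν a)⁻¹ * (ν b)⁻¹ * ν a * ν b := by
  rw [Th3.cm, force_eq, force_eq, cnd_eq, force_eq]
  split_ifs with e
  · have := congrArg ν (Nat.eq_of_beq_eq_true e)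
    rw [h.mul, h.mul] at this
    rw [h.zero, mul_assoc, this]; group
  · rw [h.mul, h.inv, h.mul, h.mul]; group

theorem cmM (a b : ℕ) : ν (Th3.cm (Th3.inv a) (Th3.inv b)) = ν a * ν b * (ν a)⁻¹ * (ν b)⁻¹ := by
  rw [h.cm, h.inv, h.inv, inv_inv, inv_inv]

theorem cube (a : ℕ) : ν (cube a) = ν a ^ 3 := by
  rw [Th3.cube, force_eq, h.mul, h.mul, pow_three]

theorem cj (s a : ℕ) : ν (cj s (Th3.inv s) a) = ν s * ν a * (ν s)⁻¹ := by
  rw [Th3.cj, force_eq, h.mul, h.mul, h.inv]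

theorem card : Nat.card S = 3 ^ 10 := by
  have : Function.Bijective fun a : Fin 59049 => (⟨ν a, h.mem a⟩ : S) := by
    refine ⟨fun a b e => Fin.ext ?_, fun x => ?_⟩
    · have := (h.eq_iff _ _).1 (congrArg Subtype.val e)
      rwa [Nat.mod_eq_of_lt a.2, Nat.mod_eq_of_lt b.2] at this
    · obtain ⟨a, ha, e⟩ := h.surj' x.2
      exact ⟨⟨a, ha⟩, Subtype.ext e⟩
  rw [← Nat.card_eq_of_bijective _ this, Nat.card_fin]; norm_num

theorem finite : Finite S := by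
  exact Nat.finite_of_card_ne_zero (by rw [h.card]; norm_num)

theorem isPGroup : IsPGroup 3 S := by
  exact IsPGroup.of_card h.card

theorem cl_le (g : ℕ) : cl ν g ≤ S := by
  exact cl_le_iff.2 fun _ _ => h.mem _

theorem cl_zero : cl ν 0 = ⊥ := by
  refine le_bot_iff.1 (cl_le_iff.2 fun d hd => ?_)
  have : ∀ d < 10, ent 0 d = 0 := by decide +kernel
  rw [this d hd, h.zero]
  exact one_mem _

theorem cl_le_of_allE {P : ℕ → Bool} (hP : allE g P = true) (hK : ∀ a, P a = true → ν a ∈ K) :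
    cl ν g ≤ K := by
  refine cl_le_iff.2 fun d hd => ?_
  rcases allE_sound hP d hd with e | e
  · rw [e, h.zero]; exact one_mem _
  · exact hK _ e

/-- a homomorphism that is trivial modulo `K` on the entries -/
theorem stab_cl {φ : Ω → Ω} (hφ : IsHomOn (cl ν g) φ) (hK : ∀ x ∈ cl ν g, ∀ k ∈ K, x⁻¹ * k * x ∈ K)
    (he : ∀ d < 10, (ν (ent g d))⁻¹ * φ (ν (ent g d)) ∈ K) : ∀ x ∈ cl ν g, x⁻¹ * φ x ∈ K := by
  intro x hx
  induction hx using closure_induction with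
  | mem x hx => obtain ⟨d, hd, rfl⟩ := hx; exact he d hd
  | one => rw [hφ.map_one, inv_one, mul_one]; exact one_mem _
  | mul x y hx hy ihx ihy =>
    have := K.mul_mem (hK y hy _ ihx) ihy
    rw [hφ x hx y hy]
    convert this using 1
    group
  | inv x hx ih =>
    have := K.inv_mem (hK x⁻¹ (inv_mem hx) _ ih)
    rw [hφ.map_inv hx]
    convert this using 1
    group

/-- commutators of the entries lie in `K` -/
theorem cm_cl {A B : ℕ} (hA : ∀ x ∈ cl ν A, ∀ k ∈ K, x⁻¹ * k * x ∈ K)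
    (hB : ∀ x ∈ cl ν B, ∀ k ∈ K, x⁻¹ * k * x ∈ K)
    (he : ∀ d < 10, ∀ d' < 10, ν (Th3.cm (ent A d) (ent B d')) ∈ K) :
    ∀ x ∈ cl ν A, ∀ y ∈ cl ν B, x⁻¹ * y⁻¹ * x * y ∈ K := by
  intro x hx y hy
  have h1 := h.stab_cl (g := A) (φ := fun x => y⁻¹ * x * y) (fun a _ b _ => by group) hA
    (fun d hd => by
      have h2 := h.stab_cl (g := B) (φ := fun z => (ν (ent A d))⁻¹ * z * ν (ent A d))
        (fun a _ b _ => by group) hB (fun d' hd' => by
          have := K.inv_mem (he d hd d' hd')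
          rw [h.cm] at this
          convert this using 1
          group) y hy
      have := K.inv_mem h2
      convert this using 1
      group) x hx
  convert h1 using 1
  group

/-- conjugation by `s` maps the entries into `K` -/
theorem conj_cl {s : Ω} (he : ∀ d < 10, s * ν (ent g d) * s⁻¹ ∈ K) :
    ∀ x ∈ cl ν g, s * x * s⁻¹ ∈ K := by
  exact fun x hx => (cl_le_iff (K := K.comap (MulAut.conj s).toMonoidHom)).2 he hx

/-- the elements of depth at least `i` -/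
def dep (i : ℕ) : Subgroup Ω where
  carrier := {x | ∃ c, c % 3 ^ (min i 10) = 0 ∧ ν c = x}
  one_mem' := ⟨0, Nat.zero_mod _, h.zero⟩
  mul_mem' := by
    rintro _ _ ⟨a, ha, rfl⟩ ⟨b, hb, rfl⟩
    exact ⟨Th3.mul a b, by rw [dig_le (min_le_right _ _) ha, hb], h.mul a b⟩
  inv_mem' := by
    rintro _ ⟨a, ha, rfl⟩
    refine ⟨Th3.inv a, ?_, h.inv a⟩
    have h1 : Th3.mul a (Th3.inv a) % 59049 = 0 % 59049 :=
      (h.eq_iff _ _).1 (by rw [h.mul, h.inv, mul_inv_cancel, h.zero])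
    rw [← dig_le (min_le_right _ _) ha, mod_of_mod (min_le_right _ _) h1, Nat.zero_mod]

theorem mem_dep {i a : ℕ} (hi : i ≤ 10) : ν a ∈ h.dep i ↔ a % 3 ^ i = 0 := by
  change (∃ c, c % 3 ^ (min i 10) = 0 ∧ ν c = ν a) ↔ _
  rw [min_eq_left hi]
  exact ⟨fun ⟨c, hc, e⟩ => by rw [← mod_of_mod hi ((h.eq_iff _ _).1 e), hc], fun ha => ⟨a, ha, rfl⟩⟩

theorem mem_G {i a : ℕ} (hi : i ≤ 10) : ν a ∈ G ν i ↔ a % 3 ^ i = 0 := by
  have hle : ∀ i ≤ 10, G ν i ≤ h.dep i := fun i hi => cl_le_iff.2 fun d hd => by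
    rw [h.mem_dep hi, ent_aG hi hd]
    split_ifs with e
    · exact Nat.mod_eq_zero_of_dvd (pow_dvd_pow 3 e)
    · exact Nat.zero_mod _
  refine ⟨fun H => (h.mem_dep hi).1 (hle i hi H), ?_⟩
  have key : ∀ j ≤ 10, ∀ a, a % 3 ^ (10 - j) = 0 → ν a ∈ G ν (10 - j) := by
    intro j
    induction j with
    | zero =>
      intro _ a ha
      rw [h.eq_one.2 ha]; exact one_mem _
    | succ j ih =>
      intro hj a ha
      obtain ⟨k, hk⟩ : ∃ k, k = 10 - (j + 1) := ⟨_, rfl⟩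
      have e1 : 10 - j = k + 1 := by omega
      rw [e1] at ih
      rw [← hk] at ha ⊢
      have hk10 : k < 10 := by omega
      have hanti : G ν (k + 1) ≤ G ν k := cl_le_iff.2 fun d hd => by
        rw [ent_aG hk10 hd]
        split_ifs with e
        · have := ent_mem_cl ν (aG k) hd
          rwa [ent_aG hk10.le hd, if_pos (by omega)] at this
        · rw [h.zero]; exact one_mem _
      have hg : ν (3 ^ k) ∈ G ν k := by
        have := ent_mem_cl ν (aG k) hk10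
        rwa [ent_aG hk10.le hk10, if_pos le_rfl] at this
      have p0 : 3 ^ k % 3 ^ k = 0 := Nat.mod_self _
      have p1 : 3 ^ k / 3 ^ k % 3 = 1 := by rw [Nat.div_self (by positivity)]
      obtain ⟨a1, d1⟩ := dig_digit hk10 p0 ha
      obtain ⟨a2, d2⟩ := dig_digit hk10 p0 a1
      rw [p1] at d1 d2
      have tri : a / 3 ^ k % 3 = 0 ∨ Th3.mul (3 ^ k) a / 3 ^ k % 3 = 0 ∨
          Th3.mul (3 ^ k) (Th3.mul (3 ^ k) a) / 3 ^ k % 3 = 0 := by omega
      rcases tri with e | e | e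
      · exact hanti (ih (by omega) a (mod_succ_iff.2 ⟨ha, e⟩))
      · have := hanti (ih (by omega) _ (mod_succ_iff.2 ⟨a1, e⟩))
        rwa [h.mul, mul_mem_cancel_left hg] at this
      · have := hanti (ih (by omega) _ (mod_succ_iff.2 ⟨a2, e⟩))
        rwa [h.mul, h.mul, mul_mem_cancel_left hg, mul_mem_cancel_left hg] at this
  have := key (10 - i) (by omega) a
  rwa [show 10 - (10 - i) = i by omega] at this

theorem G_le (i : ℕ) : G ν i ≤ S := h.cl_le _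

theorem G_zero : G ν 0 = S := by
  refine le_antisymm (h.G_le 0) fun x hx => ?_
  obtain ⟨a, rfl⟩ := h.surj x hx
  exact (h.mem_G (by norm_num)).2 (Nat.mod_one a)

theorem G_ten : G ν 10 = ⊥ := by
  refine le_bot_iff.1 fun x hx => ?_
  obtain ⟨a, rfl⟩ := h.surj x (h.G_le 10 hx)
  exact h.eq_one.2 ((h.mem_G le_rfl).1 hx)

theorem G_anti {i j : ℕ} (hij : i ≤ j) (hj : j ≤ 10) : G ν j ≤ G ν i := by
  intro x hx
  obtain ⟨a, rfl⟩ := h.surj x (h.G_le j hx)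
  exact (h.mem_G (hij.trans hj)).2 (mod_of_le hij ((h.mem_G hj).1 hx))

theorem card_G {i : ℕ} (hi : i ≤ 10) : Nat.card (G ν i) = 3 ^ (10 - i) := by
  have hp : 3 ^ i * 3 ^ (10 - i) = 59049 := by
    rw [← pow_add, Nat.add_sub_cancel' hi]; norm_num
  have h0 : 0 < 3 ^ i := by positivity
  have : Function.Bijective fun k : Fin (3 ^ (10 - i)) =>
      (⟨ν (3 ^ i * k), (h.mem_G hi).2 (Nat.mul_mod_right _ _)⟩ : G ν i) := by
    refine ⟨fun a b e => Fin.ext ?_, fun x => ?_⟩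
    · have := (h.eq_iff _ _).1 (congrArg Subtype.val e)
      rw [Nat.mod_eq_of_lt (hp ▸ Nat.mul_lt_mul_of_pos_left a.2 h0),
        Nat.mod_eq_of_lt (hp ▸ Nat.mul_lt_mul_of_pos_left b.2 h0)] at this
      exact Nat.eq_of_mul_eq_mul_left h0 this
    · obtain ⟨a, ha, e⟩ := h.surj' (h.G_le i x.2)
      obtain ⟨k, rfl⟩ := Nat.dvd_of_mod_eq_zero ((h.mem_G hi).1 (e ▸ x.2))
      exact ⟨⟨k, Nat.lt_of_mul_lt_mul_left (hp ▸ ha)⟩, Subtype.ext e⟩
  rw [← Nat.card_eq_of_bijective _ this, Nat.card_fin]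

theorem cm_ent {A B k : ℕ} (hk : k ≤ 10)
    (hc : allE A (fun a => allE B fun b => Nat.beq (Th3.cm a b % 3 ^ k) 0) = true) :
    ∀ d < 10, ∀ d' < 10, ν (Th3.cm (ent A d) (ent B d')) ∈ G ν k := by
  intro d hd d' hd'
  rcases allE_sound hc d hd with e | e
  · rw [h.cm, e, h.zero]; simp
  · rcases allE_sound e d' hd' with e' | e'
    · rw [h.cm, e', h.zero]; simp
    · exact (h.mem_G hk).2 (Nat.eq_of_beq_eq_true e')

theorem step_conj : ∀ j ≤ 10, ∀ i, i + j = 10 → (∀ s ∈ S, ∀ x ∈ G ν i, s * x * s⁻¹ ∈ G ν i) ∧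
    (i < 10 → ∀ s ∈ S, ∀ x ∈ G ν i, x⁻¹ * (s * x * s⁻¹) ∈ G ν (i + 1)) := by
  have hc : allLt (fun i => allE (aG i) (fun a => allE (aG 0) fun b =>
      Nat.beq (Th3.cm a b % 3 ^ (i + 1)) 0)) 10 = true := by decide +kernel
  intro j
  induction j with
  | zero =>
    rintro - i rfl
    refine ⟨fun s _ x hx => ?_, fun h => absurd h (lt_irrefl _)⟩
    rw [h.G_ten] at hx ⊢
    rw [mem_bot.1 hx]; simp
  | succ j ih =>
    intro hj i hi
    have hn := (ih (by omega) (i + 1) (by omega)).1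
    have hn' : ∀ x ∈ S, ∀ k ∈ G ν (i + 1), x⁻¹ * k * x ∈ G ν (i + 1) := fun x hx k hk => by
      have := hn x⁻¹ (inv_mem hx) k hk
      rwa [inv_inv] at this
    have key : ∀ s ∈ S, ∀ x ∈ G ν i, x⁻¹ * (s * x * s⁻¹) ∈ G ν (i + 1) := by
      intro s hs x hx
      have := h.cm_cl (A := aG i) (B := aG 0) (fun x hx => hn' x (h.cl_le _ hx))
        (fun x hx => hn' x (h.cl_le _ hx)) (h.cm_ent (by omega) (allLt_sound hc i (by omega))) x hx
        s⁻¹ (show s⁻¹ ∈ G ν 0 from h.G_zero.symm ▸ inv_mem hs)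
      rwa [inv_inv, mul_assoc, mul_assoc, ← mul_assoc s] at this
    refine ⟨fun s hs x hx => ?_, fun _ => key⟩
    have := mul_mem hx (h.G_anti (Nat.le_succ i) (by omega) (key s hs x hx))
    rwa [mul_inv_cancel_left] at this

theorem G_step {i : ℕ} (hi : i < 10) {s x : Ω} (hs : s ∈ S) (hx : x ∈ G ν i) :
    x⁻¹ * (s * x * s⁻¹) ∈ G ν (i + 1) := by
  exact (h.step_conj (10 - i) (by omega) i (by omega)).2 hi s hs x hx

theorem G_conj {i : ℕ} (hi : i ≤ 10) {s x : Ω} (hs : s ∈ S) (hx : x ∈ G ν i) :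
    s * x * s⁻¹ ∈ G ν i := by
  exact (h.step_conj (10 - i) (by omega) i (by omega)).1 s hs x hx

theorem G_norm {i : ℕ} (hi : i ≤ 10) : S ≤ normalizer (G ν i : Set Ω) := by
  exact le_norm fun _ hs _ hx => h.G_conj hi hs hx

theorem G_pow {i : ℕ} (hi : i < 10) {x : Ω} (hx : x ∈ G ν i) : x ^ 3 ∈ G ν (i + 1) := by
  obtain ⟨a, rfl⟩ := h.surj x (h.G_le i hx)
  have ha := (h.mem_G hi.le).1 hx
  obtain ⟨a1, d1⟩ := dig_digit hi ha ha
  obtain ⟨a2, d2⟩ := dig_digit hi ha a1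
  rw [pow_three, ← h.mul, ← h.mul, h.mem_G hi, mod_succ_iff]
  exact ⟨a2, by omega⟩

theorem gen_depth {i : ℕ} (hi : i < 10) : ν (3 ^ i) ∈ G ν i ∧ ν (3 ^ i) ∉ G ν (i + 1) := by
  rw [h.mem_G hi.le, h.mem_G hi, mod_succ_iff, Nat.div_self (by positivity)]
  exact ⟨Nat.mod_self _, fun h => absurd h.2 (by norm_num)⟩

/-- an element of depth `i` clears the digit `i` -/
theorem exists_pow_mul {i : ℕ} (hi : i < 10) {x y : Ω} (hx : x ∈ G ν i) (hx' : x ∉ G ν (i + 1))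
    (hy : y ∈ G ν i) : ∃ e < 3, x ^ e * y ∈ G ν (i + 1) := by
  obtain ⟨a, rfl⟩ := h.surj x (h.G_le i hx)
  obtain ⟨b, rfl⟩ := h.surj y (h.G_le i hy)
  have ha := (h.mem_G hi.le).1 hx
  have hb := (h.mem_G hi.le).1 hy
  rw [h.mem_G hi, mod_succ_iff] at hx'
  obtain ⟨a1, d1⟩ := dig_digit hi ha hb
  obtain ⟨a2, d2⟩ := dig_digit hi ha a1
  have tri : b / 3 ^ i % 3 = 0 ∨ Th3.mul a b / 3 ^ i % 3 = 0 ∨
      Th3.mul a (Th3.mul a b) / 3 ^ i % 3 = 0 := by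
    have h0 : a / 3 ^ i % 3 ≠ 0 := fun e => hx' ⟨ha, e⟩
    generalize a / 3 ^ i = p, b / 3 ^ i = q, Th3.mul a b / 3 ^ i = r,
      Th3.mul a (Th3.mul a b) / 3 ^ i = t at *
    have hp : p % 3 = 1 ∨ p % 3 = 2 := by omega
    have hq : q % 3 = 0 ∨ q % 3 = 1 ∨ q % 3 = 2 := by omega
    rcases hp with hp | hp <;> rcases hq with hq | hq | hq <;> rw [hp, hq] at d1 <;>
      rw [hp, d1] at d2 <;> omega
  rcases tri with e | e | e
  · exact ⟨0, by norm_num, by rw [pow_zero, one_mul, h.mem_G hi, mod_succ_iff]; exact ⟨hb, e⟩⟩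
  · exact ⟨1, by norm_num, by rw [pow_one, ← h.mul, h.mem_G hi, mod_succ_iff]; exact ⟨a1, e⟩⟩
  · exact ⟨2, by norm_num, by
      rw [pow_two, mul_assoc, ← h.mul, ← h.mul, h.mem_G hi, mod_succ_iff]; exact ⟨a2, e⟩⟩

theorem sq_not_mem {i : ℕ} (hi : i < 10) {x : Ω} (hx : x ∈ G ν i) (hx' : x ∉ G ν (i + 1)) :
    x ^ 2 ∉ G ν (i + 1) := fun h2 => by
  have := h.G_pow hi hx
  rw [pow_succ, mul_mem_cancel_left h2] at this
  exact hx' this

/-- downward induction on the depth -/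
theorem inf_le_of_depths {A : Subgroup Ω} {k : ℕ} (hk : k ≤ 10)
    (H : ∀ d, k ≤ d → d < 10 → ∀ y ∈ A, y ∈ G ν d → y ∉ G ν (d + 1) →
      ∃ z ∈ A, z ∈ K ∧ z ∈ G ν d ∧ z ∉ G ν (d + 1)) : ∀ y ∈ A, y ∈ G ν k → y ∈ K := by
  have key : ∀ j ≤ 10, ∀ i, i + j = 10 → k ≤ i → ∀ y ∈ A, y ∈ G ν i → y ∈ K := by
    intro j
    induction j with
    | zero =>
      rintro - i rfl - y - hy
      rw [h.G_ten] at hy
      rw [mem_bot.1 hy]; exact one_mem _
    | succ j ih =>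
      intro hj i hi hki y hy hyi
      by_cases h1 : y ∈ G ν (i + 1)
      · exact ih (by omega) (i + 1) (by omega) (by omega) y hy h1
      · obtain ⟨z, hz, hzK, hz1, hz2⟩ := H i hki (by omega) y hy hyi h1
        obtain ⟨e, -, he⟩ := h.exists_pow_mul (by omega) hz1 hz2 hyi
        have := ih (by omega) (i + 1) (by omega) (by omega) _ (mul_mem (pow_mem hz e) hy) he
        rwa [mul_mem_cancel_left (pow_mem hzK e)] at this
  exact key (10 - k) (by omega) k (by omega) le_rfl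

/-- right cosets of the tails -/
theorem coset {k a b : ℕ} (hk : k ≤ 10) : ν a * (ν b)⁻¹ ∈ G ν k ↔ a % 3 ^ k = b % 3 ^ k := by
  obtain ⟨c, hc⟩ := h.surj _ (mul_mem (h.mem a) (inv_mem (h.mem b)))
  have h1 : Th3.mul c b % 59049 = a % 59049 :=
    (h.eq_iff _ _).1 (by rw [h.mul, hc, inv_mul_cancel_right])
  rw [← hc, h.mem_G hk]
  refine ⟨fun h2 => by rw [← mod_of_mod hk h1, dig_le hk h2], ?_⟩
  induction k with
  | zero => exact fun _ => Nat.mod_one c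
  | succ k ih =>
    intro h2
    have h3 := ih (by omega) (by
      rw [← Nat.mod_mod_of_dvd a (pow_dvd_pow 3 (Nat.le_succ k)), h2,
        Nat.mod_mod_of_dvd b (pow_dvd_pow 3 (Nat.le_succ k))])
    have h4 := dig hk h3 b
    rw [mod_of_mod hk h1, h2] at h4
    have h5 : c + b ≡ 0 + b [MOD 3 ^ (k + 1)] := by rw [Nat.zero_add]; exact h4.symm
    exact Nat.ModEq.add_right_cancel' b h5

/-- the leading digit -/
theorem G_digit {i : ℕ} (hi : i < 10) {x : Ω} (hx : x ∈ G ν i) :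
    ∃ e < 3, (ν (3 ^ i) ^ e)⁻¹ * x ∈ G ν (i + 1) := by
  obtain ⟨h1, h2⟩ := h.gen_depth hi
  obtain ⟨e, he, h3⟩ := h.exists_pow_mul hi (inv_mem h1) (fun h' => h2 (inv_mem_iff.1 h')) hx
  exact ⟨e, he, by rwa [← inv_pow]⟩

theorem G2_le_E2 : G ν 2 ≤ E2 ν := cl_le_iff.2 fun d hd => by
  rcases (by decide +kernel : ∀ d < 10, ent (aG 2) d = 0 ∨ ent (aG 2) d = ent aE2 d) d hd with e | e
  · rw [e, h.zero]; exact one_mem _
  · rw [e]; exact ent_mem_cl ν aE2 hd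

theorem mem_E2 {a : ℕ} : ν a ∈ E2 ν ↔ a / 3 % 3 = 0 := by
  have hco : ∀ a e, ν a * (ν e)⁻¹ ∈ G ν 2 ↔ a % 9 = e % 9 := fun a e => h.coset (by norm_num)
  let D : Subgroup Ω :=
    { carrier := {x | ∃ c, c / 3 % 3 = 0 ∧ ν c = x}
      one_mem' := ⟨0, rfl, h.zero⟩
      mul_mem' := by
        rintro _ _ ⟨a, ha, rfl⟩ ⟨b, hb, rfl⟩
        refine ⟨Th3.mul a b, ?_, h.mul a b⟩
        have h1 := (hco a (a % 3)).2 (by omega)
        have h2 := (hco b (b % 3)).2 (by omega)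
        have h3 := mul_mem h1 (h.G_conj (by norm_num) (h.mem (a % 3)) h2)
        have h4 := (hco (Th3.mul a b) (Th3.mul (a % 3) (b % 3))).1 (by
          rw [h.mul, h.mul]; convert h3 using 1; group)
        have h5 : ∀ e < 3, ∀ f < 3, Th3.mul e f / 3 % 3 = 0 := by decide +kernel
        have := h5 (a % 3) (by omega) (b % 3) (by omega)
        omega
      inv_mem' := by
        rintro _ ⟨a, ha, rfl⟩
        refine ⟨Th3.inv a, ?_, h.inv a⟩
        have h1 := (hco a (a % 3)).2 (by omega)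
        have h3 := h.G_conj (by norm_num) (inv_mem (h.mem (a % 3))) (inv_mem h1)
        have h4 := (hco (Th3.inv a) (Th3.inv (a % 3))).1 (by
          rw [h.inv, h.inv]; convert h3 using 1; group)
        have h5 : ∀ e < 3, Th3.inv e / 3 % 3 = 0 := by decide +kernel
        have := h5 (a % 3) (by omega)
        omega }
  constructor
  · intro hx
    have hle : E2 ν ≤ D := cl_le_iff.2 fun d hd => ⟨_, (by decide +kernel :
      ∀ d < 10, ent aE2 d / 3 % 3 = 0) d hd, rfl⟩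
    obtain ⟨c, hc, e⟩ := hle hx
    have := (h.eq_iff _ _).1 e
    omega
  · intro ha
    have h1 := h.G2_le_E2 ((hco a (a % 3)).2 (by omega))
    have h2 : ν 1 ∈ E2 ν := ent_mem_cl ν aE2 (d := 0) (by norm_num)
    have h3 : ν (a % 3) ∈ E2 ν := by
      have tri : a % 3 = 0 ∨ a % 3 = 1 ∨ a % 3 = 2 := by omega
      rcases tri with e | e | e <;> rw [e]
      · rw [h.zero]; exact one_mem _
      · exact h2
      · rw [show 2 = Th3.mul 1 1 by decide +kernel, h.mul]; exact mul_mem h2 h2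
    rwa [mul_mem_cancel_right (inv_mem h3)] at h1

theorem E2_norm : S ≤ normalizer (E2 ν : Set Ω) := by
  refine le_norm fun s hs x hx => ?_
  have hn : ∀ x ∈ cl ν (aG 0), ∀ k ∈ G ν 2, x⁻¹ * k * x ∈ G ν 2 := fun x hx k hk => by
    have := h.G_conj (by norm_num) (inv_mem (h.cl_le _ hx)) hk
    rwa [inv_inv] at this
  have h1 := h.cm_cl hn hn (h.cm_ent (by norm_num) (by decide +kernel)) x
    (show x ∈ G ν 0 from h.G_zero.symm ▸ h.cl_le _ hx) s⁻¹
    (show s⁻¹ ∈ G ν 0 from h.G_zero.symm ▸ inv_mem hs)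
  have := mul_mem hx (h.G2_le_E2 h1)
  convert this using 1
  group

theorem card_E2 : Nat.card (E2 ν) = 3 ^ 9 := by
  have : Function.Bijective fun k : Fin 19683 =>
      (⟨ν (k % 3 + 9 * (k / 3)), h.mem_E2.2 (by omega)⟩ : E2 ν) := by
    refine ⟨fun a b e => Fin.ext ?_, fun x => ?_⟩
    · have := (h.eq_iff _ _).1 (congrArg Subtype.val e)
      omega
    · obtain ⟨a, ha, e⟩ := h.surj' (h.cl_le _ x.2)
      have h1 := h.mem_E2.1 (e ▸ x.2)
      refine ⟨⟨a % 3 + 3 * (a / 9), by omega⟩, Subtype.ext (Eq.trans (congrArg ν ?_) e)⟩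
      change (a % 3 + 3 * (a / 9)) % 3 + 9 * ((a % 3 + 3 * (a / 9)) / 3) = a
      omega
  rw [← Nat.card_eq_of_bijective _ this, Nat.card_fin]; norm_num

theorem le_of_depths {k : ℕ} (hk : k ≤ 10)
    (hT : ∀ d, k ≤ d → d < 10 → ∃ x ∈ T, x ∈ G ν d ∧ x ∉ G ν (d + 1)) : G ν k ≤ T := by
  exact fun y hy => h.inf_le_of_depths (A := ⊤) hk (fun d h1 h2 _ _ _ _ =>
    let ⟨x, hx, h3⟩ := hT d h1 h2; ⟨x, mem_top x, hx, h3⟩) y (mem_top y) hy

/-- commutators of tails -/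
theorem comm_G {i j k : ℕ} (hi : i ≤ 10) (hj : j ≤ 10) (hk : k ≤ 10)
    (hc : allE (aG i) (fun a => allE (aG j) fun b => Nat.beq (Th3.cm a b % 3 ^ k) 0) = true) :
    ∀ x ∈ G ν i, ∀ y ∈ G ν j, x⁻¹ * y⁻¹ * x * y ∈ G ν k := by
  have hn : ∀ A, ∀ x ∈ cl ν A, ∀ z ∈ G ν k, x⁻¹ * z * x ∈ G ν k := fun A x hx z hz => by
    have := h.G_conj hk (inv_mem (h.cl_le _ hx)) hz
    rwa [inv_inv] at this
  exact h.cm_cl (hn _) (hn _) (h.cm_ent hk hc)

/-- commutators modulo a normal subgroup -/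
theorem comm_congr (hK : ∀ s ∈ S, ∀ k ∈ K, s * k * s⁻¹ ∈ K) {x y u v : Ω} (hx : x ∈ S) (hy : y ∈ S)
    (hu : u ∈ S) (hv : v ∈ S) (h1 : u⁻¹ * (y * v)⁻¹ * u * (y * v) ∈ K) (h2 : v⁻¹ * x⁻¹ * v * x ∈ K) :
    (x * y * x⁻¹ * y⁻¹)⁻¹ * ((x * u) * (y * v) * (x * u)⁻¹ * (y * v)⁻¹) ∈ K := by
  have h3 : y * v * x ∈ S := mul_mem (mul_mem hy hv) hx
  have := K.mul_mem (hK _ h3 _ (K.inv_mem h2)) (hK _ (mul_mem h3 hu) _ h1)
  convert this using 1
  group

/-- the commutator of an element of depth `d` with `ν s` has depth `k` -/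
theorem comm_depth (hS : T ≤ S) (hn : ∀ s ∈ S, ∀ x ∈ T, s * x * s⁻¹ ∈ T) {d k s : ℕ} (hd : d < 10)
    (hk : k < 10) (hc : allE (aG (d + 1)) (fun a => allE (aG 0) fun b =>
      Nat.beq (Th3.cm a b % 3 ^ (k + 1)) 0) = true)
    (h2 : ∀ a ∈ [3 ^ d, Th3.mul (3 ^ d) (3 ^ d)], Th3.cm (Th3.inv a) (Th3.inv s) % 3 ^ k = 0 ∧
      Th3.cm (Th3.inv a) (Th3.inv s) % 3 ^ (k + 1) ≠ 0)
    (hz : ∃ z ∈ T, z ∈ G ν d ∧ z ∉ G ν (d + 1)) : ∃ z ∈ T, z ∈ G ν k ∧ z ∉ G ν (k + 1) := by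
  obtain ⟨z, hz, hz1, hz2⟩ := hz
  obtain ⟨a, ha, hu⟩ : ∃ a ∈ [3 ^ d, Th3.mul (3 ^ d) (3 ^ d)], (ν a)⁻¹ * z ∈ G ν (d + 1) := by
    obtain ⟨e, he, hu⟩ := h.G_digit hd hz1
    interval_cases e
    · rw [pow_zero, inv_one, one_mul] at hu
      exact absurd hu hz2
    · exact ⟨3 ^ d, by simp, by rwa [pow_one] at hu⟩
    · exact ⟨Th3.mul (3 ^ d) (3 ^ d), by simp, by rwa [h.mul, ← pow_two]⟩
  have h3 := h.comm_congr (K := G ν (k + 1)) (fun _ hs _ hx => h.G_conj hk hs hx) (h.mem a) (h.mem s)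
    (h.G_le _ hu) (one_mem S) (h.comm_G hd (by norm_num) hk hc _ hu _
      (by rw [h.G_zero, mul_one]; exact h.mem s)) (by simp)
  rw [mul_one, mul_inv_cancel_left, ← h.cmM] at h3
  have h4 := (h.mem_G hk.le).2 (h2 a ha).1
  refine ⟨z * ν s * z⁻¹ * (ν s)⁻¹, ?_, ?_, fun h5 => (h2 a ha).2 ((h.mem_G hk).1 ?_)⟩
  · have := mul_mem hz (hn _ (h.mem s) _ (inv_mem hz))
    rwa [← mul_assoc, ← mul_assoc] at this
  · have := h.G_anti (Nat.le_succ k) hk h3
    rwa [mul_mem_cancel_left (inv_mem h4)] at this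
  · rwa [mul_mem_cancel_right h5, inv_mem_iff] at h3

theorem G1_le (hS : T ≤ S) (hn : ∀ s ∈ S, ∀ x ∈ T, s * x * s⁻¹ ∈ T) {x y : Ω} (hx : x ∈ T)
    (hx1 : x ∈ G ν 1) (hx2 : x ∉ G ν 2) (hy : y ∈ T) (hy1 : y ∈ G ν 2) (hy2 : y ∉ G ν 3) :
    G ν 1 ≤ T := by
  have s3 := h.comm_depth hS hn (d := 1) (k := 3) (s := 1) (by norm_num) (by norm_num)
    (by decide +kernel) (by decide +kernel) ⟨x, hx, hx1, hx2⟩
  have s4 := h.comm_depth hS hn (d := 3) (k := 4) (s := 1) (by norm_num) (by norm_num)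
    (by decide +kernel) (by decide +kernel) s3
  have s5 := h.comm_depth hS hn (d := 3) (k := 5) (s := 3) (by norm_num) (by norm_num)
    (by decide +kernel) (by decide +kernel) s3
  have s6 := h.comm_depth hS hn (d := 5) (k := 6) (s := 1) (by norm_num) (by norm_num)
    (by decide +kernel) (by decide +kernel) s5
  have s7 := h.comm_depth hS hn (d := 6) (k := 7) (s := 1) (by norm_num) (by norm_num)
    (by decide +kernel) (by decide +kernel) s6
  have s8 := h.comm_depth hS hn (d := 7) (k := 8) (s := 3) (by norm_num) (by norm_num)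
    (by decide +kernel) (by decide +kernel) s7
  have s9 := h.comm_depth hS hn (d := 8) (k := 9) (s := 1) (by norm_num) (by norm_num)
    (by decide +kernel) (by decide +kernel) s8
  refine h.le_of_depths (by norm_num) fun d h1 h2 => ?_
  interval_cases d
  exacts [⟨x, hx, hx1, hx2⟩, ⟨y, hy, hy1, hy2⟩, s3, s4, s5, s6, s7, s8, s9]

theorem eq_top_of_G1 (hS : T ≤ S) (h1 : G ν 1 ≤ T) (h2 : ¬ T ≤ G ν 1) : T = S := by
  refine le_antisymm hS ?_
  rw [← h.G_zero]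
  refine h.le_of_depths (by norm_num) fun d _ hd => ?_
  rcases d with _ | d
  · obtain ⟨x, hx, hx'⟩ := SetLike.not_le_iff_exists.1 h2
    exact ⟨x, hx, h.G_zero.symm ▸ hS hx, hx'⟩
  · obtain ⟨a, b⟩ := h.gen_depth hd
    exact ⟨_, h1 (h.G_anti (by omega) hd.le a), a, b⟩

end Mod

end CfsgLib.Th3
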