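import Cfsg.Agent.Lib.Th3.Defs

/-! Package CODE: facts on codes (pure arithmetic; checks over `243 * 243` table entries). -/

set_option autoImplicit false
set_option maxRecDepth 100000
set_option linter.unusedSectionVars false

namespace CfsgLib.Th3

open Subgroup Cfsg Cfsg.FusionSystem CfsgLib.Comput CfsgLib.Fusion CfsgLib.ExSp4

/-- a check over all pairs below `243` -/
noncomputable def all2 (p : ℕ → ℕ → Bool) : Bool :=
  allLt (fun i => force i fun i => allLt (fun j => force j fun j => p i j) 243) 243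

theorem all2_sound {p : ℕ → ℕ → Bool} (h : all2 p = true) {i j : ℕ} (hi : i < 243) (hj : j < 243) :
    p i j = true := by
  have h1 := allLt_sound h i hi
  rw [force_eq] at h1
  have h2 := allLt_sound h1 j hj
  rwa [force_eq] at h2

/-- `x ≡ y` modulo `3 ^ (k + 1)` whenever `3 ^ k ∣ a`, `k < 5` -/
noncomputable def dg5 (a x y : ℕ) : Bool := allLt (fun k => cnd (Nat.beq (Nat.mod a (Nat.pow 3 k)) 0)
  (Nat.beq (Nat.mod x (Nat.pow 3 (Nat.succ k))) (Nat.mod y (Nat.pow 3 (Nat.succ k)))) true) 5

theorem dg5_sound {a x y k : ℕ} (h : dg5 a x y = true) (hk : k < 5) (ha : a % 3 ^ k = 0) :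
    x % 3 ^ (k + 1) = y % 3 ^ (k + 1) := by
  have h1 := allLt_sound h k hk
  rw [cnd_eq, if_pos (Nat.beq_eq ▸ ha)] at h1
  exact Nat.eq_of_beq_eq_true h1

theorem chk_tq : all2 (fun a q => force (tq a q) fun c => band (Nat.ble c 59048) (band (dg5 a c (Nat.add a q))
    (Nat.beq (Nat.mod (tq (Nat.mod (iq a) 243) (Nat.mod c 243)) 243) q))) = true := by decide +kernel

theorem chk_ta : all2 (fun v q => force (ta v q) fun c => band (Nat.ble c 242) (dg5 v c v)) = true := by
  decide +kernel

theorem chk_ad : all2 (fun u w => force (ad u w) fun c => band (Nat.ble c 242) (band (dg5 u c (Nat.add u w))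
    (Nat.beq (ad (ng u) c) w))) = true := by decide +kernel

theorem chk_zero : allLt (fun q => band (Nat.beq (tq 0 q) q) (Nat.beq (ad 0 q) q)) 243 = true := by
  decide +kernel

theorem chk_inv : all2 (fun i j => force (Nat.add j (Nat.mul 243 i)) fun a => force (inv a) fun b =>
    Nat.beq (mul b a) 0) = true := by decide +kernel

section

variable {a q : ℕ} (ha : a < 243) (hq : q < 243)
include ha hq

theorem tq_spec : tq a q < 59049 ∧ dg5 a (tq a q) (a + q) = true ∧ tq (iq a % 243) (tq a q % 243) % 243 = q := by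
  have := all2_sound chk_tq ha hq
  rw [force_eq, band_eq_true, band_eq_true] at this
  exact ⟨Nat.lt_succ_of_le (Nat.le_of_ble_eq_true this.1), this.2.1, Nat.eq_of_beq_eq_true this.2.2⟩

theorem ta_spec : ta a q < 243 ∧ dg5 a (ta a q) a = true := by
  have := all2_sound chk_ta ha hq
  rw [force_eq, band_eq_true] at this
  exact ⟨Nat.lt_succ_of_le (Nat.le_of_ble_eq_true this.1), this.2⟩

theorem ad_spec : ad a q < 243 ∧ dg5 a (ad a q) (a + q) = true ∧ ad (ng a) (ad a q) = q := by
  have := all2_sound chk_ad ha hq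
  rw [force_eq, band_eq_true, band_eq_true] at this
  exact ⟨Nat.lt_succ_of_le (Nat.le_of_ble_eq_true this.1), this.2.1, Nat.eq_of_beq_eq_true this.2.2⟩

end

theorem zero_spec {q : ℕ} (hq : q < 243) : tq 0 q = q ∧ ad 0 q = q := by
  have := band_eq_true.1 (allLt_sound chk_zero q hq)
  exact ⟨Nat.eq_of_beq_eq_true this.1, Nat.eq_of_beq_eq_true this.2⟩

theorem lt243 (a : ℕ) : a % 243 < 243 := Nat.mod_lt _ (by norm_num)

theorem mid_lt (a b : ℕ) : ad (tq (a % 243) (b % 243) / 243) (ta (a / 243 % 243) (b % 243)) < 243 :=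
  (ad_spec (by have := (tq_spec (lt243 a) (lt243 b)).1; omega) (ta_spec (lt243 _) (lt243 b)).1).1

theorem mul_lt (a b : ℕ) : mul a b < 59049 := by
  have := (ad_spec (mid_lt a b) (lt243 (b / 243))).1
  rw [mul_eq]
  omega

/-- left multiplication by an element of depth `≥ i` adds the digits up to position `i` -/
theorem dig {i a : ℕ} (hi : i < 10) (ha : a % 3 ^ i = 0) (b : ℕ) :
    mul a b % 3 ^ (i + 1) = (a + b) % 3 ^ (i + 1) := by
  rw [mul_eq]
  by_cases h5 : i < 5
  · have := dg5_sound (tq_spec (lt243 a) (lt243 b)).2.1 h5 (by interval_cases i <;> omega)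
    interval_cases i <;> omega
  obtain ⟨k, rfl⟩ : ∃ k, i = k + 5 := ⟨i - 5, by omega⟩
  have hk : k < 5 := by omega
  have h0 : a % 243 = 0 := by interval_cases k <;> omega
  have h1 := ta_spec (lt243 (a / 243)) (lt243 b)
  have h2 := dg5_sound h1.2 hk (by interval_cases k <;> omega)
  have h3 := dg5_sound (ad_spec h1.1 (lt243 (b / 243))).2.1 hk (by interval_cases k <;> omega)
  rw [h0, (zero_spec (lt243 b)).1, Nat.div_eq_of_lt (lt243 b), (zero_spec h1.1).2]
  interval_cases k <;> omega

theorem inv_mul_code (a : ℕ) : mul (inv a) a = 0 := by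
  have := all2_sound chk_inv (lt243 (a / 243)) (lt243 a)
  rw [force_eq, force_eq] at this
  replace this : mul (inv (a % 243 + 243 * (a / 243 % 243))) (a % 243 + 243 * (a / 243 % 243)) = 0 :=
    Nat.eq_of_beq_eq_true this
  have e1 : (a % 243 + 243 * (a / 243 % 243)) % 243 = a % 243 := by omega
  have e2 : (a % 243 + 243 * (a / 243 % 243)) / 243 % 243 = a / 243 % 243 := by omega
  rwa [inv_eq, mul_eq _ (_ + _), e1, e2, ← inv_eq, ← mul_eq] at this

theorem mul_cancel_code {a b c : ℕ} (h : mul a b = mul a c) : b % 59049 = c % 59049 := by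
  rw [mul_eq, mul_eq] at h
  have h1 := (tq_spec (lt243 a) (lt243 b)).2.2
  have h2 := (tq_spec (lt243 a) (lt243 c)).2.2
  have h3 : b % 243 = c % 243 := by rw [← h1, ← h2]; congr 2; omega
  have h4 := (ad_spec (mid_lt a c) (lt243 (b / 243))).2.2
  have h5 := (ad_spec (mid_lt a c) (lt243 (c / 243))).2.2
  rw [h3, Nat.add_right_inj, Nat.mul_right_inj (by norm_num)] at h
  rw [h, h5] at h4
  omega

end CfsgLib.Th3
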