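import Cfsg.Agent.Lib.Th3.Defs

/-! The information extracted from the enumeration of the centric subgroups. -/

set_option autoImplicit false
set_option maxRecDepth 100000
set_option linter.unusedSectionVars false

namespace CfsgLib.Th3

open Subgroup Cfsg Cfsg.FusionSystem CfsgLib.Comput CfsgLib.Fusion CfsgLib.ExSp4

/-- the candidates for essential subgroups -/
structure Ctx {Ω : Type*} [Group Ω] {S : Subgroup Ω} (F : FusionSystem S) (ν : ℕ → Ω) : Prop where
  mod : Mod S ν
  sat : F.IsSaturated 3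
  chr : Chr F ν
  cases : ∀ E, F.IsEssential 3 E → E = G ν 1 ∨ E = E2 ν ∨
    ∃ s ∈ S, E = (E3 ν).map (MulAut.conj s).toMonoidHom
  mv1 : F.IsEssential 3 (G ν 1) → ¬ Ivt F (G ν 1) (G ν 9)
  mv2 : F.IsEssential 3 (E2 ν) → ¬ Ivt F (E2 ν) (G ν 8)

end CfsgLib.Th3
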