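import Mathlib
import Cfsg.Agent.Lib.Comput.NetModel
import Cfsg.Agent.Lib.Comput.VMod
import Cfsg.Agent.Lib.Th3.TabData
import Cfsg.Agent.Lib.ExSp4.Loc
import Cfsg.Agent.Lib.Fusion.SmallCenter
import Cfsg.Agent.Lib.Fusion.Invariant
import Cfsg.Agent.Lib.Fusion.AutPair

/-! A polycyclic model of the Sylow `3`-subgroup of the Thompson group: elements are coded by
numbers below `3 ^ 10`, subgroups by packed echelon arrays. -/

set_option autoImplicit false

namespace CfsgLib.Th3

open Subgroup Cfsg CfsgLib.Comput CfsgLib.Fusion CfsgLib.ExSp4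

/-! ### Arithmetic of codes -/

/-- `if c then a else b` -/
noncomputable def cnd {β : Type} (c : Bool) (a b : β) : β := Bool.rec b a c

theorem cnd_true {β : Type} (a b : β) : cnd true a b = a := rfl
theorem cnd_false {β : Type} (a b : β) : cnd false a b = b := rfl
theorem cnd_eq {β : Type} (c : Bool) (a b : β) : cnd c a b = if c = true then a else b := by
  cases c <;> rfl

/-- lookup in a search tree -/
noncomputable def look (t : Tr) (i : ℕ) : ℕ :=
  Tr.rec (fun x => x) (fun k _ _ l r => Bool.rec l r (Nat.ble k i)) t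

/-- row `q` of the tables -/
noncomputable def row (q : ℕ) : ℕ := look TR q

/-- the five ternary digits of `v` spread to bytes -/
noncomputable def sp (v : ℕ) : ℕ :=
  v % 3 + 256 * (v / 3 % 3 + 256 * (v / 9 % 3 + 256 * (v / 27 % 3 + 256 * (v / 81 % 3))))

/-- digitwise sum modulo `3` -/
noncomputable def ad (i j : ℕ) : ℕ := Nat.mod (Nat.land (Nat.shiftRight (Nat.mul 3 (Nat.land
  (Nat.mul 3 (Nat.add (sp i) (sp j))) 0x0707070707)) 3) 0x0303030303) 253

/-- the code of `Qe a * Qe q` -/
noncomputable def tq (a q : ℕ) : ℕ := Nat.land (Nat.shiftRight (row q) (Nat.mul 16 a)) 65535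

/-- the code of `(Qe q)⁻¹ * Ve v * Qe q` in `V` -/
noncomputable def ta (v q : ℕ) : ℕ :=
  Nat.land (Nat.shiftRight (row q) (Nat.add 3888 (Nat.mul 8 v))) 255

/-- product of codes -/
noncomputable def mul (a b : ℕ) : ℕ := force (Nat.mod b 243) fun q =>
  force (Nat.land (Nat.shiftRight (row q) (Nat.mul 16 (Nat.mod a 243))) 65535) fun c =>
  force (Nat.div c 243) fun x => force (Nat.land (Nat.shiftRight (row q)
    (Nat.add 3888 (Nat.mul 8 (Nat.mod (Nat.div a 243) 243)))) 255) fun y =>
  force (ad x y) fun u => force (Nat.mod (Nat.div b 243) 243) fun v =>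
  Nat.add (Nat.mod c 243) (Nat.mul 243 (ad u v))

theorem mul_eq (a b : ℕ) : mul a b = tq (a % 243) (b % 243) % 243 +
    243 * ad (ad (tq (a % 243) (b % 243) / 243) (ta (a / 243 % 243) (b % 243))) (b / 243 % 243) := by
  simp only [mul, force_eq]; rfl

/-- negative in `V` -/
noncomputable def ng (v : ℕ) : ℕ := Nat.land (Nat.shiftRight NG (Nat.mul 8 v)) 255

/-- the code of `(Qe q)⁻¹` -/
noncomputable def iq (q : ℕ) : ℕ := Nat.land (Nat.shiftRight IQ (Nat.mul 16 q)) 65535

/-- inverse of a code -/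
noncomputable def inv (a : ℕ) : ℕ := force a fun a =>
  force (Nat.mul 243 (ng (Nat.mod (Nat.div a 243) 243))) fun x => force (iq (Nat.mod a 243)) fun y =>
  mul x y

theorem inv_eq (a : ℕ) : inv a = mul (243 * ng (a / 243 % 243)) (iq (a % 243)) := by
  simp only [inv, force_eq]; rfl

/-- the code of `a⁻¹ * b⁻¹ * a * b` -/
noncomputable def cm (a b : ℕ) : ℕ := force (mul a b) fun u => force (mul b a) fun w =>
  cnd (Nat.beq u w) 0 (force (inv w) fun w' => mul w' u)

/-- the code of `a ^ 3` -/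
noncomputable def cube (a : ℕ) : ℕ := force (mul a a) fun u => mul a u

/-- the code of `s * a * s⁻¹`, given the code `si` of `s⁻¹` -/
noncomputable def cj (s si a : ℕ) : ℕ := force (mul s a) fun u => mul u si

/-! ### The model -/

section Model

variable {Ω : Type*} [Group Ω]

/-- the top half of a normal form -/
def Qe (γ : ℕ → Ω) (q : ℕ) : Ω :=
  γ 0 ^ (q % 3) * γ 1 ^ (q / 3 % 3) * γ 2 ^ (q / 9 % 3) * γ 3 ^ (q / 27 % 3) * γ 4 ^ (q / 81 % 3)

/-- the bottom half of a normal form -/
def Ve (γ : ℕ → Ω) (v : ℕ) : Ω := Qe (fun i => γ (i + 5)) v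

/-- the element with code `c` -/
def nu (γ : ℕ → Ω) (c : ℕ) : Ω := Qe γ (c % 243) * Ve γ (c / 243 % 243)

/-- the relations checked in a representation -/
structure Base (γ : ℕ → Ω) : Prop where
  b1 : ∀ q < 243, ∀ j < 5, Qe γ q * γ j = nu γ (tq q (3 ^ j))
  b2 : ∀ v < 243, ∀ j < 5, Ve γ v * γ j = γ j * Ve γ (ta v (3 ^ j))
  b3 : ∀ v < 243, ∀ j < 5, Ve γ v * γ (j + 5) = Ve γ (ad v (3 ^ j))
  ne : γ 9 ≠ 1

/-- `ν` is a coding of the group `S` -/
structure Mod (S : Subgroup Ω) (ν : ℕ → Ω) : Prop where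
  mul : ∀ a b, ν (mul a b) = ν a * ν b
  mem : ∀ a, ν a ∈ S
  surj : ∀ x ∈ S, ∃ a, ν a = x
  eq_iff : ∀ a b, ν a = ν b ↔ a % 59049 = b % 59049

end Model

/-! ### Echelon arrays -/

/-- slot `k` of a packed array -/
noncomputable def slot (g k : ℕ) : ℕ := Nat.land (Nat.shiftRight g (Nat.mul 16 k)) 65535

/-- the entry of depth `d` (`0` when absent) -/
noncomputable def ent (g d : ℕ) : ℕ := slot g (Nat.log2 (Nat.pow 3 d))

/-- the subgroup generated by the entries -/
def cl {Ω : Type*} [Group Ω] (ν : ℕ → Ω) (g : ℕ) : Subgroup Ω :=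
  closure {x | ∃ d < 10, ν (ent g d) = x}

/-- sifting -/
noncomputable def memR (g n : ℕ) : ℕ → Bool :=
  Nat.rec (motive := fun _ => ℕ → Bool) (fun _ => false) (fun _ ih x => cnd (Nat.beq x 0) true
    (force (slot g (Nat.log2 (Nat.gcd x 59049))) fun h => cnd (Nat.beq h 0) false
      (force (mul h x) ih))) n

/-- membership test -/
noncomputable def mem (g x : ℕ) : Bool := force (Nat.mod x 59049) (memR g 21)

/-- all nonzero entries satisfy `P` -/
noncomputable def allE (g : ℕ) (P : ℕ → Bool) : Bool :=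
  allLt (fun d => force (ent g d) fun h => cnd (Nat.beq h 0) true (P h)) 10

/-- each entry is absent or has the right depth and leading digit `1` -/
noncomputable def wf (g : ℕ) : Bool := allLt (fun d => force (ent g d) fun h =>
  cnd (Nat.beq h 0) true (Nat.beq (Nat.mod h (Nat.pow 3 (Nat.succ d))) (Nat.pow 3 d))) 10

/-- the entries form a polycyclic generating sequence -/
noncomputable def closed (g : ℕ) : Bool := band (wf g) (allLt (fun d => force (ent g d) fun h =>
  cnd (Nat.beq h 0) true (band (mem g (cube h)) (allLt (fun d' => force (ent g d') fun h' =>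
    cnd (Nat.beq h' 0) true (mem g (cm h' h))) d))) 10)

/-- the number of entries -/
noncomputable def cnt (g : ℕ) : ℕ :=
  Nat.rec 0 (fun d ih => cnd (Nat.beq (ent g d) 0) ih (Nat.succ ih)) 10

/-- `h` is absent or the depth `d` occurs in `X` -/
noncomputable def skip (X h d : ℕ) : Bool := cnd (Nat.beq h 0) true (cnd (Nat.beq (ent X d) 0) false true)

/-- `P (t * r)` for all `t` in a right transversal of `X` in `E`, depths `≥ 10 - k` -/
noncomputable def allR (E X : ℕ) (P : ℕ → Bool) (k : ℕ) : ℕ → Bool :=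
  Nat.rec (motive := fun _ => ℕ → Bool) P (fun k ih r => force (Nat.sub 9 k) fun d =>
    force (ent E d) fun h => cnd (skip X h d) (ih r) (band (ih r) (force (mul h r) fun r1 =>
      band (ih r1) (force (mul h r1) ih)))) k

/-- `P` holds on a right transversal of `X` in `E` -/
noncomputable def allT (E X : ℕ) (P : ℕ → Bool) : Bool := allR E X P 10 0

/-- `P` holds on the members of the transversal with leading coefficient `1` -/
noncomputable def allT1 (E X : ℕ) (P : ℕ → Bool) : Bool := allLt (fun k => force (Nat.sub 9 k) fun d =>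
  force (ent E d) fun h => cnd (skip X h d) true (allR E X P k h)) 10

/-- run through the corrections of the free entries of depth `< n` by powers of `q` -/
noncomputable def subR (Q X q : ℕ) (leaf : List ℕ → ℕ → Bool) (n : ℕ) : List ℕ → ℕ → Bool :=
  Nat.rec (motive := fun _ => List ℕ → ℕ → Bool) leaf (fun d ih L i => force (ent Q d) fun h =>
    cnd (skip X h d) (ih L i) (force (Nat.mul 3 i) fun j => band (ih (h :: L) (Nat.add j 1))
      (force (mul h q) fun h1 => band (ih (h1 :: L) (Nat.add j 2))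
        (force (mul h1 q) fun h2 => ih (h2 :: L) (Nat.add j 3))))) n

/-- run through the maximal subgroups of `Q` containing `X` -/
noncomputable def subs (Q X : ℕ) (leaf : ℕ → List ℕ → ℕ → Bool) : Bool := allLt (fun k =>
  force (ent Q k) fun q => cnd (skip X q k) true (subR Q X q (leaf k) k [] 0)) 10

/-- the whole group -/
def aS : ℕ := 0x4ce3000019a1088b000002d9000000f300510000001b0009000000030001

/-- the array of `G i` -/
noncomputable def aG (i : ℕ) : ℕ := Nat.shiftLeft (Nat.shiftRight aS (Nat.mul 16 (Nat.log2 (Nat.pow 3 i))))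
  (Nat.mul 16 (Nat.log2 (Nat.pow 3 i)))

/-- the array of `E2` -/
def aE2 : ℕ := 0x4ce3000019a1088b000002d9000000f300510000001b0009000000000001
/-- the array of `E3`: entries `4458, 4518, 1701, 6561, 19683` -/
def aE3 : ℕ := 0x4ce3000019a1000000000000000006a500000000000011a60000116a0000
/-- the array of `R3`: entries `84, 144, 243, 729, 2187, 6561, 19683` -/
def aR3 : ℕ := 0x4ce3000019a1088b000002d9000000f30000000000000090000000540000
/-- the array of `C3`: entries `1701, 6561, 19683` -/
def aC3 : ℕ := 0x4ce3000019a1000000000000000006a50000000000000000000000000000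

section Sub

variable {Ω : Type*} [Group Ω] (ν : ℕ → Ω)

/-- the tails of the polycyclic series; `G 1` is the essential candidate `E1`, `G 5 = V`,
`G 8 = Z₂(S)`, `G 9 = Z(S)` -/
noncomputable def G (i : ℕ) : Subgroup Ω := cl ν (aG i)
/-- the second maximal essential candidate -/
def E2 : Subgroup Ω := cl ν aE2
/-- the elementary abelian essential candidate of order `3 ^ 5` -/
def E3 : Subgroup Ω := cl ν aE3
/-- the normalizer of `E3`, of order `3 ^ 7` -/
def R3 : Subgroup Ω := cl ν aR3
/-- the centralizer of `R3` in `E3` -/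
def C3 : Subgroup Ω := cl ν aC3

end Sub

/-! ### Quadratic modules of order `3 ^ 5` -/

/-- a Sylow `3`-subgroup of order at least `9` acts quadratically and freely off `C` -/
structure Quad {H W : Type*} [Group H] [AddCommGroup W] [DistribMulAction H W] (T : Subgroup H)
    (C : AddSubgroup W) : Prop where
  syl : SylIn 3 T ⊤
  three : ∀ v : W, 3 • v = 0
  cardW : Nat.card W = 243
  cardC : Nat.card C = 27
  cardT : 9 ≤ Nat.card T
  sub : ∀ t ∈ T, ∀ v, t • v - v ∈ C
  fix : ∀ t ∈ T, ∀ c ∈ C, t • c = c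
  free : ∀ t ∈ T, t ≠ 1 → ∀ v, t • v = v → v ∈ C
  move : ∃ g : H, ∃ c ∈ C, g • c ∉ C

/-- `R = N_S(E)` acts quadratically on `E / K`, `K = E'` -/
structure QData {Ω : Type*} [Group Ω] (S E R K C : Subgroup Ω) : Prop where
  ES : E ≤ S
  KC : K ≤ C
  CE : C ≤ E
  comm : ⁅E, E⁆ = K
  pow : ∀ x ∈ E, x ^ 3 ∈ K
  cardE : Nat.card E = 243 * Nat.card K
  cardC : Nat.card C = 27 * Nat.card K
  norm : FusionSystem.normalizerIn S E = R
  cardR : Nat.card R = 9 * Nat.card E
  sub : ∀ s ∈ R, ∀ x ∈ E, x⁻¹ * (s * x * s⁻¹) ∈ C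
  fix : ∀ s ∈ R, ∀ x ∈ C, x⁻¹ * (s * x * s⁻¹) ∈ K
  free : ∀ s ∈ R, ∀ x ∈ E, x⁻¹ * (s * x * s⁻¹) ∈ K → s ∈ E ∨ x ∈ C

/-- the characteristic subgroups used in the argument -/
structure Chr {Ω : Type*} [Group Ω] {S : Subgroup Ω} (F : FusionSystem S) (ν : ℕ → Ω) : Prop where
  sG : ∀ i ≤ 10, Ivt F S (G ν i)
  sE : Ivt F S (E2 ν)
  e1 : Ivt F (G ν 1) (G ν 8)
  e1V : Ivt F (G ν 1) (G ν 5)
  e2Z : Ivt F (E2 ν) (G ν 9)
  e2Y : Ivt F (E2 ν) (G ν 7)

end CfsgLib.Th3
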