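import Cfsg.Agent.Lib.Th3.Defs
import Cfsg.Agent.Lib.Th3.EmbData
import Cfsg.Agent.Lib.LinP.Basic

/-! The base relations hold for explicit matrices of degree `19`. -/

set_option autoImplicit false
set_option maxRecDepth 100000
set_option Elab.async false

namespace CfsgLib.Th3

open CfsgLib.Comput CfsgLib.LinP

/-- parameters -/
abbrev PP : Par := ⟨3, 19, 15, 9, 171⟩

theorem PP_ok : PP.OK := by decide

/-- the generators -/
noncomputable def gam (i : ℕ) : GL (Fin 19) (ZMod 3) := glP 3 19 15 (nth [] ML i)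

theorem ML_ok : allLt (fun i => ordOK PP 8 (nth [] ML i)) 10 = true := by decide +kernel

theorem act_gam {i : ℕ} (hi : i < 10) : ActP PP (eP 3 19) (nth [] ML i) (gam i) :=
  actP_glP PP_ok (by norm_num) (allLt_sound ML_ok i hi)

/-- `x` is the packed matrix of `a` -/
def Rep (x : ℕ) (a : GL (Fin 19) (ZMod 3)) : Prop :=
  Good PP x ∧ ∀ c < 19, decP PP (eP 3 19) x c = a • eP 3 19 c

theorem rep_id : Rep (idP PP) 1 :=
  ⟨good_idP PP_ok (by norm_num), fun c hc => by rw [decP_idP PP_ok _ hc, one_smul]⟩

theorem Rep.eq {x : ℕ} {a b : GL (Fin 19) (ZMod 3)} (h : Rep x a) (h' : Rep x b) : a = b :=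
  Units.ext (eq_of_smul_eP fun k hk => (h.2 k hk).symm.trans (h'.2 k hk))

/-- apply a generator -/
noncomputable def ap (i x : ℕ) : ℕ := appP PP 19 (nth [] ML i) x

theorem Rep.ap {x i : ℕ} {a : GL (Fin 19) (ZMod 3)} (h : Rep x a) (hi : i < 10) :
    Rep (ap i x) (gam i * a) :=
  ⟨(dg_appP PP_ok 19 (act_gam hi).1 (act_gam hi).2.1 h.1).1, fun c hc => by
    rw [Th3.ap, decP_appP PP_ok p_smul (act_gam hi) 19 h.1 hc, h.2 c hc, mul_smul]⟩

/-- apply a power of a generator -/
noncomputable def it (i n x : ℕ) : ℕ := force n fun n => iterN (ap i) n x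

theorem Rep.it {x i : ℕ} {a : GL (Fin 19) (ZMod 3)} (h : Rep x a) (hi : i < 10) (n : ℕ) :
    Rep (it i n x) (gam i ^ n * a) := by
  rw [Th3.it, force_eq]
  induction n generalizing x a with
  | zero => simpa [iterN] using h
  | succ n ih =>
    rw [show iterN (Th3.ap i) (n + 1) x = iterN (Th3.ap i) n (Th3.ap i x) from force_eq _ _, pow_succ,
      mul_assoc]
    exact ih (h.ap hi)

/-- apply a half of a normal form -/
noncomputable def apQ (o q x : ℕ) : ℕ :=
  force (it (4 + o) (q / 81 % 3) x) fun x => force (it (3 + o) (q / 27 % 3) x) fun x =>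
  force (it (2 + o) (q / 9 % 3) x) fun x => force (it (1 + o) (q / 3 % 3) x) fun x =>
  it (0 + o) (q % 3) x

theorem Rep.apQ {x o : ℕ} {a : GL (Fin 19) (ZMod 3)} (h : Rep x a) (ho : o ≤ 5) (q : ℕ) :
    Rep (apQ o q x) (Qe (fun i => gam (i + o)) q * a) := by
  simp only [Th3.apQ, force_eq, Qe, mul_assoc]
  exact ((((h.it (by omega) _).it (by omega) _).it (by omega) _).it (by omega) _).it (by omega) _

/-- the matrix of `Ve` -/
noncomputable def mV (v : ℕ) : ℕ := apQ 5 v (idP PP)

theorem rep_mV (v : ℕ) : Rep (mV v) (Ve gam v) := by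
  have := rep_id.apQ le_rfl v
  rwa [mul_one] at this

/-- the matrix of a generator -/
noncomputable def mG (j : ℕ) : ℕ := ap j (idP PP)

theorem rep_mG {j : ℕ} (hj : j < 10) : Rep (mG j) (gam j) := by
  have := rep_id.ap hj
  rwa [mul_one] at this

theorem c1 : allLt (fun j => force j fun j => force (mG j) fun x => allLt (fun q => force q fun q =>
    force (tq q (3 ^ j)) fun c => force (c / 243 % 243) fun v => force (mV v) fun y =>
    force (c % 243) fun r => Nat.beq (apQ 0 q x) (apQ 0 r y)) 243) 5 = true := by decide +kernel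

theorem c2 : allLt (fun j => force j fun j => force (mG j) fun x => allLt (fun v => force v fun v =>
    force (ta v (3 ^ j)) fun w => force (mV w) fun y => Nat.beq (apQ 5 v x) (ap j y)) 243) 5 = true := by
  decide +kernel

theorem c3 : allLt (fun j => force j fun j => force (mG (j + 5)) fun x => allLt (fun v => force v fun v =>
    force (ad v (3 ^ j)) fun w => Nat.beq (apQ 5 v x) (mV w)) 243) 5 = true := by
  decide +kernel

theorem Rep.eq' {x y : ℕ} {a b : GL (Fin 19) (ZMod 3)} (h : Rep x a) (h' : Rep y b)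
    (e : Nat.beq x y = true) : a = b := h.eq (by rwa [Nat.eq_of_beq_eq_true e])

theorem base_gam : Base gam := by
  refine ⟨fun q hq j hj => ?_, fun v hv j hj => ?_, fun v hv j hj => ?_, fun h => ?_⟩
  · have := allLt_sound c1 j hj
    rw [force_eq, force_eq] at this
    have e := allLt_sound this q hq
    rw [force_eq, force_eq, force_eq, force_eq, force_eq] at e
    exact ((rep_mG (j := j) (by omega)).apQ (o := 0) (by omega) q).eq'
      ((rep_mV _).apQ (o := 0) (by omega) _) e
  · have := allLt_sound c2 j hj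
    rw [force_eq, force_eq] at this
    have e := allLt_sound this v hv
    rw [force_eq, force_eq, force_eq] at e
    exact ((rep_mG (j := j) (by omega)).apQ le_rfl v).eq' ((rep_mV _).ap (i := j) (by omega)) e
  · have := allLt_sound c3 j hj
    rw [force_eq, force_eq] at this
    have e := allLt_sound this v hv
    rw [force_eq, force_eq] at e
    exact ((rep_mG (j := j + 5) (by omega)).apQ le_rfl v).eq' (rep_mV _) e
  · have h1 := (rep_mG (j := 9) (by norm_num)).2
    rw [h] at h1
    have h2 : ∀ c < 19, ∀ i : Fin 19, ((dg 15 (mG 9) (c * 19 + i) : ℕ) : ZMod 3) =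
        (dg 15 (idP PP) (c * 19 + i) : ℕ) := fun c hc i => by
      rw [← decP_eP (s := 9) (m := 171), ← decP_eP (s := 9) (m := 171), h1 c hc, rep_id.2 c hc]
    revert h2
    decide +kernel

end CfsgLib.Th3
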