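import Cfsg.Agent.Lib.Th3.Tab
import Cfsg.Agent.Lib.Th3.Bas
import Cfsg.Agent.Lib.Th3.EmbB
import Cfsg.Agent.Lib.Th.Main

/-! Package EMB: the Sylow `3`-subgroup of the Thompson group has the model. -/

set_option autoImplicit false
set_option maxRecDepth 100000
set_option linter.unusedSectionVars false
set_option Elab.async false

namespace CfsgLib.Th3

open Subgroup Cfsg Cfsg.FusionSystem CfsgLib.Comput CfsgLib.Fusion CfsgLib.ExSp4 CfsgLib.LinP

/-- the basis of the submodule -/
noncomputable def BB : Matrix (Fin 248) (Fin 19) (ZMod 3) := fun i k => (dg 23 XB (k * 248 + i) : ℕ)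

theorem XB_good : Good Th.P3 XB := fun j => by
  by_cases hj : j < 4712
  · exact Nat.le_of_ble_eq_true (allLt_sound (by decide +kernel :
      allLt (fun j => Nat.ble (Nat.succ (dg 23 XB j)) 3) 4712 = true) j hj)
  · exact (dg_of_lt (b := 23) (d := 4712) (Nat.le_of_ble_eq_true (by decide +kernel :
      Nat.ble (Nat.succ XB) (2 ^ (23 * 4712)) = true)) (not_lt.1 hj)).trans_lt (by decide)

theorem BB_piv : ∀ j k : Fin 19, ∃ h : nth 0 PV j < 248, BB ⟨nth 0 PV j, h⟩ k = if j = k then 1 else 0 := by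
  unfold BB
  decide +kernel

theorem BB_inj {M : Matrix (Fin 19) (Fin 19) (ZMod 3)} (h : BB * M = BB) : M = 1 := by
  ext j k
  obtain ⟨hj, e⟩ := BB_piv j k
  have := congrFun (congrFun h ⟨_, hj⟩) k
  rw [e, Matrix.mul_apply, Finset.sum_eq_single j] at this
  · obtain ⟨_, e'⟩ := BB_piv j j
    rw [e', if_pos rfl, one_mul] at this
    rw [this, Matrix.one_apply]
  · intro b _ hb
    obtain ⟨_, e'⟩ := BB_piv j b
    rw [e', if_neg (Ne.symm hb), zero_mul]
  · simp

/-- the words of the three generators -/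
def wd : List (List ℕ) := [[2, 9, 2, 10, 8, 0, 10, 9, 4, 3, 2, 7, 4, 3, 4, 8, 10, 0, 9, 10, 2, 8, 2],
  [2, 8, 2, 9], [9, 2, 8, 2, 10, 2, 9, 2, 8, 10]]

/-- a sum of products of digits -/
noncomputable def dot (c i n : ℕ) : ℕ :=
  Nat.rec 0 (fun j ih => force j fun j => force (j * 248 + i) fun m => dg 23 XB m * dg 15 c j + ih) n

theorem dot_eq (c i n : ℕ) : dot c i n = ∑ j ∈ Finset.range n, dg 23 XB (j * 248 + i) * dg 15 c j := by
  induction n with
  | zero => rfl
  | succ n ih => rw [Finset.sum_range_succ, ← ih, add_comm (dot c i n)]; simp only [dot, force_eq]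

theorem wd_chk : allLt (fun s => force (Th.aw 19 (nth [] wd s) XB) fun y => allLt (fun k =>
    force (dg (23 * 248) y k) fun z => force (nth 0 (nth [] ML s) k) fun c => allLt (fun i =>
      force i fun i => Nat.beq (dg 23 z i) (dot c i 19 % 3)) 248) 19) 3 = true := by decide +kernel

theorem nth_getD {α : Type} (d : α) (l : List α) (m : ℕ) : nth d l m = l.getD m d := by
  induction l generalizing m with
  | nil => rfl
  | cons a l ih => cases m with
    | zero => rfl
    | succ m => exact ih m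

theorem gam_val {s : ℕ} (hs : s < 10) : (gam s : Matrix _ _ _) = matP 3 19 15 (nth [] ML s) :=
  eq_of_smul_eP fun k hk => ((act_gam hs).2.2 k hk).trans
    ((actP_matP PP_ok (band_eq_true.1 (allLt_sound ML_ok s hs)).1).2.2 k hk).symm

theorem rel_of {A : Th.Mx} {y : ℕ} {M : List ℕ} (hy : ∀ c < 19, Th.dv y c = A • Th.dv XB c)
    (h : ∀ k < 19, ∀ i < 248, dg 23 (dg (23 * 248) y k) i = dot (nth 0 M k) i 19 % 3) :
    A * BB = BB * matP 3 19 15 M := by
  ext i k
  have h4 := h k k.2 i i.2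
  rw [dg_dg _ _ _ i.2, dot_eq] at h4
  have h5 := congrFun (hy k k.2) i
  have h6 : ∀ x (i : Fin 248), Th.dv x k i = (dg 23 x (k * 248 + i) : ℕ) := fun x i => decP_eP x k i
  have h7 : ∀ i, BB i k = Th.dv XB k i := fun i => (h6 XB i).symm
  rw [h6, h4, Matrix.smul_eq_mulVec, Matrix.mulVec, dotProduct, ZMod.natCast_mod, Nat.cast_sum,
    Finset.sum_range] at h5
  rw [Matrix.mul_apply, Matrix.mul_apply]
  simp only [h7, ← h5]
  refine Finset.sum_congr rfl fun j _ => ?_
  rw [Nat.cast_mul, nth_getD 0, BB, matP]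

theorem wd_rel {s : ℕ} (hs : s < 3) :
    Th.R (Th.pr (nth [] wd s)) * BB = BB * (gam s : Matrix (Fin 19) (Fin 19) (ZMod 3)) := by
  have hl : ∀ m ∈ nth [] wd s, m < 11 := by revert s; decide
  have h1 := allLt_sound wd_chk s hs
  rw [force_eq] at h1
  rw [gam_val (by omega), Th.R_pr hl]
  refine rel_of (Th.aw_sound 19 XB_good fun m hm => (hl m hm).trans (by norm_num)).2 fun k hk i hi => ?_
  have h2 := allLt_sound h1 k hk
  rw [force_eq, force_eq] at h2
  have h3 := allLt_sound h2 i hi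
  rw [force_eq] at h3
  exact Nat.eq_of_beq_eq_true h3

/-- the pairs acting compatibly on the submodule -/
def pairsOf {Γ K m n : Type*} [Group Γ] [CommRing K] [Fintype m] [Fintype n] [DecidableEq m]
    [DecidableEq n] (R : Γ →* Matrix m m K) (B : Matrix m n K) : Subgroup (Γ × GL n K) where
  carrier := {x | R x.1 * B = B * (x.2 : Matrix n n K)}
  one_mem' := by simp
  mul_mem' := fun {a b} ha hb => by
    change R (a.1 * b.1) * B = B * ((a.2 * b.2 : GL n K) : Matrix n n K)
    rw [map_mul, Matrix.mul_assoc, hb, ← Matrix.mul_assoc, ha, Matrix.mul_assoc, Units.val_mul]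
  inv_mem' := fun {a} ha => by
    change R a.1⁻¹ * B = B * ((a.2⁻¹ : GL n K) : Matrix n n K)
    have : R a.1⁻¹ * (R a.1 * B) * ((a.2⁻¹ : GL n K) : Matrix n n K) =
      R a.1⁻¹ * (B * (a.2 : Matrix n n K)) * ((a.2⁻¹ : GL n K) : Matrix n n K) := by rw [ha]
    rw [← Matrix.mul_assoc, ← map_mul, inv_mul_cancel, map_one, Matrix.one_mul, Matrix.mul_assoc,
      Matrix.mul_assoc, Units.mul_inv, Matrix.mul_one] at this
    exact this.symm

/-- the pairs acting compatibly on the submodule -/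
noncomputable def pairs : Subgroup (Spor.Th × GL (Fin 19) (ZMod 3)) := pairsOf Th.R BB

theorem Mod.transport {Γ Ω : Type*} [Group Γ] [Group Ω] {S' : Subgroup Γ} {S : Subgroup Ω}
    {ν : ℕ → Γ} (h : Mod S' ν) (e : S' ≃* S) : Mod S fun c => (e ⟨ν c, h.mem c⟩ : Ω) where
  mul a b := by rw [← Subgroup.coe_mul, ← map_mul]; congr 2; exact Subtype.ext (h.mul a b)
  mem a := (e _).2
  surj x hx := by
    obtain ⟨a, ha⟩ := h.surj _ (e.symm ⟨x, hx⟩).2
    exact ⟨a, by rw [show (⟨ν a, h.mem a⟩ : S') = e.symm ⟨x, hx⟩ from Subtype.ext ha, e.apply_symm_apply]⟩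
  eq_iff a b := by rw [← h.eq_iff, Subtype.coe_inj, e.injective.eq_iff, Subtype.mk.injEq]

theorem nu_gam {j : ℕ} (hj : j < 10) : nu gam (3 ^ j) = gam j := by
  interval_cases j <;> simp [nu, Ve, Qe]

theorem exists_mod {Ω : Type*} [Group Ω] {S : Subgroup Ω} (T : Sylow 3 Cfsg.Spor.Th)
    (e : S ≃* (T : Subgroup Cfsg.Spor.Th)) : ∃ ν : ℕ → Ω, Mod S ν := by
  have h := mod_of_base base_gam
  set S' := Subgroup.closure (gam '' Set.Iio 10) with hS'
  have := h.finite
  let f₁ : pairs →* Spor.Th := (MonoidHom.fst _ _).comp pairs.subtype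
  let f₂ : pairs →* GL (Fin 19) (ZMod 3) := (MonoidHom.snd _ _).comp pairs.subtype
  have i1 : Function.Injective f₁ := (injective_iff_map_eq_one _).2 fun x hx => by
    have h1 : x.1.1 = 1 := hx
    have h2 : Th.R x.1.1 * BB = BB * (x.1.2 : Matrix _ _ _) := x.2
    rw [h1, map_one, Matrix.one_mul] at h2
    exact Subtype.ext (Prod.ext h1 (Units.ext (BB_inj h2.symm)))
  have : Finite pairs := Finite.of_injective _ i1
  have h3 : ∀ j < 3, nu gam (3 ^ j) ∈ f₂.range := fun j hj =>
    ⟨⟨(Th.pr (nth [] wd j), gam j), wd_rel hj⟩, (nu_gam (by omega)).symm⟩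
  have hc : ∀ a b c, nu gam a ∈ f₂.range → nu gam b ∈ f₂.range → cm (inv a) (inv b) = c →
      nu gam c ∈ f₂.range := fun a b c ha hb e => by
    rw [← e, h.cmM]
    exact mul_mem (mul_mem (mul_mem ha hb) (inv_mem ha)) (inv_mem hb)
  have m0 := h3 0 (by norm_num)
  have m1 := h3 1 (by norm_num)
  have m3 := hc _ _ (3 ^ 3) m1 m0 (by decide +kernel)
  have m5 := hc _ _ (3 ^ 5) m3 m1 (by decide +kernel)
  have m6 := hc _ _ (3 ^ 6) m5 m0 (by decide +kernel)
  have m7 := hc _ _ (3 ^ 7) m6 m0 (by decide +kernel)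
  have m8 := hc _ _ (3 ^ 8) m7 m1 (by decide +kernel)
  have hle : S' ≤ f₂.range := (closure_le _).2 (by
    rintro _ ⟨j, hj, rfl⟩
    have hj : j < 10 := hj
    rw [← nu_gam hj]
    interval_cases j
    exacts [m0, m1, h3 2 (by norm_num), m3, hc _ _ _ m3 m0 (by decide +kernel), m5, m6, m7, m8,
      hc _ _ _ m8 m0 (by decide +kernel)])
  obtain ⟨Q, hQ⟩ := exists_sylIn 3 (S'.comap f₂)
  have hQ2 : Q.map f₂ = S' := by
    have := hQ.map f₂
    rw [map_comap_eq_self hle] at this
    exact this.eq_of_isPGroup h.isPGroup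
  have cT : Nat.card (T : Subgroup Spor.Th) = 3 ^ 10 := by
    rw [T.card_eq_multiplicity, Th.card_Th]
    congr 1
    rw [show 90745943887872000 = 3 ^ 10 * 1536790528000 by norm_num,
      Nat.factorization_mul (by norm_num) (by norm_num), Nat.prime_three.factorization_pow,
      Finsupp.add_apply, Finsupp.single_eq_same, Nat.factorization_eq_zero_of_not_dvd (by norm_num)]
  have c1 : Nat.card (Q.map f₁) = Nat.card Q := card_map_of_injective i1
  have p1 := hQ.isPGroup.map f₁
  have c2 := (sylIn_top T).card_le p1 le_top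
  have s2 : Function.Surjective (f₂.subgroupMap Q) := f₂.subgroupMap_surjective Q
  have c3 : Nat.card (Q.map f₂) = 3 ^ 10 := by rw [hQ2, h.card]
  have c4 := Nat.card_le_card_of_surjective _ s2
  have b2 : Function.Bijective (f₂.subgroupMap Q) := (Nat.bijective_iff_surjective_and_card _).2
    ⟨s2, by omega⟩
  obtain ⟨y, -, hy⟩ := (sylIn_top T).exists_map_conj_eq ((sylIn_top T).of_card_le p1 le_top (by omega))
  exact ⟨_, h.transport ((MulEquiv.subgroupCongr hQ2.symm).trans ((MulEquiv.ofBijective _ b2).symm.trans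
    ((Q.equivMapOfInjective f₁ i1).trans (((MulAut.conj y).subgroupMap _).trans
      ((MulEquiv.subgroupCongr hy).trans e.symm)))))⟩

end CfsgLib.Th3
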