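import Cfsg.Agent.Lib.Th3.Kill
import Cfsg.Agent.Lib.Core.Frattini
import Cfsg.Agent.Lib.Comput.Lin2

/-! Enumeration of the subgroups containing their centralizer. -/

set_option autoImplicit false
set_option maxRecDepth 100000
set_option linter.unusedSectionVars false

namespace CfsgLib.Th3

open Subgroup Cfsg Cfsg.FusionSystem CfsgLib.Comput CfsgLib.Fusion CfsgLib.ExSp4

/-- the certificate of a class -/
structure Cl where
  X : ℕ
  m : ℕ
  es : ℕ
  k : Kl

/-- `P` holds on the generators of a maximal subgroup -/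
noncomputable def cand (Q X k : ℕ) (L : List ℕ) (P : ℕ → Bool) : Bool :=
  band (allL P L) (band (allE X P) (allLt (fun d => cnd (Nat.ble d k) true
    (force (ent Q d) fun h => cnd (skip X h d) true (P h))) 10))

/-- a maximal subgroup is not centric or conjugate to a listed class -/
noncomputable def leafOK (CT : Tr) (n Q c X es k : ℕ) (L : List ℕ) (i : ℕ) : Bool :=
  force (Nat.land (Nat.shiftRight es (Nat.mul 32 i)) 0xffffffff) fun e =>
  force (Nat.land e 65535) fun s => force (Nat.shiftRight e 16) fun j => cnd (Nat.beq j 0)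
    (band (neg (mem Q s)) (cand Q X k L fun a => Nat.beq (mul s a) (mul a s)))
    (force (look CT j) fun M => band (Nat.ble (Nat.succ j) n) (band (Nat.beq (Nat.succ (cnt M)) c)
      (force (inv s) fun si => cand Q X k L fun a => mem M (cj s si a))))

/-- the survivors -/
noncomputable def surv (i : ℕ) : Bool :=
  cnd (Nat.ble i 2) true (cnd (Nat.beq i 98) true (Nat.beq i 1058))

/-- check of a class -/
noncomputable def clsOK (CT : Tr) (n i : ℕ) (c : Cl) : Bool := force (look CT i) fun Q =>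
  force c.X fun X => force c.es fun es => force (cnt Q) fun q => band (closed Q) (band (wf X)
    (band (marksOK (phiOK Q fun b => band (mem Q b) (allE Q fun a => Nat.beq (mul b a) (mul a b))) X c.m)
      (band (subs Q X (leafOK CT n Q q X es)) (cnd (surv i) true (killOK Q [Q, 0] c.k)))))

/-- check of consecutive classes -/
noncomputable def allC (CT : Tr) (n : ℕ) (l : List Cl) : ℕ → Bool :=
  List.rec (motive := fun _ => ℕ → Bool) (fun _ => true)
    (fun c _ ih i => band (clsOK CT n i c) (force (Nat.succ i) ih)) l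

theorem allC_sound {CT : Tr} {n : ℕ} {l : List Cl} : ∀ {i : ℕ}, allC CT n l i = true →
    ∀ j, i ≤ j → j < i + lenL l → ∃ c, clsOK CT n j c = true := by
  induction l with
  | nil => intro i _ j h1 h2; exact absurd h2 (not_lt.2 h1)
  | cons c l ih =>
    intro i e j h1 h2
    obtain ⟨e1, e2⟩ := band_eq_true.1 e
    rw [force_eq] at e2
    rcases h1.eq_or_lt with rfl | h1
    · exact ⟨c, e1⟩
    · exact ih e2 j h1 (by rw [lenL_eq] at h2 ⊢; simp only [List.length_cons] at h2; omega)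

/-- classes `a ≤ j < b` are checked -/
def Rng (CT : Tr) (n a b : ℕ) : Prop := ∀ j, a ≤ j → j < b → ∃ c, clsOK CT n j c = true

theorem rng_of {CT : Tr} {n a b : ℕ} {l : List Cl}
    (h : band (Nat.beq (Nat.add a (lenL l)) b) (allC CT n l a) = true) : Rng CT n a b := fun j h1 h2 =>
  allC_sound (band_eq_true.1 h).2 j h1 (h2.trans_eq (Nat.eq_of_beq_eq_true (band_eq_true.1 h).1).symm)

theorem Rng.trans {CT : Tr} {n a b c : ℕ} (h : Rng CT n a b) (h' : Rng CT n b c) : Rng CT n a c :=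
  fun j h1 h2 => (lt_or_ge j b).elim (h j h1) fun h3 => h' j h3 h2

variable {Ω : Type*} [Group Ω] {S : Subgroup Ω} {ν : ℕ → Ω} {CT : Tr} {n : ℕ}

theorem cent_conj {P : Subgroup Ω} (hc : centralizerIn S P ≤ P) {s : Ω} (hs : s ∈ S) :
    centralizerIn S (P.map (MulAut.conj s).toMonoidHom) ≤ P.map (MulAut.conj s).toMonoidHom :=
  fun x hx => ⟨s⁻¹ * x * s, hc ⟨S.mul_mem (S.mul_mem (S.inv_mem hs) hx.1) hs, fun y hy => by
    have := hx.2 (s * y * s⁻¹) ⟨y, hy, rfl⟩
    calc y * (s⁻¹ * x * s) = s⁻¹ * (s * y * s⁻¹ * x) * s := by group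
      _ = _ := by rw [this]; group⟩, by simp [mul_assoc]⟩

namespace Mod

variable (h : Mod S ν)
include h

theorem cand_sound {Q X k : ℕ} {L : List ℕ} {P : ℕ → Bool} (e : cand Q X k L P = true)
    {K : Subgroup Ω} (hK : ∀ a, P a = true → ν a ∈ K) : cl ν X ≤ K ∧
      (∀ d < 10, k < d → ent X d = 0 → ν (ent Q d) ∈ K) ∧ ∀ a ∈ L, ν a ∈ K := by
  rw [cand, band_eq_true, band_eq_true] at e
  refine ⟨h.cl_le_of_allE e.2.1 hK, fun d hd hk h0 => ?_, fun a ha => hK a (allL_sound e.1 a ha)⟩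
  rcases cnd_or (allLt_sound e.2.2 d hd) with ⟨e, -⟩ | ⟨-, e⟩
  · exact absurd (Nat.le_of_ble_eq_true e) (not_le.2 hk)
  rw [force_eq] at e
  rcases cnd_or e with ⟨e, -⟩ | ⟨-, e⟩
  · rcases cnd_or e with ⟨e, -⟩ | ⟨-, e⟩
    · rw [Nat.eq_of_beq_eq_true e, h.zero]; exact K.one_mem
    · rw [h0] at e; exact Bool.noConfusion e
  · exact hK _ e

theorem step (hall : Rng CT n 0 n) {i : ℕ} (hi : i < n) {M : Subgroup Ω} (hM : M ≤ cl ν (look CT i))
    (hc : Nat.card (cl ν (look CT i)) = 3 * Nat.card M) (hC : centralizerIn S M ≤ M) :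
    ∃ j < n, ∃ s ∈ S, M.map (MulAut.conj s).toMonoidHom = cl ν (look CT j) := by
  have := h.finite
  obtain ⟨c, e⟩ := hall i (Nat.zero_le _) hi
  simp only [clsOK, force_eq, band_eq_true] at e
  obtain ⟨hQ, hX, e1, e2, -⟩ := e
  generalize look CT i = Q at *
  have := finite_of_le (h.cl_le Q)
  have := finite_of_le hM
  have hi3 : (M.subgroupOf (cl ν Q)).index = 3 := by
    have h1 := (M.subgroupOf (cl ν Q)).card_mul_index
    rw [Nat.card_congr (subgroupOfEquivOfLe hM).toEquiv, hc, mul_comm] at h1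
    exact Nat.eq_of_mul_eq_mul_right Nat.card_pos h1
  have hXM : cl ν c.X ≤ M := h.phi_sound e1 (map_le_iff_le_comap.2 (frattini_le_coatom
      (Core.isCoatom_of_index_prime (hi3 ▸ Nat.prime_three)))) fun b hb => by
    obtain ⟨b1, b2⟩ := band_eq_true.1 hb
    refine hC ⟨h.mem b, fun y hy => ?_⟩
    exact (h.cl_le_of_allE (K := centralizer {ν b}) b2 (fun a ha => mem_centralizer_singleton_iff.2 (by
      rw [← h.mul, ← h.mul, Nat.eq_of_beq_eq_true ha])) (hM hy) _ rfl).symm
  obtain ⟨k, L, j, e, hK⟩ := h.subs_sound hQ hX e2 hXM hM hc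
  simp only [leafOK, force_eq] at e
  generalize Nat.land (Nat.shiftRight c.es (Nat.mul 32 j)) 0xffffffff = w at e
  generalize Nat.land w 65535 = s at e
  generalize Nat.shiftRight w 16 = j at e
  rcases cnd_or e with ⟨-, e⟩ | ⟨-, e⟩
  · obtain ⟨e1, e2⟩ := band_eq_true.1 e
    obtain ⟨a1, a2, a3⟩ := h.cand_sound (K := centralizer {ν s}) e2 fun a ha =>
      mem_centralizer_singleton_iff.2 (by rw [← h.mul, ← h.mul, Nat.eq_of_beq_eq_true ha])
    exact (h.not_mem hQ (neg_eq e1) (hM (hC ⟨h.mem s, fun y hy =>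
      (hK _ a1 a2 a3 hy _ rfl).symm⟩))).elim
  rw [band_eq_true, band_eq_true] at e
  obtain ⟨e1, e2, e3⟩ := e
  have hj : j < n := Nat.le_of_ble_eq_true e1
  obtain ⟨c', e⟩ := hall j (Nat.zero_le _) hj
  simp only [clsOK, force_eq, band_eq_true] at e
  obtain ⟨a1, a2, a3⟩ := h.cand_sound (K := (cl ν (look CT j)).comap (MulAut.conj (ν s)).toMonoidHom) e3
    fun a ha => by have := h.mem_sound ha; rwa [h.cj] at this
  have := finite_of_le (h.cl_le (look CT j))
  refine ⟨j, hj, ν s, h.mem s, eq_of_le_of_card_le (map_le_iff_le_comap.2 (hK _ a1 a2 a3)) ?_⟩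
  rw [card_map_of_injective (MulAut.conj (ν s)).injective, h.card_cl e.1]
  rw [h.card_cl hQ, ← Nat.eq_of_beq_eq_true e2, pow_succ] at hc
  omega

theorem enum (hall : Rng CT n 0 n) (hn : 0 < n) (h0 : look CT 0 = aG 0) :
    ∀ P, P ≤ S → centralizerIn S P ≤ P →
      ∃ j < n, ∃ s ∈ S, P.map (MulAut.conj s).toMonoidHom = cl ν (look CT j) := by
  have := h.finite
  refine downward_induction fun P hP ih hC => ?_
  rcases hP.eq_or_lt with rfl | hlt
  · exact ⟨0, hn, 1, one_mem _, by rw [map_conj_one, h0]; exact h.G_zero.symm⟩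
  have := finite_of_le hP
  obtain ⟨a, ha⟩ := (h.isPGroup.to_le hP).exists_card_eq
  have h1 : Nat.card (P.subgroupOf S) = 3 ^ a := by
    rw [Nat.card_congr (subgroupOfEquivOfLe hP).toEquiv, ha]
  have h2 := card_lt_of_lt hlt
  rw [ha, h.card, Nat.pow_lt_pow_iff_right (by norm_num)] at h2
  obtain ⟨K, hK, hPK⟩ := Sylow.exists_subgroup_card_pow_succ (G := S) (p := 3) (n := a)
    (by rw [h.card]; exact pow_dvd_pow _ h2) h1
  have h3 : Nat.card (K.map S.subtype) = 3 * Nat.card P := by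
    rw [card_map_of_injective S.subtype_injective, hK, ha, pow_succ']
  have h4 : P ≤ K.map S.subtype := fun x hx => ⟨⟨x, hP hx⟩, hPK hx, rfl⟩
  obtain ⟨i, hi, s, hs, e⟩ := ih _ (map_subtype_le K) (by rw [h3, ha]; have := pow_pos (by norm_num : 0 < 3) a; omega)
    ((centralizerIn_anti h4).trans (hC.trans h4))
  obtain ⟨j, hj, t, ht, e'⟩ := h.step hall hi (M := P.map (MulAut.conj s).toMonoidHom) (e ▸ map_mono h4)
    (by rw [← e, card_map_of_injective (f := (MulAut.conj s).toMonoidHom) (MulAut.conj s).injective,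
      card_map_of_injective (f := (MulAut.conj s).toMonoidHom) (MulAut.conj s).injective, h3])
    (cent_conj hC hs)
  exact ⟨j, hj, t * s, mul_mem ht hs, by rw [← map_conj_map_conj, e']⟩

theorem ess_enum [Finite S] (hall : Rng CT n 0 n) (hn : 0 < n) (h0 : look CT 0 = aG 0)
    {F : FusionSystem S} (hF : F.IsSaturated 3) {E : Subgroup Ω} (hE : F.IsEssential 3 E) :
    ∃ j, surv j = true ∧ F.IsEssential 3 (cl ν (look CT j)) ∧
      ∃ s ∈ S, E = (cl ν (look CT j)).map (MulAut.conj s).toMonoidHom := by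
  obtain ⟨j, hj, s, hs, e⟩ := h.enum hall hn h0 E hE.1.1 (essential_centralizerIn_le hE)
  have h1 := (Mor.conj F le_rfl hs).essential_img_of_top hE
  rw [img_conj, e] at h1
  obtain ⟨c, e'⟩ := hall j (Nat.zero_le _) hj
  simp only [clsOK, force_eq, band_eq_true] at e'
  refine ⟨j, ?_, h1, s⁻¹, inv_mem hs, by rw [← e, map_conj_map_conj, inv_mul_cancel, map_conj_one]⟩
  rcases cnd_or e'.2.2.2.2 with ⟨e, -⟩ | ⟨-, e⟩
  · exact e
  · exact (h.kill_sound hF e'.1 (List.forall_mem_cons.2 ⟨h.good_top e'.1,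
      List.forall_mem_singleton.2 h.good_zero⟩) e h1).elim

end Mod

end CfsgLib.Th3
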