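import Cfsg.Agent.Lib.Th3.Defs
import Cfsg.Agent.Lib.Fus2.R1

/-! Package TV: a transvection forces Sylow subgroups of order three. -/

set_option autoImplicit false
set_option maxRecDepth 100000
set_option linter.unusedSectionVars false

namespace CfsgLib.Th3

open Subgroup Cfsg Cfsg.FusionSystem CfsgLib.Comput CfsgLib.Fusion CfsgLib.ExSp4

theorem tv_c3 {Q : Type*} [Group Q] {l a b : Q} (hl : l ^ 3 = 1) (ha : a ∈ zpowers l)
    (hb : b ∈ zpowers l) (b1 : b ≠ 1) : ∃ k < 3, a * b ^ k = 1 := by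
  have key : ∀ c ∈ zpowers l, c = 1 ∨ c = l ∨ c = l ^ 2 := by
    rintro _ ⟨j, rfl⟩
    have h3 : l ^ (3 : ℤ) = 1 := by exact_mod_cast hl
    simp only
    rw [zpow_eq_zpow_emod j h3]
    have : j % 3 = 0 ∨ j % 3 = 1 ∨ j % 3 = 2 := by omega
    rcases this with e | e | e <;> rw [e]
    · exact Or.inl (zpow_zero _)
    · exact Or.inr (Or.inl (zpow_one _))
    · exact Or.inr (Or.inr (by exact_mod_cast rfl))
  rcases key a ha with rfl | rfl | rfl
  · exact ⟨0, by norm_num, by simp⟩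
  · rcases key b hb with rfl | rfl | rfl
    · exact absurd rfl b1
    · exact ⟨2, by norm_num, by rw [← pow_succ', hl]⟩
    · exact ⟨1, by norm_num, by rw [pow_one, ← pow_succ', hl]⟩
  · rcases key b hb with rfl | rfl | rfl
    · exact absurd rfl b1
    · exact ⟨1, by norm_num, by rw [pow_one, ← pow_succ, hl]⟩
    · exact ⟨2, by norm_num, by rw [← pow_succ', ← pow_mul, mul_comm, pow_mul, hl, one_pow]⟩

theorem tv {E : Type*} [Group E] [Finite E] {A U M : Subgroup (MulAut E)} (h : EssAut 3 A U M)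
    (hE : IsPGroup 3 E) {t u : MulAut E} (ht : t ∈ U) (hu : u ∈ U) (htI : t ∉ Inn E)
    (hk : ∀ k < 3, t ^ k * u ∉ Inn E) {l : E} (h1 : StabOn t (frattini E ⊔ zpowers l) ⊤)
    (h2 : l⁻¹ * t l ∈ frattini E) : False := by
  have : Fact (Nat.Prime 3) := ⟨Nat.prime_three⟩
  let π := QuotientGroup.mk' (frattini E)
  let W : Subgroup E := (π.comp t.toMonoidHom).eqLocus π
  have mW : ∀ x, x ∈ W ↔ π (t x) = π x := fun x => Iff.rfl
  have π1 : ∀ x, π x = 1 ↔ x ∈ frattini E := fun x => QuotientGroup.eq_one_iff x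
  have hΦW : frattini E ≤ W := fun x hx => by
    rw [mW, (π1 x).2 hx, π1]
    exact aInv_frattini U t ht x hx
  have hlW : l ∈ W := by
    rw [mW, eq_comm]
    exact QuotientGroup.eq.2 h2
  have hLW : frattini E ⊔ zpowers l ≤ W := sup_le hΦW (zpowers_le.2 hlW)
  have s2 : StabOn t (frattini E) W := stabOn_iff_mk.2 fun y hy => hy
  have opp : ∀ g ∈ A, g ∉ M → g l ∉ W := fun g hg hgM hh => by
    refine Fus2.r1_opposite h hE le_sup_left hLW ht htI h1 s2 hg hgM ?_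
    rw [Subgroup.map_sup, (aInv_frattini A).map_eq hg, MonoidHom.map_zpowers]
    exact sup_le hΦW (zpowers_le.2 hh)
  have l3 : π l ^ 3 = 1 := by rw [← map_pow, π1]; exact CfsgLib.PGroup.pow_mem_frattini hE l
  have hπ : ∀ x ∈ frattini E ⊔ zpowers l, π x ∈ zpowers (π l) := fun x hx => by
    have := mem_map_of_mem π hx
    rwa [Subgroup.map_sup, MonoidHom.map_zpowers, (Subgroup.map_eq_bot_iff _).2 (QuotientGroup.ker_mk' _).ge,
      bot_sup_eq] at this
  have hf : ∀ x, (π x)⁻¹ * π (t x) ∈ zpowers (π l) := fun x => by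
    rw [← map_inv, ← map_mul]
    exact hπ _ (h1 x (mem_top x))
  have tr : ∀ x w, w ∉ W → ∃ k < 3, x * w ^ k ∈ W := fun x w hw => by
    obtain ⟨k, hk, e⟩ := tv_c3 l3 (hf x) (hf w) fun e => hw (inv_mul_eq_one.1 e).symm
    refine ⟨k, hk, ?_⟩
    rw [mW, map_mul, map_pow, map_mul, map_mul, map_pow, map_pow]
    have c : Commute (π w)⁻¹ (π (t w)) := Fus2.r1_mk_comm hE _ _
    rw [c.mul_pow, inv_pow, mul_assoc, inv_mul_eq_one, Fus2.r1_mk_comm hE (π w ^ k)⁻¹,
      ← mul_assoc, eq_mul_inv_iff_mul_eq] at e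
    exact e.symm
  obtain ⟨g, hg, hgM⟩ := h.exists_notMem
  have hgi : g⁻¹ ∉ M := fun hh => hgM (by simpa using hh)
  have hz : u (g l) ∉ W := opp (u * g) (A.mul_mem (h.U_le_A hu) hg)
    fun hh => hgM ((mul_mem_cancel_left (h.U_le hu)).1 hh)
  generalize hzz : u (g l) = z at hz
  have hm : z⁻¹ * t z ∈ frattini E ⊔ zpowers l := h1 z (mem_top z)
  have hm1 : π (z⁻¹ * t z) ≠ 1 := fun e => hz (by
    rw [map_mul, map_inv, inv_mul_eq_one] at e
    exact e.symm)
  have e0 : t z = z * (z⁻¹ * t z) := by group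
  generalize z⁻¹ * t z = m at hm hm1 e0
  have gΦ : ∀ x ∈ frattini E, g⁻¹ x ∈ W := fun x hx => hΦW (aInv_frattini A _ (A.inv_mem hg) x hx)
  have hmW : g⁻¹ m ∉ W := fun hh => by
    obtain ⟨k, -, e⟩ := tv_c3 l3 (mem_zpowers _) (hπ m hm) hm1
    rw [← map_pow, ← map_mul, π1] at e
    have := gΦ _ e
    rw [map_mul, map_pow, mul_mem_cancel_right (W.pow_mem hh k)] at this
    exact opp _ (A.inv_mem hg) hgi this
  obtain ⟨k, k3, hk'⟩ := tr (g⁻¹ z) _ hmW
  have hyu : t ^ k * u ∈ U := U.mul_mem (U.pow_mem ht k) hu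
  refine opp (g⁻¹ * (t ^ k * u) * g⁻¹⁻¹)
    (A.mul_mem (A.mul_mem (A.inv_mem hg) (h.U_le_A hyu)) (A.inv_mem (A.inv_mem hg)))
    (h.conj_notMem (A.inv_mem hg) hgi hyu (hk k k3)) ?_
  have e := Fus2.r1_pow_apply s2 hΦW (hLW hm) e0 k
  rw [← map_pow, ← map_mul, eq_comm, QuotientGroup.mk'_apply, QuotientGroup.mk'_apply,
    QuotientGroup.eq] at e
  have e' := W.mul_mem hk' (gΦ _ e)
  rw [← map_pow, ← map_mul, ← map_mul, mul_inv_cancel_left] at e'
  simpa [← hzz] using e'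

end CfsgLib.Th3
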