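import Cfsg.Agent.Lib.Th3.Sift
import Cfsg.Agent.Lib.Th3.Tv

/-! Certificates that a subgroup is not essential. -/

set_option autoImplicit false
set_option maxRecDepth 100000
set_option linter.unusedSectionVars false

namespace CfsgLib.Th3

open Subgroup Cfsg Cfsg.FusionSystem CfsgLib.Comput CfsgLib.Fusion CfsgLib.ExSp4
open scoped commutatorElement

/-- negation -/
noncomputable def neg (b : Bool) : Bool := cnd b false true

theorem neg_eq {b : Bool} (h : neg b = true) : b = false := by cases b <;> simp_all [neg, cnd]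

theorem cnd_or {c a b : Bool} (h : cnd c a b = true) : (c = true ∧ a = true) ∨ (c = false ∧ b = true) := by
  cases c <;> simp_all [cnd]

theorem allLt_complete {p : ℕ → Bool} {n : ℕ} (h : ∀ i < n, p i = true) : allLt p n = true := by
  induction n with
  | zero => rfl
  | succ n ih =>
    change Bool.rec false (allLt p n) (p n) = true
    rw [h n n.lt_succ_self]
    exact ih fun i hi => h i (hi.trans n.lt_succ_self)

/-- the value of an atom -/
noncomputable def atomV (a b : ℕ) : ℕ := cnd (Nat.beq b 0) (cube a) (cnd (Nat.beq a 0) b (cm a b))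

/-- check an atom and pass on its value -/
noncomputable def atomK (ok : ℕ → ℕ → Bool) (w : ℕ) (k : ℕ → Bool) : Bool :=
  force (Nat.land w 65535) fun a => force (Nat.land (Nat.shiftRight w 16) 65535) fun b =>
    band (ok a b) (force (atomV a b) k)

/-- every entry of `X` is a product of at most two atoms -/
noncomputable def marksOK (ok : ℕ → ℕ → Bool) (X m : ℕ) : Bool := allLt (fun d =>
  force (ent X d) fun h => cnd (Nat.beq h 0) true
    (force (Nat.land (Nat.shiftRight m (Nat.mul 64 d)) 0xffffffffffffffff) fun w =>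
      atomK ok w fun u => force (Nat.shiftRight w 32) fun w' => cnd (Nat.beq w' 0) (Nat.beq h u)
        (atomK ok w' fun v => Nat.beq h (mul u v)))) 10

/-- atoms of the Frattini subgroup and further allowed elements -/
noncomputable def phiOK (E : ℕ) (ok : ℕ → Bool) (a b : ℕ) : Bool :=
  cnd (Nat.beq b 0) (mem E a) (cnd (Nat.beq a 0) (ok b) (band (mem E a) (mem E b)))

/-- a characteristic subgroup -/
structure Nd where
  op : ℕ
  i : ℕ
  j : ℕ
  X : ℕ
  m : ℕ

/-- check of a characteristic subgroup -/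
noncomputable def nodeOK (E : ℕ) (env : List ℕ) (n : Nd) : Bool :=
  force (nth 0 env n.i) fun A => force (nth 0 env n.j) fun B => force n.X fun X =>
  band (closed X) (band (allE X (mem E)) (cnd (Nat.beq n.op 0)
    (band (allE X fun x => allE A fun a => mem B (cm x a))
      (allT1 E X fun t => neg (allE A fun a => mem B (cm t a))))
    (cnd (Nat.beq n.op 2)
      (band (marksOK (fun a b => cnd (Nat.beq b 0) false (cnd (Nat.beq a 0) false
          (band (mem A a) (mem B b)))) X n.m)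
        (band (allE X fun x => allE E fun e => mem X (cm x e))
          (allE A fun a => allE B fun b => mem X (cm a b))))
      (band (marksOK (fun a b => cnd (Nat.beq b 0) false (cnd (Nat.beq a 0)
          (band (mem A b) (mem B (cube b))) false)) X n.m)
        (allT A 0 fun t => cnd (mem X t) true (neg (mem B (cube t))))))))

/-- check a list of characteristic subgroups -/
noncomputable def nodesK (E : ℕ) (k : List ℕ → Bool) (l : List Nd) : List ℕ → Bool :=
  List.rec (motive := fun _ => List ℕ → Bool) k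
    (fun n _ ih env => band (nodeOK E env n) (ih (n.X :: env))) l

/-- check a chain stabilised by `g` -/
noncomputable def stepsK (E g : ℕ) (env : List ℕ) (l : List (ℕ × ℕ × ℕ)) : ℕ → Bool :=
  List.rec (motive := fun _ => ℕ → Bool) (fun Y => allE E fun e => mem Y (cm e g))
    (fun s _ ih Y => force (nth 0 env s.1) fun D => force s.2.1 fun Y' =>
      band (allE D fun d => mem Y (cm d g))
        (band (marksOK (phiOK E fun b => cnd (mem Y b) true (mem D b)) Y' s.2.2) (ih Y'))) l

theorem stepsK_cons (E g : ℕ) (env : List ℕ) (s : ℕ × ℕ × ℕ) (l : List (ℕ × ℕ × ℕ)) (Y : ℕ) :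
    stepsK E g env (s :: l) Y = band (allE (nth 0 env s.1) fun d => mem Y (cm d g))
      (band (marksOK (phiOK E fun b => cnd (mem Y b) true (mem (nth 0 env s.1) b)) s.2.1 s.2.2)
        (stepsK E g env l s.2.1)) := by
  simp only [stepsK, force_eq]

/-- a certificate -/
structure Kl where
  nodes : List Nd
  g : ℕ
  Y : ℕ
  m : ℕ
  steps : List (ℕ × ℕ × ℕ)
  u : ℕ
  l : ℕ

/-- `g` normalises `E` and lies outside -/
noncomputable def outOK (E g : ℕ) : Bool := band (allE E fun e => mem E (cm e g)) (neg (mem E g))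

/-- check of a certificate -/
noncomputable def killOK (E : ℕ) (env : List ℕ) (k : Kl) : Bool := force k.g fun g => force k.Y fun Y =>
  band (outOK E g) (band (marksOK (phiOK E fun _ => false) Y k.m) (cnd (Nat.beq k.u 0)
    (nodesK E (fun env => stepsK E g env k.steps Y) k.nodes env)
    (force (nth (0, 0, 0) k.steps 0).2.1 fun Y' => band (outOK E k.u) (band (neg (mem E (mul k.u g)))
      (band (neg (mem E (mul (mul k.u g) g))) (band (mem E k.l) (band (marksOK (phiOK E fun b =>
        cnd (mem Y b) true (Nat.beq b k.l)) Y' (nth (0, 0, 0) k.steps 0).2.2)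
        (band (allE E fun e => mem Y' (cm e g)) (mem Y (cm k.l g))))))))))

/-- the two arrays generate the same subgroup -/
noncomputable def same (X Y : ℕ) : Bool := band (allE X (mem Y)) (allE Y (mem X))

variable {Ω : Type*} [Group Ω] {S K : Subgroup Ω} {ν : ℕ → Ω} {E X Y A B g m : ℕ}
  {F : FusionSystem S}

/-- an invariant subgroup of `E` -/
structure Good (F : FusionSystem S) (ν : ℕ → Ω) (E X : ℕ) : Prop where
  closed : closed X = true
  le : cl ν X ≤ cl ν E
  ivt : Ivt F (cl ν E) (cl ν X)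

theorem Good.conj (h : Mod S ν) (hX : Good F ν E X) {x k : Ω} (hx : x ∈ cl ν E) (hk : k ∈ cl ν X) :
    x⁻¹ * k * x ∈ cl ν X := by
  have := hX.ivt _ (au_conj (h.cl_le E) (S.inv_mem (h.cl_le E hx)) fun y hy =>
    mul_mem (mul_mem (inv_mem hx) hy) (inv_mem (inv_mem hx))) k (hX.le hk) hk
  simpa using this

theorem Good.aInv (h : Mod S ν) (hX : Good F ν E X) :
    AInv (F.autGroup (cl ν E)) ((cl ν X).subgroupOf (cl ν E)) :=
  aInv_subgroupOf fun _ hα x hx hX' => hX.ivt _ (au_ext (h.cl_le E) hα) x hx hX'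

namespace Mod

variable (h : Mod S ν)
include h

theorem same_sound (e : same X Y = true) : cl ν X = cl ν Y :=
  le_antisymm (h.cl_le_of_allE (band_eq_true.1 e).1 fun _ => h.mem_sound)
    (h.cl_le_of_allE (band_eq_true.1 e).2 fun _ => h.mem_sound)

theorem good_top (hE : closed E = true) : Good F ν E E := ⟨hE, le_rfl, fun _ hf x hx _ => hf.2 x hx⟩

theorem good_zero : Good F ν E 0 := ⟨by decide +kernel, by rw [h.cl_zero]; exact bot_le,
  fun f hf x _ hx => by
    rw [h.cl_zero, mem_bot] at hx ⊢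
    rw [hx, hf.1.map_one]⟩

theorem good_nth {env : List ℕ} (he : ∀ X ∈ env, Good F ν E X) (i : ℕ) : Good F ν E (nth 0 env i) :=
  (nth_mem_or 0 env i).elim (he _) fun e => by rw [e]; exact h.good_zero

theorem allE_ent {P : ℕ → Bool} (hP : allE g P = true) {Q : ℕ → Prop} (h0 : Q 0)
    (h1 : ∀ a, P a = true → Q a) : ∀ d < 10, Q (ent g d) := fun d hd =>
  (allE_sound hP d hd).elim (fun e => e ▸ h0) (h1 _)

theorem cm_ent' (hP : allE A (fun a => allE B fun b => Th3.mem X (Th3.cm a b)) = true) :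
    ∀ d < 10, ∀ d' < 10, ν (Th3.cm (ent A d) (ent B d')) ∈ cl ν X :=
  h.allE_ent hP (Q := fun a => ∀ d' < 10, ν (Th3.cm a (ent B d')) ∈ cl ν X)
    (fun _ _ => by simp [h.cm, h.zero]) fun a ha => h.allE_ent ha (Q := fun b => ν (Th3.cm a b) ∈ cl ν X)
      (by simp [h.cm, h.zero]) fun _ => h.mem_sound

theorem marks_sound {ok : ℕ → ℕ → Bool} (hm : marksOK ok X m = true)
    (hK : ∀ a b, ok a b = true → ν (atomV a b) ∈ K) : cl ν X ≤ K := by
  have at1 : ∀ w k, atomK ok w k = true → ∃ u, ν u ∈ K ∧ k u = true := fun w k e => by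
    rw [atomK, force_eq, force_eq, force_eq, band_eq_true] at e
    exact ⟨_, hK _ _ e.1, e.2⟩
  refine cl_le_iff.2 fun d hd => ?_
  have := allLt_sound hm d hd
  rw [force_eq] at this
  rcases cnd_or this with ⟨e, -⟩ | ⟨-, e⟩
  · rw [Nat.eq_of_beq_eq_true e, h.zero]; exact K.one_mem
  rw [force_eq] at e
  obtain ⟨u, hu, e⟩ := at1 _ _ e
  rw [force_eq] at e
  rcases cnd_or e with ⟨-, e⟩ | ⟨-, e⟩
  · rwa [Nat.eq_of_beq_eq_true e]
  · obtain ⟨v, hv, e⟩ := at1 _ _ e
    rw [Nat.eq_of_beq_eq_true e, h.mul]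
    exact K.mul_mem hu hv

theorem phi_sound {ok : ℕ → Bool} (hm : marksOK (phiOK E ok) X m = true)
    (hK : (frattini (cl ν E)).map (cl ν E).subtype ≤ K) (hok : ∀ b, ok b = true → ν b ∈ K) :
    cl ν X ≤ K := by
  have := h.finite
  have := finite_of_le (h.cl_le E)
  have hp : IsPGroup 3 (cl ν E) := h.isPGroup.to_le (h.cl_le E)
  refine h.marks_sound hm fun a b e => ?_
  rcases cnd_or e with ⟨e0, e⟩ | ⟨e0, e⟩
  · rw [atomV, e0, cnd_true, h.cube]
    exact hK ⟨_, PGroup.pow_mem_frattini hp ⟨_, h.mem_sound e⟩, rfl⟩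
  rcases cnd_or e with ⟨e1, e⟩ | ⟨e1, e⟩
  · rw [atomV, e0, e1]; exact hok _ e
  · rw [atomV, e0, e1, cnd_false, cnd_false, h.cm]
    obtain ⟨ea, eb⟩ := band_eq_true.1 e
    refine hK ⟨_, PGroup.commutator_le_frattini hp (commutator_mem_commutator
      (mem_top (⟨_, h.mem_sound ea⟩ : cl ν E)⁻¹) (mem_top (⟨_, h.mem_sound eb⟩ : cl ν E)⁻¹)), ?_⟩
    simp [commutatorElement_def]

theorem node_sound (hE : closed E = true) {env : List ℕ} (he : ∀ X ∈ env, Good F ν E X) {n : Nd}
    (hn : nodeOK E env n = true) : Good F ν E n.X := by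
  have := h.finite
  rw [nodeOK, force_eq, force_eq, force_eq, band_eq_true, band_eq_true] at hn
  obtain ⟨hX, hXE, hn⟩ := hn
  have gA := h.good_nth he n.i
  have gB := h.good_nth he n.j
  generalize nth 0 env n.i = A at hn gA
  generalize nth 0 env n.j = B at hn gB
  generalize n.X = X at hn hX hXE ⊢
  have lX : cl ν X ≤ cl ν E := h.cl_le_of_allE hXE fun _ => h.mem_sound
  refine ⟨hX, lX, ?_⟩
  rcases cnd_or hn with ⟨-, hn⟩ | ⟨-, hn⟩
  · obtain ⟨h1, h2⟩ := band_eq_true.1 hn
    let D : Subgroup Ω :=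
      { carrier := {x | x ∈ cl ν E ∧ ∀ a ∈ cl ν A, x⁻¹ * a⁻¹ * x * a ∈ cl ν B}
        one_mem' := ⟨one_mem _, fun a _ => by simp⟩
        mul_mem' := fun {x y} hx hy => ⟨mul_mem hx.1 hy.1, fun a ha => by
          have := mul_mem (gB.conj h hy.1 (hx.2 a ha)) (hy.2 a ha)
          convert this using 1; group⟩
        inv_mem' := fun {x} hx => ⟨inv_mem hx.1, fun a ha => by
          have := gB.conj h (inv_mem hx.1) (inv_mem (hx.2 a ha))
          convert this using 1; group⟩ }
    have l1 : cl ν X ≤ D := fun x hx => ⟨lX hx, h.cm_cl (fun y hy k hk => gB.conj h (lX hy) hk)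
      (fun y hy k hk => gB.conj h (gA.le hy) hk) (h.cm_ent' h1) x hx⟩
    have l2 : D ≤ cl ν X := h.allT1_sound hE (closed_wf hX) h2 l1 (fun _ hx => hx.1) fun t ht hD => by
      have := neg_eq ht
      rw [show allE A (fun a => Th3.mem B (Th3.cm t a)) = true from allLt_complete fun d hd => by
        rw [force_eq, cnd_eq]
        split_ifs
        · rfl
        · exact h.mem_complete gB.closed (by rw [h.cm]; exact hD.2 _ (ent_mem_cl ν A hd))] at this
      exact Bool.noConfusion this
    intro f hf x hx hxX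
    obtain ⟨k, hk, -, e⟩ := hf.exists_inv
    refine l2 ⟨hf.2 x hx, fun a ha => ?_⟩
    have m1 := gA.ivt k hk a (gA.le ha) ha
    have m2 := gA.le m1
    have := gB.ivt f hf _ (gB.le ((l1 hxX).2 _ m1)) ((l1 hxX).2 _ m1)
    rwa [hf.1.map_mul (mul_mem (mul_mem (inv_mem hx) (inv_mem m2)) hx) m2,
      hf.1.map_mul (mul_mem (inv_mem hx) (inv_mem m2)) hx, hf.1.map_mul (inv_mem hx) (inv_mem m2),
      hf.1.map_inv hx, hf.1.map_inv m2, e a (gA.le ha)] at this
  rcases cnd_or hn with ⟨-, hn⟩ | ⟨-, hn⟩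
  · obtain ⟨h1, hn⟩ := band_eq_true.1 hn
    obtain ⟨h2, h3⟩ := band_eq_true.1 hn
    have l1 : cl ν X ≤ ⁅cl ν A, cl ν B⁆ := h.marks_sound h1 fun a b e => by
      rcases cnd_or e with ⟨-, e⟩ | ⟨e0, e⟩
      · exact Bool.noConfusion e
      rcases cnd_or e with ⟨-, e⟩ | ⟨e1, e⟩
      · exact Bool.noConfusion e
      rw [atomV, e0, e1, cnd_false, cnd_false, h.cm]
      simpa [commutatorElement_def] using commutator_mem_commutator
        (inv_mem (h.mem_sound (band_eq_true.1 e).1)) (inv_mem (h.mem_sound (band_eq_true.1 e).2))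
    have nX : ∀ y ∈ cl ν E, ∀ k ∈ cl ν X, y⁻¹ * k * y ∈ cl ν X := by
      have := finite_of_le (h.cl_le X)
      have : cl ν E ≤ normalizer (cl ν X : Set Ω) := cl_le_iff.2 fun d hd => by
        rw [← inv_mem_iff]
        refine mem_normalizer_of_conj_mem (h.conj_cl fun d' hd' => ?_)
        have := mul_mem (ent_mem_cl ν X hd') (h.cm_ent' h2 d' hd' d hd)
        rw [h.cm] at this
        convert this using 1; group
      exact fun y hy k hk => conj_inv_mem_of_mem_normalizer (this hy) hk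
    have l2 : ⁅cl ν A, cl ν B⁆ ≤ cl ν X := commutator_le.2 fun a ha b hb => by
      simpa [commutatorElement_def] using h.cm_cl (fun y hy => nX y (gA.le hy))
        (fun y hy => nX y (gB.le hy)) (h.cm_ent' h3) _ (inv_mem ha) _ (inv_mem hb)
    intro f hf x _ hxX
    refine l2 (commutator_mono (img_le_iff.2 fun a ha => gA.ivt f hf a (gA.le ha) ha)
      (img_le_iff.2 fun a ha => gB.ivt f hf a (gB.le ha) ha) ?_)
    rw [← hf.1.hom.img_commutator gA.le gB.le]
    exact mem_img_of_mem f (l1 hxX)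
  · obtain ⟨h1, h2⟩ := band_eq_true.1 hn
    have l1 : cl ν X ≤ closure {x | x ∈ cl ν A ∧ x ^ 3 ∈ cl ν B} := h.marks_sound h1 fun a b e => by
      rcases cnd_or e with ⟨-, e⟩ | ⟨e0, e⟩
      · exact Bool.noConfusion e
      rcases cnd_or e with ⟨e1, e⟩ | ⟨-, e⟩
      · rw [atomV, e0, e1]
        exact subset_closure ⟨h.mem_sound (band_eq_true.1 e).1,
          h.cube b ▸ h.mem_sound (band_eq_true.1 e).2⟩
      · exact Bool.noConfusion e
    have l2 : ∀ x ∈ cl ν A, x ^ 3 ∈ cl ν B → x ∈ cl ν X := fun x hx h3 => by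
      obtain ⟨y, hy, t, ht, e⟩ := h.allT_sound gA.closed (by decide +kernel)
        (by rw [h.cl_zero]; exact bot_le) h2 hx
      rw [h.cl_zero, mem_bot] at hy
      rw [hy, one_mul] at e
      subst e
      rcases cnd_or ht with ⟨e, -⟩ | ⟨-, e⟩
      · exact h.mem_sound e
      · exact (h.not_mem gB.closed (neg_eq e) (h.cube t ▸ h3)).elim
    intro f hf x _ hxX
    have l3 : closure {x | x ∈ cl ν A ∧ x ^ 3 ∈ cl ν B} ≤ cl ν E :=
      (closure_le _).2 fun _ hy => gA.le hy.1
    refine (hf.1.hom.mono l3).mem_of_closure (fun y hy => l2 _ (gA.ivt f hf y (gA.le hy.1) hy.1) ?_)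
      x (l1 hxX)
    rw [← hf.1.hom.map_pow (gA.le hy.1)]
    exact gB.ivt f hf _ (gB.le hy.2) hy.2

theorem nodes_sound (hE : closed E = true) {k : List ℕ → Bool} {l : List Nd} :
    ∀ {env : List ℕ}, (∀ X ∈ env, Good F ν E X) → nodesK E k l env = true →
      ∃ env', (∀ X ∈ env', Good F ν E X) ∧ k env' = true := by
  induction l with
  | nil => exact fun he e => ⟨_, he, e⟩
  | cons n l ih =>
    intro env he e
    obtain ⟨e1, e2⟩ := band_eq_true.1 e
    exact ih (List.forall_mem_cons.2 ⟨h.node_sound hE he e1, he⟩) e2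

theorem out_sound (hE : closed E = true) (e : outOK E g = true) :
    (ν g)⁻¹ ∈ normalizer (cl ν E : Set Ω) ∧ ν g ∉ cl ν E := by
  have := h.finite
  have := finite_of_le (h.cl_le E)
  obtain ⟨e1, e2⟩ := band_eq_true.1 e
  refine ⟨mem_normalizer_of_conj_mem (h.conj_cl fun d hd => ?_), h.not_mem hE (neg_eq e2)⟩
  have := mul_mem (ent_mem_cl ν E hd) (h.allE_ent e1 (Q := fun a => ν (Th3.cm a g) ∈ cl ν E)
    (by simp [h.cm, h.zero]) (fun _ => h.mem_sound) d hd)
  rw [h.cm] at this
  convert this using 1; group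

theorem stab_of (hn : (ν g)⁻¹ ∈ normalizer (cl ν E : Set Ω)) {C : Subgroup (cl ν E)} (hC : C.Normal)
    (hY : cl ν Y ≤ C.map (cl ν E).subtype) (hA : cl ν A ≤ cl ν E)
    (e : allE A (fun a => Th3.mem Y (Th3.cm a g)) = true) :
    StabOn (conjAut _ _ hn) C ((cl ν A).subgroupOf (cl ν E)) := by
  refine stabOn_conjAut hn fun y hy => h.stab_cl (isHomOn_conj _ _) ?_ (fun d hd => ?_) _ hy
  · rintro x hx _ ⟨k, hk, rfl⟩
    exact ⟨_, hC.conj_mem' k hk ⟨x, hA hx⟩, rfl⟩
  · have := hY (h.allE_ent e (Q := fun a => ν (Th3.cm a g) ∈ cl ν Y)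
      (by simp [h.cm, h.zero]) (fun _ => h.mem_sound) d hd)
    rw [h.cm] at this
    convert this using 1; group

theorem steps_sound (hn : (ν g)⁻¹ ∈ normalizer (cl ν E : Set Ω)) {env : List ℕ}
    (he : ∀ X ∈ env, Good F ν E X) {l : List (ℕ × ℕ × ℕ)} : ∀ {Y : ℕ} {C : Subgroup (cl ν E)},
      AInv (F.autGroup _) C → frattini _ ≤ C → cl ν Y ≤ C.map (cl ν E).subtype →
      CopStab 3 (F.autGroup _) (frattini _) C (conjAut _ _ hn) → stepsK E g env l Y = true →
      CopStab 3 (F.autGroup _) (frattini _) ⊤ (conjAut _ _ hn) := by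
  have hp : IsPGroup 3 (cl ν E) := h.isPGroup.to_le (h.cl_le E)
  have hu := conjAut_mem_autGroup F (h.cl_le E) (S.inv_mem (h.mem g)) hn
  have hI := Inn_le_autGroup F (h.cl_le E)
  induction l with
  | nil =>
    intro Y C h1 h2 h3 h4 e
    have := h.stab_of hn (h1.normal hI) h3 le_rfl e
    rw [subgroupOf_self] at this
    exact h4.trans hp h2 (this.copStab hu h1 (aInv_top _))
  | cons s l ih =>
    intro Y C h1 h2 h3 h4 e
    have gD := h.good_nth he s.1
    rw [stepsK_cons, band_eq_true, band_eq_true] at e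
    generalize nth 0 env s.1 = D at e gD
    have := h1.normal hI
    have h5 := h1.sup (gD.aInv h)
    refine ih h5 (h2.trans le_sup_left) (h.phi_sound e.2.1 (map_mono (h2.trans le_sup_left))
      fun b hb => ?_) (h4.trans hp h2 (((stabOn_of_inv (h1 _ hu)).sup
        (h.stab_of hn this h3 gD.le e.1)).copStab hu h1 h5)) e.2.2
    rcases cnd_or hb with ⟨e, -⟩ | ⟨-, e⟩
    · exact map_mono le_sup_left (h3 (h.mem_sound e))
    · exact ⟨⟨_, gD.le (h.mem_sound e)⟩, mem_sup_right (h.mem_sound e), rfl⟩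

theorem kill_sound [Finite S] (hF : F.IsSaturated 3) (hE : closed E = true) {env : List ℕ}
    (he : ∀ X ∈ env, Good F ν E X) {k : Kl} (e : killOK E env k = true) :
    ¬ F.IsEssential 3 (cl ν E) := fun hP => by
  rw [killOK, force_eq, force_eq, band_eq_true, band_eq_true] at e
  obtain ⟨e1, e2, e⟩ := e
  obtain ⟨hn, hg⟩ := h.out_sound hE e1
  have hY := h.phi_sound e2 le_rfl fun _ e => Bool.noConfusion e
  have hgS := S.inv_mem (h.mem k.g)
  rcases cnd_or e with ⟨-, e⟩ | ⟨-, e⟩
  · obtain ⟨env', he', e⟩ := h.nodes_sound hE he e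
    exact hg (inv_mem_iff.1 (essential_mem_of_copStab h.isPGroup hF hP hgS hn
      (h.steps_sound hn he' (aInv_frattini _) le_rfl hY (copStab_refl (aInv_frattini _)
        (conjAut_mem_autGroup F (h.cl_le E) hgS hn)) e)))
  simp only [force_eq, band_eq_true] at e
  obtain ⟨e3, e4, e5, e6, e7, e8, e9⟩ := e
  obtain ⟨hn', hu⟩ := h.out_sound hE e3
  have huS := S.inv_mem (h.mem k.u)
  have := finite_of_le (h.cl_le E)
  have hp : IsPGroup 3 (cl ν E) := h.isPGroup.to_le (h.cl_le E)
  obtain ⟨M, hM⟩ := essential_essAut h.isPGroup hF hP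
  have hc := essential_centralizerIn_le hP
  refine tv hM hp (conjAut_mem_autInducedBy hn hgS) (conjAut_mem_autInducedBy hn' huS)
    (fun hi => hg (inv_mem_iff.1 (mem_of_conjAut_mem_Inn hc (h.cl_le E) hgS hn hi))) (fun j hj hi => ?_)
    (l := ⟨_, h.mem_sound e6⟩) ?_ ?_
  · have h1 : conjAut _ _ hn ^ j * conjAut _ _ hn' = conjAut _ ((ν k.g)⁻¹ ^ j * (ν k.u)⁻¹)
        (mul_mem (pow_mem hn j) hn') := by
      rw [conjAut_pow]
      exact aut_ext fun x hx => by
        rw [extAut_mul_apply, extAut_conjAut _ hx, extAut_conjAut _ hx,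
          extAut_conjAut _ (conj_mem_of_mem_normalizer hn' hx)]
        group
    rw [h1] at hi
    have h2 := inv_mem (mem_of_conjAut_mem_Inn hc (h.cl_le E) (mul_mem (pow_mem hgS j) huS) _ hi)
    rw [mul_inv_rev, inv_inv, inv_pow, inv_inv] at h2
    interval_cases j
    · exact hu (by simpa using h2)
    · exact h.not_mem hE (neg_eq e4) (by simpa [h.mul] using h2)
    · exact h.not_mem hE (neg_eq e5) (by simpa [h.mul, sq, mul_assoc] using h2)
  · have := h.stab_of hn (Fus2.r1_normal hp (le_sup_left (b := zpowers ⟨_, h.mem_sound e6⟩)))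
      (h.phi_sound e7 (map_mono le_sup_left) fun b hb => ?_) le_rfl e8
    · rwa [subgroupOf_self] at this
    rcases cnd_or hb with ⟨e, -⟩ | ⟨-, e⟩
    · exact map_mono le_sup_left (hY (h.mem_sound e))
    · rw [Nat.eq_of_beq_eq_true e]
      exact ⟨⟨_, h.mem_sound e6⟩, mem_sup_right (mem_zpowers _), rfl⟩
  · obtain ⟨y, hy, e⟩ := hY (h.mem_sound e9)
    suffices y = ⟨_, h.mem_sound e6⟩⁻¹ * conjAut _ _ hn ⟨_, h.mem_sound e6⟩ from this ▸ hy
    refine Subtype.ext ?_
    rw [Subgroup.coe_mul, coe_conjAut, Subgroup.coe_inv]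
    change (cl ν E).subtype y = _
    rw [e, h.cm]; group

end Mod

end CfsgLib.Th3
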