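import Cfsg.Agent.Lib.Th3.Qc
import Cfsg.Agent.Lib.Th3.Ctx

/-! Package T3: which subgroups are essential; the role of `E3`. -/

set_option autoImplicit false
set_option maxRecDepth 100000
set_option linter.unusedSectionVars false

namespace CfsgLib.Th3

open Subgroup Cfsg Cfsg.FusionSystem CfsgLib.Comput CfsgLib.Fusion CfsgLib.ExSp4

variable {Ω : Type*} [Group Ω] {S T : Subgroup Ω} [Finite S] {F : FusionSystem S} {ν : ℕ → Ω}

theorem t3_img {R Q : Subgroup Ω} (hR : R ≤ S) (hQ : Q ≤ R) (h : Ivt F R Q) :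
    Q ≤ R ∧ ∀ α ∈ F.autGroup R, img Q (extAut α) = Q := by
  have := finite_of_le_S (hQ.trans hR)
  exact ⟨hQ, fun α hα => ((au_ext hR hα).1.mono hQ).img_eq_self fun x hx => h _ (au_ext hR hα) x (hQ hx) hx⟩

theorem t3_G2 (h : Mod S ν) : G ν 2 ≤ E2 ν := fun x hx => by
  obtain ⟨a, rfl⟩ := h.surj x (h.G_le 2 hx)
  have := (h.mem_G (by norm_num)).1 hx
  exact h.mem_E2.2 (by omega)

theorem t3_ne (h : Mod S ν) {i : ℕ} (hi : i < 10) : G ν i ≠ ⊥ := fun e => by
  have h1 : ν 19683 ∈ G ν i := h.G_anti (j := 9) (by omega) (by norm_num) ((h.mem_G (by norm_num)).2 (by norm_num))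
  rw [e, mem_bot, h.eq_one] at h1
  norm_num at h1

variable (C : Ctx F ν)
include C

theorem ess3_of {E : Subgroup Ω} (hE : F.IsEssential 3 E) (h1 : E ≠ G ν 1) (h2 : E ≠ E2 ν) :
    F.IsEssential 3 (E3 ν) := by
  have : Fact (Nat.Prime 3) := ⟨Nat.prime_three⟩
  obtain ⟨s, hs, rfl⟩ := ((C.cases E hE).resolve_left h1).resolve_left h2
  have := (Mor.conj F le_rfl (inv_mem hs)).essential_img_of_top hE
  rw [img_conj, map_map] at this
  convert this
  rw [eq_comm]
  convert map_id _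
  ext x
  simp [mul_assoc]

theorem t3_cases (h3 : ¬ F.IsEssential 3 (E3 ν)) {E : Subgroup Ω} (hE : F.IsEssential 3 E) :
    E = G ν 1 ∨ E = E2 ν := by
  by_contra h
  exact h3 (ess3_of C hE (fun e => h (Or.inl e)) fun e => h (Or.inr e))

theorem e1_ess (hcore : F.core = ⊥) : F.IsEssential 3 (G ν 1) := by
  have : Fact (Nat.Prime 3) := ⟨Nat.prime_three⟩
  have h := C.mod
  by_contra h1
  by_cases h3 : F.IsEssential 3 (E3 ν)
  · obtain ⟨f, hf, -, f9⟩ := torus3 h C.sat h3 (isInvariantIn_refl F) C.sat (h.cl_le _)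
    have m9 : ν 19683 ∈ G ν 9 := (h.mem_G (by norm_num)).2 (by norm_num)
    have key := alperin_induction h.isPGroup C.sat
      (Φ := fun P g => 243 < Nat.card P → ∀ x ∈ P, x ∈ G ν 9 → g x ∈ G ν 9) ?_ ?_ ?_ hf.1
      (by rw [card_R3 h]; norm_num) _ (E3_le_R3 h (G8_le_E3 h (h.G_anti (by norm_num) (by norm_num) m9))) m9
    · rw [f9, h.mem_G (by norm_num)] at key
      norm_num at key
    · rintro R (rfl | hR) α hα P hP hc x hx hx9
      · exact C.chr.sG 9 (by norm_num) _ (au_ext le_rfl hα) x (hP hx) hx9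
      rcases C.cases R hR with rfl | rfl | ⟨s, -, rfl⟩
      · exact absurd hR h1
      · exact C.chr.e2Z _ (au_ext (h.cl_le _) hα) x (hP hx) hx9
      · have := essential_finite hR
        have h4 := Subgroup.card_le_of_le hP
        rw [card_map_of_injective (MulAut.conj s).injective, card_E3 h] at h4
        omega
    · exact fun P f g _ h1 e hc x hx hx9 => e x hx ▸ h1 hc x hx hx9
    · intro P Q f g hf hg h1 h2 hm hc x hx hx9
      have := finite_of_le_S hg.le
      have h4 := Subgroup.card_le_of_le (img_le_iff.2 hm)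
      rw [hf.card_img] at h4
      exact h2 (hc.trans_le h4) _ (hm x hx) (h1 hc x hx hx9)
  · refine t3_ne h (i := 9) (by norm_num) (le_bot_iff.1 (hcore ▸ le_core (isNormal_of_alperin h.isPGroup C.sat ?_)))
    rintro R (rfl | hR)
    · exact t3_img le_rfl (h.G_le _) (C.chr.sG 9 (by norm_num))
    rcases t3_cases C h3 hR with rfl | rfl
    · exact absurd hR h1
    · exact t3_img (h.cl_le _) ((h.G_anti (by norm_num) (by norm_num)).trans (t3_G2 h)) C.chr.e2Z

theorem ess3_of_not2 (hcore : F.core = ⊥) (h : ¬ F.IsEssential 3 (E2 ν)) :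
    F.IsEssential 3 (E3 ν) := by
  have : Fact (Nat.Prime 3) := ⟨Nat.prime_three⟩
  have m := C.mod
  by_contra h3
  refine t3_ne m (i := 1) (by norm_num) (le_bot_iff.1 (hcore ▸ le_core (isNormal_of_alperin m.isPGroup C.sat ?_)))
  rintro R (rfl | hR)
  · exact t3_img le_rfl (m.G_le _) (C.chr.sG 1 (by norm_num))
  rcases t3_cases C h3 hR with rfl | rfl
  · exact t3_img (m.G_le _) le_rfl fun f hf x hx _ => hf.2 x hx
  · exact absurd hR h

theorem ess3_of_le (hcore : F.core = ⊥) (hT : F.StronglyClosed T) (hne : T ≠ ⊥) (h1 : T ≤ G ν 1)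
    (h2 : T ≤ E2 ν) : F.IsEssential 3 (E3 ν) := by
  have : Fact (Nat.Prime 3) := ⟨Nat.prime_three⟩
  have := finite_of_le_S hT.1
  by_contra h3
  refine hne (le_bot_iff.1 (hcore ▸ le_core (isNormal_of_le_essential C.mod.isPGroup C.sat
    (weaklyClosed_of_stronglyClosed hT) fun R hR => ?_)))
  rcases t3_cases C h3 hR with rfl | rfl
  · exact h1
  · exact h2

theorem t3 (h1 : F.IsEssential 3 (G ν 1)) (h3 : F.IsEssential 3 (E3 ν)) (hT : F.StronglyClosed T)
    (hne : T ≠ ⊥) : G ν 1 ≤ T := by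
  have h := C.mod
  have hn : ∀ s ∈ S, ∀ x ∈ T, s * x * s⁻¹ ∈ T := fun s hs x hx => conj_mem_of_stronglyClosed hT hs hx
  have h9 := G9_le h hT.1 hn hne
  have h8 : G ν 8 ≤ T := by
    have := C.mv1 h1
    simp only [Ivt, not_forall] at this
    obtain ⟨f, hf, x, hx, x9, fx⟩ := this
    refine h.le_of_depths (by norm_num) fun d d1 d2 => ?_
    obtain rfl | rfl : d = 8 ∨ d = 9 := by omega
    · exact ⟨f x, hf.1.mem_of_stronglyClosed hT hx (h9 x9),
        C.chr.e1 f hf x hx (h.G_anti (by norm_num) (by norm_num) x9), fx⟩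
    · have m9 : ν 19683 ∈ G ν 9 := (h.mem_G (by norm_num)).2 (by norm_num)
      exact ⟨_, h9 m9, m9, fun e => by simpa using (h.mem_G (by norm_num)).1 e⟩
  have sp := (qd3 h).span h.isPGroup C.sat h3 (X := T) (fun f hf x hx xT => hf.1.mem_of_stronglyClosed hT hx xT)
    bot_le fun s hs x hx => h8 (E3_comm h s hs x hx)
  have dep : ∀ x ∈ E3 ν, ∀ d, d < 5 → x ∈ G ν d → x ∉ G ν (d + 1) → ∃ y ∈ T, y ∈ G ν d ∧ y ∉ G ν (d + 1) := by
    intro x hx d hd a1 a2
    obtain ⟨y, hy, -, e⟩ := sp x hx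
    have e5 := h.G_anti (i := d + 1) (by omega) (by norm_num) (C3_le_G5 h e)
    refine ⟨y, hy, ?_, fun a => a2 (by simpa using mul_mem a e5)⟩
    simpa using mul_mem a1 (inv_mem (h.G_anti (Nat.le_succ d) (by omega) e5))
  have e1 : ent aE3 1 = 4458 := by decide +kernel
  have e2 : ent aE3 2 = 4518 := by decide +kernel
  obtain ⟨x, hx, x1, x2⟩ := dep (ν 4458) (e1 ▸ ent_mem_cl ν aE3 (by norm_num)) 1 (by norm_num)
    ((h.mem_G (by norm_num)).2 (by norm_num)) fun e => by simpa using (h.mem_G (by norm_num)).1 e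
  obtain ⟨y, hy, y1, y2⟩ := dep (ν 4518) (e2 ▸ ent_mem_cl ν aE3 (by norm_num)) 2 (by norm_num)
    ((h.mem_G (by norm_num)).2 (by norm_num)) fun e => by simpa using (h.mem_G (by norm_num)).1 e
  exact h.G1_le hT.1 hn hx x1 x2 hy y1 y2

end CfsgLib.Th3
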