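import Cfsg.Agent.Lib.Th3.Bas
import Cfsg.Agent.Lib.Th3.Ctx

/-! Package NEG: the central involution of `SL₂(3)` in the automizers of `E1` and `E2`. -/

set_option autoImplicit false
set_option maxRecDepth 100000
set_option linter.unusedSectionVars false
set_option linter.unusedVariables false

namespace CfsgLib.Th3

open Subgroup Cfsg Cfsg.FusionSystem CfsgLib.Comput CfsgLib.Fusion CfsgLib.ExSp4

theorem frat {Γ : Type*} [Group Γ] {p : ℕ} [Fact p.Prime] {U A K : Subgroup Γ} [Finite A]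
    (hU : SylIn p U A) (hK : K ≤ A) (hn : A ≤ normalizer (K : Set Γ)) {b : Γ} (hb : b ∈ A)
    (h : ∀ u ∈ U, ∃ u' ∈ U, b * u * b⁻¹ * u'⁻¹ ∈ K) :
    ∃ c ∈ K, c * b ∈ normalizer (U : Set Γ) := by
  have hL : U ⊔ K ≤ A := sup_le hU.le hK
  have : Finite (U ⊔ K : Subgroup Γ) := finite_of_le hL
  have : Finite U := finite_of_le hU.le
  obtain ⟨y, hy, e⟩ := (hU.of_le le_sup_left hL).exists_conj
    (hU.isPGroup.map (MulAut.conj b).toMonoidHom) (map_conj_le_iff.2 fun u hu => by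
      obtain ⟨u', hu', h1⟩ := h u hu
      have := (U ⊔ K).mul_mem (mem_sup_right h1) (mem_sup_left hu')
      rwa [inv_mul_cancel_right] at this)
  rw [← SetLike.mem_coe, coe_mul_of_left_le_normalizer_right U K (hU.le.trans hn)] at hy
  obtain ⟨u0, hu0, c, hc, rfl⟩ := hy
  refine ⟨c, hc, mem_normalizer_of_conj_mem fun u hu => ?_⟩
  have h1 := U.mul_mem (U.mul_mem (U.inv_mem hu0) (e _ ⟨u, hu, rfl⟩)) hu0
  convert h1 using 1
  simp only [MulEquiv.toMonoidHom_eq_coe, MonoidHom.coe_coe, MulAut.conj_apply]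
  group

theorem neg_of_secSq {E : Type*} [Group E] [Finite E] {p : ℕ} [Fact p.Prime]
    {A U M N : Subgroup (MulAut E)} {X Y : Subgroup E} (h : SecSq p A U M X Y) (hNA : N ≤ A)
    (hn : A ≤ normalizer (N : Set (MulAut E))) (hU : U ≤ N) :
    ∃ k ∈ N, k ∈ normalizer (U : Set (MulAut E)) ∧ ∀ y ∈ Y, y * k y ∈ X := by
  have := finite_mulAut' E
  have := h.normal h.invX
  obtain ⟨α, hα, b, hb, e⟩ := h.exists_neg
  have hbN : b ∈ N := (sup_le hU (by
    rintro _ ⟨u, hu, rfl⟩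
    exact conj_mem_of_mem_normalizer (hn hα) (hU hu)) : U ⊔ cjA α U ≤ N) hb
  have inv : ∀ q, secAut h.invX h.invY ⟨b, hNA hbN⟩ q = q⁻¹ := fun q => by
    obtain ⟨y, hy, rfl⟩ := secMk_surj q
    rw [secAut_mk, ← secMk_inv, eq_comm, secMk_eq_iff, inv_inv]
    exact e y hy
  have key : ∀ u ∈ U, StabOn (b * u * b⁻¹ * u⁻¹) X Y := fun u hu => by
    obtain ⟨b', e1⟩ : ∃ b' : A, b' = ⟨b, hNA hbN⟩ := ⟨_, rfl⟩
    obtain ⟨u', e2⟩ : ∃ u' : A, u' = ⟨u, h.U_le_A hu⟩ := ⟨_, rfl⟩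
    rw [← e1] at inv
    have : secAut h.invX h.invY (b' * u' * b'⁻¹ * u'⁻¹) = 1 := by
      rw [map_mul, map_mul, map_mul, map_inv, map_inv, mul_inv_eq_one, mul_inv_eq_iff_eq_mul]
      ext1 q
      rw [MulAut.mul_apply, MulAut.mul_apply, inv, inv, map_inv]
    rw [secAut_eq_one_iff, e1, e2] at this
    exact this
  obtain ⟨c, hc, hcn⟩ := frat (K := stabSub N X (h.invY.mono hNA)) h.syl
    ((stabSub_le _).trans hNA) (le_normalizer_of_conj_mem fun a ha k hk =>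
      ⟨conj_mem_of_mem_normalizer (hn ha) hk.1,
        hk.2.conj (h.invX a ha) (h.invY _ (A.inv_mem ha))⟩) (hNA hbN) fun u hu => ⟨u, hu,
      N.mul_mem (N.mul_mem (N.mul_mem hbN (hU hu)) (N.inv_mem hbN)) (N.inv_mem (hU hu)), key u hu⟩
  refine ⟨c * b, N.mul_mem hc.1 hbN, hcn, fun y hy => ?_⟩
  have h1 := X.mul_mem (e y hy) (hc.2 _ (h.invY b (hNA hbN) y hy))
  rwa [mul_assoc, mul_inv_cancel_left] at h1

theorem extend_top {Ω : Type*} [Group Ω] {T E : Subgroup Ω} [Finite T] {p : ℕ} [Fact p.Prime]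
    {𝓔 : FusionSystem T} (hT : IsPGroup p T) (h𝓔 : 𝓔.IsSaturated p) (hE : E ≤ T)
    (hn : T ≤ normalizer (E : Set Ω)) {k : MulAut E} (hk : k ∈ 𝓔.autGroup E)
    (hkn : k ∈ normalizer (autInducedBy T E : Set (MulAut E))) :
    ∃ f, Au 𝓔 T f ∧ ∀ x ∈ E, f x = extAut k x := by
  obtain ⟨g, hg, e⟩ := Au.extend hT h𝓔 (au_ext hE hk) hn fun s hs =>
    ((mem_Nf_extAut_iff hs (hn hs)).2
      (conj_mem_of_mem_normalizer hkn (conjAut_mem_autInducedBy _ hs))).2.2
  exact ⟨g, ⟨hg, fun _ hx => hg.mem hx⟩, e⟩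

theorem exists_pow_coprime {Γ : Type*} [Group Γ] [Finite Γ] (p : ℕ) [hp : Fact p.Prime] (k : Γ) :
    ∃ a, (orderOf (k ^ p ^ a)).Coprime p := by
  refine ⟨(orderOf k).factorization p, ?_⟩
  rw [orderOf_pow' _ (pow_pos hp.out.pos _).ne', Nat.gcd_eq_right (Nat.ordProj_dvd _ _)]
  exact (Nat.coprime_ordCompl hp.out (orderOf_pos k).ne').symm

/-- The fixed points of a normal subgroup inducing a `p`-group on a section. -/
theorem copStab_fix {E : Type*} [Group E] [Finite E] {p : ℕ} [Fact p.Prime] (hE : IsPGroup p E)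
    {A : Subgroup (MulAut E)} {X Y : Subgroup E} [hXn : X.Normal] (hX : AInv A X) (hY : AInv A Y)
    (hXY : X ≤ Y) (hne : ¬ Y ≤ X) {u : MulAut E} (h : CopStab p A X Y u) :
    ∃ W, AInv A W ∧ X ≤ W ∧ W ≤ Y ∧ ¬ W ≤ X ∧ StabOn u X W := by
  have := finite_mulAut' E
  obtain ⟨K, k1, k2, k3, k4⟩ := h
  have hp : IsPGroup p ((K.subgroupOf A).map (secAut hX hY)) := by
    rintro ⟨_, k, hk, rfl⟩
    obtain ⟨a, ha⟩ := exists_pow_coprime p (k : MulAut E)
    refine ⟨a, Subtype.ext ?_⟩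
    change secAut hX hY k ^ p ^ a = 1
    rw [← map_pow, secAut_eq_one_iff]
    exact k4 _ (K.pow_mem hk _) ha
  obtain ⟨q, -, hq, hf⟩ := exists_fixed_mod ((hE.to_quotient X).to_subgroup (Sec X Y)) hp
    (aInv_bot _) (aInv_top _) fun hle => hne fun y hy =>
      (secMk_eq_one_iff hy).1 (mem_bot.1 (hle (mem_top _)))
  obtain ⟨y, hy, rfl⟩ := secMk_surj q
  let W : Subgroup E :=
    { carrier := {y | y ∈ Y ∧ ∀ k ∈ K, y⁻¹ * k y ∈ X}
      one_mem' := ⟨Y.one_mem, fun k _ => by simp⟩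
      mul_mem' := fun {a b} ha hb => ⟨Y.mul_mem ha.1 hb.1, fun k hk => by
        have := X.mul_mem (hXn.conj_mem _ (ha.2 k hk) b⁻¹) (hb.2 k hk)
        convert this using 1
        rw [map_mul]; group⟩
      inv_mem' := fun {a} ha => ⟨Y.inv_mem ha.1, fun k hk => by
        have := hXn.conj_mem _ (X.inv_mem (ha.2 k hk)) a
        convert this using 1
        rw [map_inv]; group⟩ }
  refine ⟨W, fun a ha z hz => ⟨hY a ha z hz.1, fun k hk => ?_⟩, fun x hx => ⟨hXY hx, fun k hk =>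
    X.mul_mem (X.inv_mem hx) (hX k (k1 hk) x hx)⟩, fun _ hz => hz.1, fun hle => hq ?_,
    fun z hz => hz.2 u k3⟩
  · have := hX a ha _ (hz.2 _ (conj_inv_mem_of_mem_normalizer (k2 ha) hk))
    simpa using this
  · refine mem_bot.2 ((secMk_eq_one_iff hy).2 (hle ⟨hy, fun k hk => ?_⟩))
    have := mem_bot.1 (hf _ ⟨⟨k, k1 hk⟩, hk, rfl⟩)
    rw [inv_mul_eq_one, secAut_mk, secMk_eq_iff] at this
    exact this

theorem relIndex_eq_of_card {Ω : Type*} [Group Ω] {X Y : Subgroup Ω} [Finite X] (h : X ≤ Y) {n : ℕ}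
    (hc : Nat.card Y = n * Nat.card X) : X.relIndex Y = n := by
  have := CfsgLib.Core.card_mul_relIndex_of_le h
  rw [hc, mul_comm n] at this
  exact Nat.eq_of_mul_eq_mul_left Nat.card_pos this

theorem neg_gen {Ω : Type*} [Group Ω] {S E X L Y : Subgroup Ω} [Finite S] {F : FusionSystem S}
    (hS : IsPGroup 3 S) (hF : F.IsSaturated 3) (hE : F.IsEssential 3 E) (hX : Ivt F E X)
    (hY : Ivt F E Y) (hL : ¬ Ivt F E L) (hXL : X ≤ L) (hLY : L ≤ Y) (hYE : Y ≤ E)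
    (c1 : X.relIndex L = 3) (c2 : X.relIndex Y = 3 ^ 2)
    (hfix : ∀ s ∈ S, s ∉ E → ∀ y ∈ Y, y⁻¹ * (s * y * s⁻¹) ∈ X → y ∈ L)
    {N : Subgroup (MulAut E)} (hNA : N ≤ F.autGroup E)
    (hn : F.autGroup E ≤ normalizer (N : Set (MulAut E))) (hU : autInducedBy S E ≤ N) :
    ∃ k ∈ N, k ∈ normalizer (autInducedBy S E : Set (MulAut E)) ∧
      ∀ y ∈ Y, y * extAut k y ∈ X := by
  have := essential_finite hE
  obtain ⟨M, hM⟩ := essential_essAut hS hF hE
  have iX : AInv (F.autGroup E) (X.subgroupOf E) :=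
    aInv_subgroupOf fun α hα => hX _ (au_ext hE.1.1 hα)
  have iY : AInv (F.autGroup E) (Y.subgroupOf E) :=
    aInv_subgroupOf fun α hα => hY _ (au_ext hE.1.1 hα)
  have := hM.normal iX
  have hXY : X.subgroupOf E ≤ Y.subgroupOf E := comap_mono (hXL.trans hLY)
  have h : SecSq 3 (F.autGroup E) (autInducedBy S E) M (X.subgroupOf E) (Y.subgroupOf E) :=
    { hM with
      pg := essential_isPGroup hS hE, invX := iX, invY := iY, le := hXY
      idx := by rw [relIndex_subgroupOf hYE, c2]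
      faith := fun u hu hc => by
        obtain ⟨s, hs, e⟩ := mem_autInducedBy.1 hu
        by_cases hsE : s ∈ E
        · exact mem_Inn.2 ⟨s, hsE, e⟩
        obtain ⟨W, w1, w2, w3, w4, w5⟩ := copStab_fix (essential_isPGroup hS hE) iX iY hXY
          (fun hle => by
            have := relIndex_eq_one.2 hle
            rw [relIndex_subgroupOf hYE, c2] at this
            norm_num at this) hc
        obtain ⟨y, hy, hyX⟩ := SetLike.not_le_iff_exists.1 w4
        have hWL : W ≤ L.subgroupOf E := fun z hz => hfix s hs hsE z (w3 hz) (by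
          have := w5 z hz
          rwa [mem_subgroupOf, coe_mul, coe_eq_extAut, e z z.2] at this)
        have hW : W = L.subgroupOf E := le_antisymm hWL (by
          rw [← eq_sup_zpowers_of_relIndex_prime (X := X.subgroupOf E) (Y := L.subgroupOf E)
            (comap_mono hXL) (by
              rw [relIndex_subgroupOf (hLY.trans hYE), c1]
              exact Nat.prime_three) (hWL hy) hyX]
          exact sup_le w2 (zpowers_le.2 hy))
        refine (hL fun f hf x hx hxL => ?_).elim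
        obtain ⟨α, hα, e'⟩ := hf.1.exists_aut_of_mem hf.2
        have := (hW ▸ w1) α hα ⟨x, hx⟩ hxL
        rwa [mem_subgroupOf, coe_eq_extAut, e' x hx] at this }
  obtain ⟨k, hk, hkn, e⟩ := neg_of_secSq h hNA hn hU
  refine ⟨k, hk, hkn, fun y hy => ?_⟩
  have := e ⟨y, hYE hy⟩ hy
  rwa [mem_subgroupOf, coe_mul, coe_eq_extAut] at this

theorem fix_gen {Ω : Type*} [Group Ω] {S E R X : Subgroup Ω}
    (hn : ∀ s ∈ S, ∀ x ∈ X, s * x * s⁻¹ ∈ X) (hER : E ≤ R) (hRS : R ≤ S) (hc : E.relIndex R = 3)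
    {a s : Ω} (hE : ∀ w ∈ E, a * w * a⁻¹ * w⁻¹ ∈ X) (hs : s ∈ R) (hsE : s ∉ E)
    (h : a * s * a⁻¹ * s⁻¹ ∈ X) : ∀ g ∈ R, a * g * a⁻¹ * g⁻¹ ∈ X := by
  let D : Subgroup Ω :=
    { carrier := {g | g ∈ S ∧ a * g * a⁻¹ * g⁻¹ ∈ X}
      one_mem' := ⟨S.one_mem, by simp⟩
      mul_mem' := fun {g g'} h1 h2 => ⟨S.mul_mem h1.1 h2.1, by
        have := X.mul_mem h1.2 (hn g h1.1 _ h2.2)
        convert this using 1
        group⟩
      inv_mem' := fun {g} h1 => ⟨S.inv_mem h1.1, by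
        have := hn _ (S.inv_mem h1.1) _ (X.inv_mem h1.2)
        convert this using 1
        group⟩ }
  intro g hg
  rw [← eq_sup_zpowers_of_relIndex_prime hER (hc ▸ Nat.prime_three) hs hsE] at hg
  exact ((sup_le (fun w hw => ⟨hRS (hER hw), hE w hw⟩) (zpowers_le.2 ⟨hRS hs, h⟩) :
    E ⊔ zpowers s ≤ D) hg).2

theorem Mod.relIndex_G {Ω : Type*} [Group Ω] {S : Subgroup Ω} {ν : ℕ → Ω} (h : Mod S ν) {i j : ℕ}
    (hij : i ≤ j) (hj : j ≤ 10) : (G ν j).relIndex (G ν i) = 3 ^ (j - i) := by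
  have := h.finite
  have : Finite (G ν j) := finite_of_le (h.G_le j)
  refine relIndex_eq_of_card (h.G_anti hij hj) ?_
  rw [h.card_G hj, h.card_G (hij.trans hj), ← pow_add]
  congr 1
  omega

/-- The fixed points of an element outside a maximal subgroup `E` on `G i / G (i + 2)`. -/
theorem Mod.fix_two {Ω : Type*} [Group Ω] {S E : Subgroup Ω} {ν : ℕ → Ω} (h : Mod S ν) {i : ℕ}
    (hi : i + 2 ≤ 10) (hES : E ≤ S) (hc : E.relIndex S = 3)
    (hE : ∀ w ∈ E, ∀ y ∈ G ν i, w⁻¹ * y⁻¹ * w * y ∈ G ν (i + 2)) {g : ℕ}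
    (hg : Th3.cm (Th3.inv g) (Th3.inv (3 ^ i)) % 3 ^ (i + 2) ≠ 0) :
    ∀ s ∈ S, s ∉ E → ∀ y ∈ G ν i, y⁻¹ * (s * y * s⁻¹) ∈ G ν (i + 2) → y ∈ G ν (i + 1) := by
  intro s hs hsE y hy hc'
  by_contra hyL
  have hn : ∀ s ∈ S, ∀ x ∈ G ν (i + 2), s * x * s⁻¹ ∈ G ν (i + 2) := fun s hs x hx =>
    h.G_conj hi hs hx
  have h1 := fix_gen (a := y⁻¹) hn hES le_rfl hc (fun w hw => by
    have := (G ν (i + 2)).inv_mem (hE _ (E.inv_mem hw) y hy)
    convert this using 1
    group) hs hsE (by convert hc' using 1; group) _ (h.mem g)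
  have h2 := fix_gen (a := ν g) (s := y⁻¹) hn (h.G_anti (Nat.le_succ i) (by omega)) (h.G_le i)
    (by rw [h.relIndex_G (Nat.le_succ i) (by omega)]; simp) (fun w hw => by
      have := (G ν (i + 2)).inv_mem (h.G_step (i := i + 1) (by omega) (h.mem g) (inv_mem hw))
      convert this using 1
      group) (inv_mem hy) (mt inv_mem_iff.1 hyL) (by
      have := (G ν (i + 2)).inv_mem h1
      convert this using 1
      group) (ν (3 ^ i)) ((h.mem_G (by omega)).2 (Nat.mod_self _))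
  rw [← h.cmM, h.mem_G hi] at h2
  exact hg h2

variable {Ω : Type*} [Group Ω] {S : Subgroup Ω} [Finite S] {F : FusionSystem S} {ν : ℕ → Ω}
  (C : Ctx F ν)
include C

theorem neg1 (hE : F.IsEssential 3 (G ν 1)) {N : Subgroup (MulAut (G ν 1))}
    (hNA : N ≤ F.autGroup _) (hn : F.autGroup _ ≤ normalizer (N : Set (MulAut (G ν 1))))
    (hU : autInducedBy S _ ≤ N) : ∃ k ∈ N,
      k ∈ normalizer (autInducedBy S (G ν 1) : Set (MulAut (G ν 1))) ∧
      ∀ y ∈ G ν 8, extAut k y = y⁻¹ := by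
  have h := C.mod
  obtain ⟨k, h1, h2, h3⟩ := neg_gen (X := G ν 10) h.isPGroup C.sat hE (fun f hf x _ hx => by
      rw [h.G_ten, mem_bot] at hx ⊢
      rw [hx, hf.1.map_one]) C.chr.e1 (C.mv1 hE) (h.G_anti (by norm_num) le_rfl)
    (h.G_anti (by norm_num) (by norm_num)) (h.G_anti (by norm_num) (by norm_num))
    (h.relIndex_G (by norm_num) le_rfl) (h.relIndex_G (by norm_num) le_rfl)
    (h.fix_two (i := 8) (g := 1) le_rfl (h.G_le 1)
      (by rw [← h.G_zero]; exact h.relIndex_G (by norm_num) (by norm_num))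
      (h.comm_G (by norm_num) (by norm_num) le_rfl (by decide +kernel)) (by decide +kernel))
    hNA hn hU
  refine ⟨k, h1, h2, fun y hy => ?_⟩
  have := h3 y hy
  rw [h.G_ten, mem_bot] at this
  exact eq_inv_of_mul_eq_one_right this

theorem neg2 (hE : F.IsEssential 3 (E2 ν)) {N : Subgroup (MulAut (E2 ν))}
    (hNA : N ≤ F.autGroup _) (hn : F.autGroup _ ≤ normalizer (N : Set (MulAut (E2 ν))))
    (hU : autInducedBy S _ ≤ N) : ∃ k ∈ N,
      k ∈ normalizer (autInducedBy S (E2 ν) : Set (MulAut (E2 ν))) ∧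
      ∀ y ∈ G ν 7, y * extAut k y ∈ G ν 9 := by
  have h := C.mod
  have hES : E2 ν ≤ S := h.cl_le _
  have : Finite (E2 ν) := finite_of_le hES
  have hn9 : ∀ x ∈ S, ∀ k ∈ G ν 9, x⁻¹ * k * x ∈ G ν 9 := fun x hx k hk => by
    simpa using h.G_conj (by norm_num) (inv_mem hx) hk
  refine neg_gen h.isPGroup C.sat hE C.chr.e2Z C.chr.e2Y (C.mv2 hE)
    (h.G_anti (by norm_num) (by norm_num)) (h.G_anti (by norm_num) (by norm_num)) (fun x hx => ?_)
    (h.relIndex_G (by norm_num) (by norm_num)) (h.relIndex_G (by norm_num) (by norm_num))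
    (h.fix_two (i := 7) (g := 3) (by norm_num) hES
      (relIndex_eq_of_card hES (by rw [h.card, h.card_E2]; norm_num))
      (h.cm_cl (fun x hx => hn9 x (hES hx)) (fun x hx => hn9 x (h.G_le 7 hx)) fun d hd d' hd' =>
        (h.mem_G (by norm_num)).2 ?_) (by decide +kernel)) hNA hn hU
  · obtain ⟨a, rfl⟩ := h.surj x (h.G_le 7 hx)
    rw [h.mem_G (by norm_num)] at hx
    rw [h.mem_E2]
    omega
  · revert d d'
    decide +kernel

end CfsgLib.Th3
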