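import Cfsg.Agent.Lib.Th3.Qc
import Cfsg.Agent.Lib.Th3.Neg

/-! Package TOW: the case that `E2` is not essential. -/

set_option autoImplicit false
set_option maxRecDepth 100000
set_option linter.unusedSectionVars false

namespace CfsgLib.Th3

open Subgroup Cfsg Cfsg.FusionSystem CfsgLib.Comput CfsgLib.Fusion CfsgLib.ExSp4 Matrix

section Z2

variable {Ω : Type*} [Group Ω] {S : Subgroup Ω} {ν : ℕ → Ω}

/-- coordinates on `Z₂(S)` -/
def ez (ν : ℕ → Ω) (v : Fin 2 → ZMod 3) : Ω := zpw (ν 6561) (v 0) * zpw (ν 19683) (v 1)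

/-- `α` acts on `Z₂(S)` by the matrix `M` -/
def Ac {E : Subgroup Ω} (ν : ℕ → Ω) (α : MulAut E) (M : Matrix (Fin 2) (Fin 2) (ZMod 3)) : Prop :=
  ∀ v, extAut α (ez ν v) = ez ν (M *ᵥ v)

variable {E : Subgroup Ω} {α β : MulAut E} {M N : Matrix (Fin 2) (Fin 2) (ZMod 3)}

theorem Ac.mul (h : Ac ν α M) (h' : Ac ν β N) : Ac ν (α * β) (M * N) := fun v => by
  rw [extAut_mul_apply, h', h, mulVec_mulVec]

theorem Ac.inv (h : Ac ν α M) (e : M * N = 1) : Ac ν α⁻¹ N := fun v => by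
  have := h (N *ᵥ v)
  rw [mulVec_mulVec, e, one_mulVec] at this
  rw [← this, extAut_inv_apply]

theorem Ac.pow (h : Ac ν α M) (n : ℕ) : Ac ν (α ^ n) (M ^ n) := by
  induction n with
  | zero => exact fun v => by rw [pow_zero, pow_zero, extAut_one_apply, one_mulVec]
  | succ n ih => rw [pow_succ, pow_succ]; exact ih.mul h

namespace Mod

variable (h : Mod S ν)
include h

theorem cube_eq_one {a : ℕ} (ha : Th3.cube a % 59049 = 0) : ν a ^ 3 = 1 := by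
  rw [← h.cube, h.eq_one]; exact ha

theorem zpw_eq {a : ℕ} (h3 : Th3.cube a % 59049 = 0) (h2 : Th3.mul a a % 59049 = a * 2 % 59049)
    (c : ZMod 3) : zpw (ν a) c = ν (a * c.val) := by
  have e := zpw_natCast (h.cube_eq_one h3) c.val
  rw [ZMod.natCast_zmod_val] at e
  rw [e]
  have := c.val_lt
  interval_cases c.val
  · rw [pow_zero, mul_zero, h.zero]
  · rw [pow_one, mul_one]
  · rw [pow_two, ← h.mul, h.eq_iff]; exact h2

theorem ez_eq (v : Fin 2 → ZMod 3) : ez ν v = ν (6561 * ((v 0).val + 3 * (v 1).val)) := by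
  rw [ez, h.zpw_eq (by decide +kernel) (by decide +kernel),
    h.zpw_eq (by decide +kernel) (by decide +kernel), ← h.mul, h.eq_iff]
  have := (v 0).val_lt
  have := (v 1).val_lt
  interval_cases (v 0).val <;> interval_cases (v 1).val <;> decide +kernel

theorem ez_inj {v w : Fin 2 → ZMod 3} (e : ez ν v = ez ν w) : v = w := by
  rw [h.ez_eq, h.ez_eq, h.eq_iff] at e
  have := (v 0).val_lt
  have := (v 1).val_lt
  have := (w 0).val_lt
  have := (w 1).val_lt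
  ext i
  fin_cases i <;> apply ZMod.val_injective 3
  · change (v 0).val = (w 0).val
    omega
  · change (v 1).val = (w 1).val
    omega

theorem ez_mem (v : Fin 2 → ZMod 3) : ez ν v ∈ G ν 8 := by
  rw [h.ez_eq, h.mem_G (by norm_num)]
  omega

theorem ez_surj {y : Ω} (hy : y ∈ G ν 8) : ∃ v, ez ν v = y := by
  obtain ⟨c, hc, rfl⟩ := h.surj' (h.G_le 8 hy)
  rw [h.mem_G (by norm_num)] at hy
  refine ⟨![(c / 6561 : ℕ), (c / 19683 : ℕ)], ?_⟩
  rw [h.ez_eq, h.eq_iff]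
  simp only [cons_val_zero, cons_val_one, ZMod.val_natCast]
  omega

theorem G8_le : G ν 8 ≤ G ν 1 := h.G_anti (by norm_num) (by norm_num)

theorem G8_fix {w y : Ω} (hw : w ∈ G ν 1) (hy : y ∈ G ν 8) : w * y * w⁻¹ = y := by
  have := h.comm_G (i := 1) (j := 8) (k := 10) (by norm_num) (by norm_num) le_rfl
    (by decide +kernel) w hw y hy
  rw [h.G_ten, mem_bot] at this
  calc w * y * w⁻¹ = y * (w * (w⁻¹ * y⁻¹ * w * y) * w⁻¹) := by group
    _ = y := by rw [this]; group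

theorem ac_of {α : MulAut (G ν 1)} {p q r s : ZMod 3} (h8 : extAut α (ν 6561) = ez ν ![p, q])
    (h9 : extAut α (ν 19683) = ez ν ![r, s]) : Ac ν α !![p, r; q, s] := fun v => by
  have m8 : ν 6561 ∈ G ν 8 := (h.mem_G (by norm_num)).2 (by norm_num)
  have m9 : ν 19683 ∈ G ν 8 := (h.mem_G (by norm_num)).2 (by norm_num)
  have c8 : ν 6561 ^ 3 = 1 := h.cube_eq_one (by decide +kernel)
  have c9 : ν 19683 ^ 3 = 1 := h.cube_eq_one (by decide +kernel)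
  have hc : Commute (ν 6561) (ν 19683) := mul_inv_eq_iff_eq_mul.1 (h.G8_fix (h.G8_le m8) m9)
  rw [ez, (isHomOn_extAut α).map_mul (zpw_mem (h.G8_le m8) _) (zpw_mem (h.G8_le m9) _), zpw, zpw,
    (isHomOn_extAut α).map_zpow (h.G8_le m8), (isHomOn_extAut α).map_zpow (h.G8_le m9), h8, h9]
  change zpw _ (v 0) * zpw _ (v 1) = _
  simp only [ez, mul_zpw (commute_zpw hc _ _), zpw_zpw c8, zpw_zpw c9, mulVec, dotProduct,
    Fin.sum_univ_two, cons_val_zero, cons_val_one, of_apply, cons_val', cons_val_fin_one,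
    zpw_add c8, zpw_add c9]
  rw [mul_assoc, mul_assoc, ← mul_assoc (zpw (ν 19683) (q * v 0)),
    ← (commute_zpw hc (r * v 1) (q * v 0)).eq, mul_assoc]

theorem ac_unique {α : MulAut E} (h1 : Ac ν α M) (h2 : Ac ν α N) (v : Fin 2 → ZMod 3) :
    M *ᵥ v = N *ᵥ v := h.ez_inj ((h1 v).symm.trans (h2 v))

theorem ac_one_iff {α : MulAut E} : Ac ν α 1 ↔ ∀ y ∈ G ν 8, extAut α y = y := by
  refine ⟨fun h1 y hy => ?_, fun h1 v => by rw [one_mulVec, h1 _ (h.ez_mem v)]⟩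
  obtain ⟨v, rfl⟩ := h.ez_surj hy
  rw [h1, one_mulVec]

theorem ac_tau : Ac ν (conjAut (G ν 1) (ν 1) (h.G_norm (by norm_num) (h.mem 1))) !![1, 0; 2, 1] := by
  refine h.ac_of ?_ ?_ <;>
    rw [extAut_conjAut _ ((h.mem_G (by norm_num)).2 (by norm_num)), ← h.cj, h.ez_eq, h.eq_iff] <;>
    decide +kernel

theorem ac_U {u : MulAut (G ν 1)} (hu : u ∈ autInducedBy S (G ν 1)) :
    ∃ e < 3, Ac ν u (!![1, 0; 2, 1] ^ e) := by
  obtain ⟨s, hs, e⟩ := mem_autInducedBy.1 hu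
  obtain ⟨k, hk, hw⟩ := h.G_digit (i := 0) (by norm_num) (h.G_zero.symm ▸ hs)
  refine ⟨k, hk, fun v => ?_⟩
  have hy := h.ez_mem v
  rw [← h.ac_tau.pow k v, conjAut_pow, extAut_conjAut _ (h.G8_le hy), e _ (h.G8_le hy)]
  conv_rhs => rw [← h.G8_fix hw hy]
  rw [pow_zero]
  group

theorem ac_m {T : Subgroup Ω} {𝓔 : FusionSystem T} {g : Ω → Ω} (hg : Au 𝓔 (G ν 1) g)
    (h8 : g (ν 6561) = ν 26244) (h9 : g (ν 19683) = ν 32805) :
    ∃ m ∈ 𝓔.autGroup (G ν 1), Ac ν m !![1, 2; 1, 1] := by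
  have := h.finite
  have : Finite (G ν 1) := finite_of_le (h.G_le 1)
  obtain ⟨m, hm, e⟩ := hg.1.exists_aut_of_mem hg.2
  refine ⟨m, hm, h.ac_of ?_ ?_⟩
  · rw [e _ ((h.mem_G (by norm_num)).2 (by norm_num)), h8, h.ez_eq, h.eq_iff]
    decide +kernel
  · rw [e _ ((h.mem_G (by norm_num)).2 (by norm_num)), h9, h.ez_eq, h.eq_iff]
    decide +kernel

end Mod

end Z2

variable {Ω : Type*} [Group Ω] {S T : Subgroup Ω} [Finite S] {F : FusionSystem S} {ν : ℕ → Ω}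
  (C : Ctx F ν)
include C

theorem alp (h2 : ¬ F.IsEssential 3 (E2 ν)) {P : Subgroup Ω} {f : Ω → Ω} (hf : Mor F P f)
    (hP : P ≤ G ν 1) (hc : 243 < Nat.card P) : ∃ g, Au F (G ν 1) g ∧ ∀ x ∈ P, g x = f x := by
  have h := C.mod
  refine alperin_induction (Φ := fun Q g => ∀ P ≤ Q, P ≤ G ν 1 → 243 < Nat.card P →
    ∃ k, Au F (G ν 1) k ∧ ∀ x ∈ P, k x = g x) h.isPGroup C.sat ?_ ?_ ?_ hf P le_rfl hP hc
  · intro R hR α hα Q hQ P hPQ hP hc
    rcases hR with rfl | hR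
    · have ha := au_ext le_rfl hα
      exact ⟨extAut α, ⟨ha.1.mono (h.G_le 1), fun x hx =>
        C.chr.sG 1 (by norm_num) _ ha x (h.G_le 1 hx) hx⟩, fun _ _ => rfl⟩
    rcases C.cases R hR with rfl | rfl | ⟨s, -, rfl⟩
    · exact ⟨extAut α, au_ext (h.G_le 1) hα, fun _ _ => rfl⟩
    · exact absurd hR h2
    · have := essential_finite hR
      have := Fusion.card_le_of_le (hPQ.trans hQ)
      rw [card_map_of_injective (MulAut.conj s).injective, card_E3 h] at this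
      omega
  · intro Q f g _ h1 e P hPQ hP hc
    obtain ⟨k, hk, e'⟩ := h1 P hPQ hP hc
    exact ⟨k, hk, fun x hx => (e' x hx).trans (e x (hPQ hx))⟩
  · intro Q R f g hf _ h1 h3 hm P hPQ hP hc
    obtain ⟨k, hk, e⟩ := h1 P hPQ hP hc
    obtain ⟨l, hl, e'⟩ := h3 (img P f) (img_le_iff.2 fun x hx => hm x (hPQ hx))
      (img_le_iff.2 fun x hx => e x hx ▸ hk.2 x (hP hx)) (by rwa [hf.card_img_of_le hPQ])
    exact ⟨_, hk.comp hl, fun x hx => by rw [e x hx, e' _ (mem_img_of_mem f hx)]; rfl⟩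

theorem tower (h2 : ¬ F.IsEssential 3 (E2 ν)) (h3 : F.IsEssential 3 (E3 ν)) {𝓔 : FusionSystem T}
    (hI : 𝓔.IsInvariantIn F) (h𝓔 : 𝓔.IsSaturated 3) (hT : G ν 1 ≤ T) {f : Ω → Ω}
    (hf : Au 𝓔 (R3 ν) f) : ∃ g, Au 𝓔 (G ν 1) g ∧ ∀ x ∈ R3 ν, g x = f x := by
  have h := C.mod
  have hs := inv_sub hI
  have hTS := le_of_isSubsystemOf hs
  have : Finite T := finite_of_le hTS
  have : Finite (G ν 1) := finite_of_le (h.G_le 1)
  refine downward_induction (S := G ν 1) (Φ := fun P => R3 ν ≤ P → ∀ f, Au 𝓔 P f →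
    ∃ g, Au 𝓔 (G ν 1) g ∧ ∀ x ∈ P, g x = f x) ?_ _ (R3_le_G1 h) le_rfl f hf
  intro P hP ih hR f hf
  rcases hP.eq_or_lt with rfl | hlt
  · exact ⟨f, hf, fun _ _ => rfl⟩
  have : Finite P := finite_of_le hP
  have hN := lt_normalizerIn (h.isPGroup.to_le (h.G_le 1)) hlt
  have hN1 := normalizerIn_le (G ν 1) P
  have : Finite (normalizerIn (G ν 1) P) := finite_of_le hN1
  have hc : 243 < Nat.card P := lt_of_lt_of_le (by rw [card_R3 h]; norm_num)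
    (Fusion.card_le_of_le hR)
  have hcen : 𝓔.IsCentric P := ⟨hP.trans hT, fun R hR' => (inf_le_inf_right _ hTS).trans
    ((centric_of_le h3.1 ((E3_le_R3 h).trans hR) (hP.trans (h.G_le 1))).2 R (isConj_sub hs hR'))⟩
  obtain ⟨β, hβ, e⟩ := alp C h2 (hf.1.sub hs) hP hc
  obtain ⟨g, hg, e'⟩ := sat_extend_centric (h.isPGroup.to_le hTS) h𝓔 hcen hf.1
  have hg' := hg.mono (fun s hs' => mem_Nf.2 ⟨hT hs'.1, hs'.2, β s, hT (hβ.2 s hs'.1), fun x hx => by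
    rw [← e _ (conj_mem_of_mem_normalizer hs'.2 hx), ← e x hx, hβ.1.map_conj hs'.1 (hP hx)]⟩ :
      normalizerIn (G ν 1) P ≤ Nf T P f)
  obtain ⟨γ, hγ, e''⟩ := alp C h2 (hg'.sub hs) hN1 (hc.trans (card_lt_of_lt hN))
  obtain ⟨k, hk, ek⟩ := ih _ hN1 (card_lt_of_lt hN) (hR.trans hN.le) g ⟨hg', fun x hx =>
    ⟨e'' x hx ▸ hγ.2 x hx.1, by
      have := hg'.hom.mem_normalizer_img hN.le hx hx.2
      rwa [(hg'.mono hN.le).img_eq_self fun y hy => (e' y hy).symm ▸ hf.2 y hy] at this⟩⟩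
  exact ⟨k, hk, fun x hx => (ek x (hN.le hx)).trans (e' x hx)⟩

theorem ne_G1 {𝓔 : FusionSystem (G ν 1)} (hI : 𝓔.IsInvariantIn F) (h𝓔 : 𝓔.IsSaturated 3)
    {g : Ω → Ω} (hg : Au 𝓔 (G ν 1) g) (h8 : g (ν 6561) = ν 26244) (h9 : g (ν 19683) = ν 32805) :
    False := by
  have h := C.mod
  have : Finite (G ν 1) := finite_of_le (h.G_le 1)
  have := finite_autGroup 𝓔 (G ν 1)
  obtain ⟨m, hm, am⟩ := h.ac_m hg h8 h9
  have an := am.mul ((h.ac_tau.mul am).mul (h.ac_tau.inv (N := !![1, 0; 1, 1]) (by decide)))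
  have hn := mul_mem hm (inv_conj_mem_autGroup hI le_rfl
    (conjAut_mem_autGroup F (h.G_le 1) (h.mem 1) (h.G_norm (by norm_num) (h.mem 1))) hm)
  have hr := (sat_sylIn_top (h.isPGroup.to_le (h.G_le 1)) h𝓔).not_dvd_relIndex
  obtain ⟨w, hw, e⟩ := mem_Inn.1 (pow_relIndex_mem (Inn (G ν 1)) hn)
  have := h.ac_unique (an.pow _) (h.ac_one_iff.2 fun y hy => by
    rw [e y (h.G8_le hy), h.G8_fix hw hy]) ![1, 0]
  generalize (Inn (G ν 1)).relIndex (𝓔.autGroup (G ν 1)) = r at hr this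
  rw [show (!![1, 2; 1, 1] * (!![1, 0; 2, 1] * !![1, 2; 1, 1] * !![1, 0; 1, 1]) :
      Matrix (Fin 2) (Fin 2) (ZMod 3)) = !![1, 0; 2, 1] by decide, ← Nat.div_add_mod r 3, pow_add,
    pow_mul, show (!![1, 0; 2, 1] : Matrix (Fin 2) (Fin 2) (ZMod 3)) ^ 3 = 1 by decide, one_pow,
    one_mul] at this
  obtain h1 | h1 : r % 3 = 1 ∨ r % 3 = 2 := by omega
  all_goals
    rw [h1] at this
    revert this
    decide

theorem beta {𝓔 : FusionSystem S} (hI : 𝓔.IsInvariantIn F) (h𝓔 : 𝓔.IsSaturated 3)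
    {g : Ω → Ω} (hg : Au 𝓔 (G ν 1) g) (h8 : g (ν 6561) = ν 26244) (h9 : g (ν 19683) = ν 32805) :
    ∃ f, Au 𝓔 S f ∧ f (ν 19683) = (ν 19683)⁻¹ ∧ (ν 6561)⁻¹ * f (ν 6561) ∈ G ν 9 := by
  have h := C.mod
  have := finite_autGroup 𝓔 (G ν 1)
  have hn1 := h.G_norm (i := 1) (by norm_num)
  obtain ⟨m, hm, am⟩ := h.ac_m hg h8 h9
  have hτ := conjAut_mem_autGroup 𝓔 (h.G_le 1) (h.mem 1) (hn1 (h.mem 1))
  obtain ⟨w, hw, aw⟩ : ∃ w ∈ 𝓔.autGroup (G ν 1), Ac ν w !![1, 0; 2, 2] := by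
    refine ⟨_, mul_mem (mul_mem (mul_mem (mul_mem hm hτ) hτ) hm) hm, ?_⟩
    convert (((am.mul h.ac_tau).mul h.ac_tau).mul am).mul am using 1
    decide
  have hZ : AInv (𝓔.autGroup (G ν 1)) ((G ν 8).subgroupOf (G ν 1)) := aInv_subgroupOf fun α hα =>
    C.chr.e1 _ (au_ext (h.G_le 1) (autGroup_mono (inv_sub hI) _ hα))
  have st : ∀ α : MulAut (G ν 1), StabOn α ⊥ ((G ν 8).subgroupOf (G ν 1)) ↔ Ac ν α 1 := fun α => by
    rw [h.ac_one_iff, stabOn_bot_iff]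
    exact ⟨fun h1 y hy => by
      rw [extAut_apply _ (h.G8_le hy), h1 ⟨y, h.G8_le hy⟩ hy], fun h1 y hy =>
      Subtype.ext (by rw [coe_eq_extAut, h1 y hy])⟩
  have sy := sat_sylIn h.isPGroup h𝓔 (fullyNormalized_of_le_normalizer (h.G_le 1) hn1)
  obtain ⟨c, hc, hcn⟩ := frat (K := stabSub _ ⊥ hZ) sy (stabSub_le _)
    (le_normalizer_stabSub (aInv_bot _) hZ) hw fun u hu => ⟨u⁻¹, inv_mem hu,
      mul_mem (mul_mem (mul_mem hw (sy.le hu)) (inv_mem hw)) (inv_mem (inv_mem (sy.le hu))), by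
        obtain ⟨e, he, au⟩ := h.ac_U hu
        rw [st, inv_inv]
        convert ((aw.mul au).mul (aw.inv (N := !![1, 0; 2, 2]) (by decide))).mul au using 1
        interval_cases e <;> decide⟩
  obtain ⟨f, hf, e⟩ := extend_top h.isPGroup h𝓔 (h.G_le 1) hn1 (mul_mem hc.1 hw) hcn
  have ac := ((st c).1 hc.2).mul aw
  have e8 : ν 6561 = ez ν ![1, 0] := by rw [h.ez_eq, h.eq_iff]; decide +kernel
  have e9 : ν 19683 = ez ν ![0, 1] := by rw [h.ez_eq, h.eq_iff]; decide +kernel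
  refine ⟨f, hf, ?_, ?_⟩
  · rw [e _ ((h.mem_G (by norm_num)).2 (by norm_num)), ← h.inv]
    rw [e9, ac, h.ez_eq, h.eq_iff]
    decide +kernel
  · rw [e _ ((h.mem_G (by norm_num)).2 (by norm_num)), ← h.inv]
    rw [e8, ac, h.ez_eq, ← h.mul, h.mem_G (by norm_num)]
    decide +kernel

end CfsgLib.Th3
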