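import Cfsg.Agent.Lib.Th3.T12
import Cfsg.Agent.Lib.Th3.T3
import Cfsg.Agent.Lib.Th3.Tow

/-! The fusion systems without normal subgroup are simple. -/

set_option autoImplicit false
set_option maxRecDepth 100000
set_option linter.unusedSectionVars false

namespace CfsgLib.Th3

open Subgroup Cfsg Cfsg.FusionSystem CfsgLib.Comput CfsgLib.Fusion CfsgLib.ExSp4

theorem simple_of_ctx {Ω : Type*} [Group Ω] {S : Subgroup Ω} [Finite S] {F : FusionSystem S}
    {ν : ℕ → Ω} (C : Ctx F ν) (hcore : F.core = ⊥) : F.IsSimple 3 := by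
  have h := C.mod
  refine ⟨C.sat, fun e => ?_, fun T 𝓔 hN => ?_⟩
  · have := h.card
    rw [e, card_bot] at this
    norm_num at this
  by_cases hne : T = ⊥
  · exact Or.inl hne
  right
  have hI := normalIn_inv hN
  have h𝓔 := normalIn_saturated hN
  have hT := normalIn_stronglyClosed hN
  have h1 := e1_ess C hcore
  by_cases h2 : F.IsEssential 3 (E2 ν)
  · have hn : ¬ T ≤ G ν 1 := fun hle => by
      by_cases hle2 : T ≤ E2 ν
      · have h3 := t3 C h1 (ess3_of_le C hcore hT hne hle hle2) hT hne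
        have := h.mem_E2.1 (hle2 (h3 ((h.mem_G (i := 1) (a := 3) (by norm_num)).2 (by norm_num))))
        norm_num at this
      · exact t2 C h2 hT hle2 hle
    obtain rfl := t1 C h1 hT hn
    obtain ⟨f₁, a1, a2, a3⟩ := alpha1 C h1 h𝓔 hI
    obtain ⟨f₂, b1, b2, b3⟩ := alpha2 C h2 h𝓔 hI
    exact ⟨rfl, fin h C.chr C.sat hI a1 b1 a2 a3 (Or.inl ⟨b2, b3⟩)⟩
  · have h3 := ess3_of_not2 C hcore h2
    have hle := t3 C h1 h3 hT hne
    obtain ⟨f, hf, f8, f9⟩ := torus3 h C.sat h3 hI h𝓔 ((R3_le_G1 h).trans hle)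
    obtain ⟨g, hg, e⟩ := tower C h2 h3 hI h𝓔 hle hf
    have m8 : ν 6561 ∈ R3 ν := E3_le_R3 h (G8_le_E3 h ((h.mem_G (by norm_num)).2 (by norm_num)))
    have m9 : ν 19683 ∈ R3 ν := E3_le_R3 h (G8_le_E3 h ((h.mem_G (by norm_num)).2 (by norm_num)))
    rw [← e _ m8] at f8
    rw [← e _ m9] at f9
    by_cases hn : T ≤ G ν 1
    · obtain rfl := le_antisymm hn hle
      exact (ne_G1 C hI h𝓔 hg f8 f9).elim
    obtain rfl := h.eq_top_of_G1 hT.1 hle hn
    obtain ⟨f₁, a1, a2, a3⟩ := alpha1 C h1 h𝓔 hI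
    obtain ⟨f₂, b1, b2, b3⟩ := beta C hI h𝓔 hg f8 f9
    exact ⟨rfl, fin h C.chr C.sat hI a1 b1 a2 a3 (Or.inr ⟨b2, b3⟩)⟩

end CfsgLib.Th3
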