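import Cfsg.Agent.Lib.Th3.Quad

/-! Package QB: quadratic modules from essential subgroups. -/

set_option autoImplicit false
set_option maxRecDepth 100000
set_option linter.unusedSectionVars false

namespace CfsgLib.Th3

open Subgroup Cfsg Cfsg.FusionSystem CfsgLib.Comput CfsgLib.Fusion CfsgLib.ExSp4

/-- coordinates on `E / K` -/
structure QbKap {Ω : Type*} [Group Ω] (E K : Subgroup Ω) {W : Type*} [AddCommGroup W] (κ : Ω → W) :
    Prop where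
  add : ∀ x ∈ E, ∀ y ∈ E, κ (x * y) = κ x + κ y
  surj : ∀ w, ∃ x ∈ E, κ x = w
  ker : ∀ x ∈ E, κ x = 0 ↔ x ∈ K
  pre : ∀ A : AddSubgroup W, ∃ B : Subgroup Ω, (∀ x, x ∈ B ↔ x ∈ E ∧ κ x ∈ A) ∧
    Nat.card B = Nat.card A * Nat.card K

theorem qb_kap {Ω : Type*} [Group Ω] (E : Subgroup Ω) :
    ∃ κ : Ω → Additive (Abelianization E), QbKap E ⁅E, E⁆ κ := by
  classical
  refine ⟨fun x => if hx : x ∈ E then Additive.ofMul (Abelianization.of ⟨x, hx⟩) else 0,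
    fun x hx y hy => ?_, fun w => ?_, fun x hx => ?_, fun A => ?_⟩
  · rw [dif_pos hx, dif_pos hy, dif_pos (E.mul_mem hx hy), ← ofMul_mul, ← map_mul]; rfl
  · obtain ⟨x, hx⟩ := QuotientGroup.mk_surjective w.toMul
    exact ⟨x, x.2, by rw [dif_pos x.2]; exact congrArg Additive.ofMul hx⟩
  · rw [dif_pos hx, ofMul_eq_zero, ← MonoidHom.mem_ker, Abelianization.ker_of,
      ← map_subtype_commutator]
    exact (mem_map_iff_mem (f := E.subtype) (x := ⟨x, hx⟩) E.subtype_injective).symm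
  · refine ⟨((AddSubgroup.toSubgroup' A).comap Abelianization.of).map E.subtype, fun x => ⟨?_, ?_⟩, ?_⟩
    · rintro ⟨y, hy, rfl⟩
      exact ⟨y.2, by rw [coe_subtype, dif_pos y.2]; exact hy⟩
    · rintro ⟨hx, h⟩
      rw [dif_pos hx] at h
      exact ⟨⟨x, hx⟩, h, rfl⟩
    · rw [card_map_of_injective E.subtype_injective,
        Core.card_comap_of_surjective (f := Abelianization.of (G := E)) QuotientGroup.mk_surjective,
        Abelianization.ker_of, ← map_subtype_commutator, card_map_of_injective E.subtype_injective]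
      rfl

namespace QbKap

variable {Ω : Type*} [Group Ω] {E K : Subgroup Ω} {W : Type*} [AddCommGroup W] {κ : Ω → W}
  (h : QbKap E K κ)
include h

theorem one : κ 1 = 0 := by simpa using h.add 1 E.one_mem 1 E.one_mem

theorem sub {x y : Ω} (hx : x ∈ E) (hy : y ∈ E) : κ (x⁻¹ * y) = κ y - κ x := by
  rw [eq_sub_iff_add_eq', ← h.add _ hx _ (E.mul_mem (E.inv_mem hx) hy), mul_inv_cancel_left]

theorem eq_iff {x y : Ω} (hx : x ∈ E) (hy : y ∈ E) : κ y = κ x ↔ x⁻¹ * y ∈ K := by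
  rw [← h.ker _ (E.mul_mem (E.inv_mem hx) hy), h.sub hx hy, sub_eq_zero]

theorem img {X : Subgroup Ω} (hX : K ≤ X) : ∃ A : AddSubgroup W, ∀ x ∈ E, κ x ∈ A ↔ x ∈ X := by
  refine ⟨{ carrier := {w | ∃ x ∈ E, x ∈ X ∧ κ x = w}
            zero_mem' := ⟨1, E.one_mem, X.one_mem, h.one⟩
            add_mem' := ?_
            neg_mem' := ?_ }, fun x hx => ⟨?_, fun h' => ⟨x, hx, h', rfl⟩⟩⟩
  · rintro _ _ ⟨x, hx, hx', rfl⟩ ⟨y, hy, hy', rfl⟩
    exact ⟨x * y, E.mul_mem hx hy, X.mul_mem hx' hy', h.add x hx y hy⟩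
  · rintro _ ⟨x, hx, hx', rfl⟩
    exact ⟨x⁻¹ * 1, by simpa using hx, by simpa using hx', by rw [h.sub hx E.one_mem, h.one, zero_sub]⟩
  · rintro ⟨y, hy, hy', e⟩
    exact (mul_mem_cancel_right hy').1 (inv_mem_iff.1 (by
      simpa using X.mul_mem (hX ((h.eq_iff hx hy).1 e)) (X.inv_mem hy') |> fun h => by
        simpa using X.mul_mem (X.inv_mem hy') h))

end QbKap

/-- the quadratic module of an essential subgroup -/
structure QbMod {Ω : Type*} [Group Ω] {S : Subgroup Ω} (F : FusionSystem S) (E R K C : Subgroup Ω)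
    {W : Type*} [AddCommGroup W] (κ : Ω → W) {H : Type*} [Group H] [DistribMulAction H W]
    (T : Subgroup H) (C' : AddSubgroup W) : Prop where
  kap : QbKap E K κ
  loc : Loc 3 F E κ T
  memT : ∀ t, t ∈ T ↔ ∃ s ∈ R, ∀ x ∈ E, t • κ x = κ (s * x * s⁻¹)
  exT : ∀ s ∈ R, ∃ t ∈ T, ∀ x ∈ E, t • κ x = κ (s * x * s⁻¹)
  triv : ∀ s ∈ R, (∀ x ∈ E, κ (s * x * s⁻¹) = κ x) → s ∈ E
  memC : ∀ x ∈ E, κ x ∈ C' ↔ x ∈ C
  quad : Quad T C'

variable {Ω : Type*} [Group Ω] {S E R K C : Subgroup Ω} [Finite S] {F : FusionSystem S}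
  (hS : IsPGroup 3 S) (hF : F.IsSaturated 3) (hE : F.IsEssential 3 E) (D : QData S E R K C)
include hS hF hE D

omit hS hF hE in
theorem QData.qb_mem {s : Ω} (hs : s ∈ R) : s ∈ S ∧ ∀ x ∈ E, s * x * s⁻¹ ∈ E := by
  rw [← D.norm] at hs
  exact ⟨hs.1, fun x hx => (mem_normalizer_iff.1 hs.2 x).1 hx⟩

theorem QData.qb_exists : ∃ (κ : Ω → Additive (Abelianization E))
    (H : Subgroup (Additive (Abelianization E) ≃ₗ[ℤ] Additive (Abelianization E))) (_ : Finite H)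
    (T : Subgroup H) (C' : AddSubgroup (Additive (Abelianization E))), QbMod F E R K C κ T C' := by
  have : Fact (Nat.Prime 3) := ⟨Nat.prime_three⟩
  have := finite_of_le_S D.ES
  have fK := finite_of_le_S (D.KC.trans (D.CE.trans D.ES))
  have pK : 0 < Nat.card K := Nat.card_pos
  obtain ⟨κ, k⟩ := qb_kap E
  rw [D.comm] at k
  obtain ⟨H, fH, T, L⟩ := exists_loc hS hF hE.2.1 κ k.add k.surj fun f hf x hx e => by
    rw [k.ker _ hx, ← D.comm, ← map_subtype_commutator] at e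
    obtain ⟨y, hy, rfl⟩ := e
    obtain ⟨α, -, h2⟩ := hf.1.exists_aut_of_mem hf.2
    rw [k.ker _ (hf.2 _ hx), ← D.comm, ← map_subtype_commutator, ← h2 _ hx]
    exact ⟨α y, aInv_of_characteristic ⊤ _ α (mem_top _) y hy, (extAut_coe α y).symm⟩
  obtain ⟨C', hC⟩ := k.img D.KC
  have mT : ∀ t, t ∈ T ↔ ∃ s ∈ R, ∀ x ∈ E, t • κ x = κ (s * x * s⁻¹) := fun t => by
    rw [L.memT]
    refine ⟨fun ⟨s, hs, h1, h2⟩ => ⟨s, D.norm ▸ ⟨hs, mem_normalizer_of_conj_mem h1⟩, h2⟩,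
      fun ⟨s, hs, h2⟩ => ⟨s, (D.qb_mem hs).1, (D.qb_mem hs).2, h2⟩⟩
  have eT : ∀ s ∈ R, ∃ t ∈ T, ∀ x ∈ E, t • κ x = κ (s * x * s⁻¹) := fun s hs => by
    obtain ⟨t, ht⟩ := L.of_au _ (au_conj D.ES (D.qb_mem hs).1 (D.qb_mem hs).2)
    exact ⟨t, (mT t).2 ⟨s, hs, ht⟩, ht⟩
  have triv : ∀ s ∈ R, (∀ x ∈ E, κ (s * x * s⁻¹) = κ x) → s ∈ E := fun s hs h => by
    obtain ⟨x, hx, hx'⟩ := SetLike.not_le_iff_exists.1 fun hle : E ≤ C => by
      have := D.cardC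
      rw [le_antisymm D.CE hle, D.cardE] at this
      omega
    exact (D.free s hs x hx ((k.eq_iff hx ((D.qb_mem hs).2 x hx)).1 (h x hx))).resolve_right hx'
  have ER : E ≤ R := D.norm ▸ le_inf D.ES le_normalizer
  have fR : Finite R := finite_of_le_S fun s hs => (D.qb_mem hs).1
  have pE : 0 < Nat.card E := Nat.card_pos
  refine ⟨κ, H, fH, T, C', k, L, mT, eT, triv, hC, L.syl, fun v => ?_, ?_, ?_, ?_, ?_, ?_, ?_, ?_⟩
  · obtain ⟨x, hx, rfl⟩ := k.surj v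
    rw [← (k.ker _ (E.pow_mem hx 3)).2 (D.pow x hx), pow_succ, pow_two, k.add _ (E.mul_mem hx hx) _ hx,
      k.add _ hx _ hx]
    abel
  · obtain ⟨B, h1, h2⟩ := k.pre ⊤
    rw [show B = E from Subgroup.ext fun x => by simp [h1], D.cardE, AddSubgroup.card_top] at h2
    exact (Nat.eq_of_mul_eq_mul_right pK h2).symm
  · obtain ⟨B, h1, h2⟩ := k.pre C'
    rw [show B = C from Subgroup.ext fun x => (h1 x).trans
      ⟨fun h => (hC x h.1).1 h.2, fun h => ⟨D.CE h, (hC x (D.CE h)).2 h⟩⟩, D.cardC] at h2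
    exact (Nat.eq_of_mul_eq_mul_right pK h2).symm
  · choose φ h1 h2 using eT
    have h3 := Core.card_mul_relIndex_of_le ER
    rw [D.cardR, mul_comm 9] at h3
    rw [← Nat.eq_of_mul_eq_mul_left pE h3]
    refine Nat.card_le_card_of_injective
      (fun q : R ⧸ E.subgroupOf R => (⟨φ q.out q.out.2, h1 _ _⟩ : T)) fun q q' e => ?_
    rw [← QuotientGroup.out_eq' q, ← QuotientGroup.out_eq' q', QuotientGroup.eq, mem_subgroupOf]
    have e' : φ q.out q.out.2 = φ q'.out q'.out.2 := congrArg Subtype.val e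
    generalize q.out = a at e' ⊢
    generalize q'.out = b at e' ⊢
    refine triv _ (a⁻¹ * b).2 fun x hx => ?_
    have h4 := h2 _ a⁻¹.2
    have h5 := h4 _ ((D.qb_mem a.2).2 x hx)
    rw [← h2 _ a.2 x hx, e', h2 _ b.2 x hx, h4 _ ((D.qb_mem b.2).2 x hx)] at h5
    simpa [mul_assoc] using h5
  · intro t ht v
    obtain ⟨x, hx, rfl⟩ := k.surj v
    obtain ⟨s, hs, e⟩ := (mT t).1 ht
    have := (D.qb_mem hs).2 x hx
    rw [e x hx, ← k.sub hx this, hC _ (E.mul_mem (E.inv_mem hx) this)]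
    exact D.sub s hs x hx
  · intro t ht v hv
    obtain ⟨x, hx, rfl⟩ := k.surj v
    obtain ⟨s, hs, e⟩ := (mT t).1 ht
    rw [e x hx, k.eq_iff hx ((D.qb_mem hs).2 x hx)]
    exact D.fix s hs x ((hC x hx).1 hv)
  · intro t ht t1 v hv
    obtain ⟨x, hx, rfl⟩ := k.surj v
    obtain ⟨s, hs, e⟩ := (mT t).1 ht
    rw [e x hx, k.eq_iff hx ((D.qb_mem hs).2 x hx)] at hv
    refine (hC x hx).2 ((D.free s hs x hx hv).resolve_left fun hsE => t1 ?_)
    refine FaithfulSMul.eq_of_smul_eq_smul (α := Additive (Abelianization E)) fun w => ?_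
    obtain ⟨y, hy, rfl⟩ := k.surj w
    rw [e y hy, one_smul, k.add _ (E.mul_mem hsE hy) _ (E.inv_mem hsE), add_comm,
      ← k.add _ (E.inv_mem hsE) _ (E.mul_mem hsE hy), inv_mul_cancel_left]
  · by_contra hc
    push Not at hc
    have hI : Ivt F E C := fun f hf x hx hxC => by
      obtain ⟨g, hg⟩ := L.of_au f hf
      rw [← hC _ (hf.2 x hx), ← hg x hx]
      exact hc g _ ((hC x hx).2 hxC)
    have RE : R ≤ E := fun s hs => by
      have hs' := hs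
      rw [← D.norm] at hs'
      refine essential_mem_of_stabOn₂ hS hF hE hs'.1 hs'.2 (X := C.subgroupOf E)
        (aInv_subgroupOf fun α hα => hI _ (au_ext D.ES hα)) (fun y hy => ?_)
        fun y _ => D.sub s hs y y.2
      refine CfsgLib.PGroup.commutator_le_frattini (hS.to_le D.ES) ?_
      rw [← mem_map_iff_mem E.subtype_injective, map_subtype_commutator, D.comm]
      exact D.fix s hs y hy
    have := D.cardR
    rw [le_antisymm RE ER] at this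
    omega

theorem QData.small : ∃ A : Subgroup Ω, K ≤ A ∧ A ≤ E ∧ Nat.card A ≤ 9 * Nat.card K ∧
    ∀ s ∈ R, ∀ x ∈ E, x⁻¹ * (s * x * s⁻¹) ∈ A := by
  obtain ⟨κ, H, _, T, C', M⟩ := D.qb_exists hS hF hE
  have := finite_of_le_S D.ES
  obtain ⟨A, h1, h2⟩ := M.quad.small
  obtain ⟨B, h3, h4⟩ := M.kap.pre A
  refine ⟨B, fun x hx => (h3 x).2 ⟨D.CE (D.KC hx), ?_⟩, fun x hx => ((h3 x).1 hx).1,
    h4 ▸ Nat.mul_le_mul_right _ h1, fun s hs x hx => ?_⟩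
  · rw [(M.kap.ker x (D.CE (D.KC hx))).2 hx]
    exact A.zero_mem
  · obtain ⟨t, ht, e⟩ := M.exT s hs
    have := (D.qb_mem hs).2 x hx
    refine (h3 _).2 ⟨E.mul_mem (E.inv_mem hx) this, ?_⟩
    rw [M.kap.sub hx this, ← e x hx]
    exact h2 t ht _

theorem QData.span {X : Subgroup Ω} (hX : Ivt F E X) (hKX : K ≤ X)
    (h : ∀ s ∈ R, ∀ x ∈ E, x⁻¹ * (s * x * s⁻¹) ∈ X) : ∀ x ∈ E, ∃ y ∈ X, y ∈ E ∧ y⁻¹ * x ∈ C := by
  obtain ⟨κ, H, _, T, C', M⟩ := D.qb_exists hS hF hE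
  have := finite_of_le_S D.ES
  obtain ⟨A, hA⟩ := M.kap.img hKX
  have h1 := M.quad.span (X := A) (fun g v hv => by
    obtain ⟨x, hx, rfl⟩ := M.kap.surj v
    obtain ⟨f, hf, e⟩ := M.loc.to_au g
    rw [e x hx, hA _ (hf.2 x hx)]
    exact hX f hf x hx ((hA x hx).1 hv)) fun t ht v => by
    obtain ⟨x, hx, rfl⟩ := M.kap.surj v
    obtain ⟨s, hs, e⟩ := (M.memT t).1 ht
    have := (D.qb_mem hs).2 x hx
    rw [e x hx, ← M.kap.sub hx this, hA _ (E.mul_mem (E.inv_mem hx) this)]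
    exact h s hs x hx
  intro x hx
  obtain ⟨a, ha, c, hc, e⟩ := AddSubgroup.mem_sup.1 (h1 ▸ AddSubgroup.mem_top (κ x) : κ x ∈ A ⊔ C')
  obtain ⟨y, hy, rfl⟩ := M.kap.surj a
  refine ⟨y, (hA y hy).1 ha, hy, ?_⟩
  rw [← M.memC _ (E.mul_mem (E.inv_mem hy) hx), M.kap.sub hy hx, ← e, add_sub_cancel_left]
  exact hc

theorem QData.torus (hK : K = ⊥) {T : Subgroup Ω} {𝓔 : FusionSystem T} (hI : 𝓔.IsInvariantIn F)
    (hR : R ≤ T) {s₁ s₂ : Ω} (h1 : s₁ ∈ R) (n1 : s₁ ∉ E) (h2 : s₂ ∈ R) (n2 : s₂ ∉ E) :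
    ∃ f, Au 𝓔 E f ∧ (∀ s ∈ R, ∃ s' ∈ R, ∀ x ∈ E, f (s * x * s⁻¹) = s' * f x * s'⁻¹) ∧
      ∀ x ∈ E, f (x⁻¹ * (s₁ * x * s₁⁻¹)) = x⁻¹ * (s₂ * x * s₂⁻¹) := by
  obtain ⟨κ, H, _, U, C', M⟩ := D.qb_exists hS hF hE
  have := finite_of_le_S D.ES
  have : Finite T := finite_of_le_S (inv_stronglyClosed hI).1
  have ET : E ≤ T := (D.norm ▸ le_inf D.ES le_normalizer : E ≤ R).trans hR
  have inj : ∀ x ∈ E, ∀ y ∈ E, κ y = κ x → y = x := fun x hx y hy e => by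
    rw [M.kap.eq_iff hx hy, hK, mem_bot, inv_mul_eq_one] at e
    exact e.symm
  let N : Subgroup H :=
    { carrier := {g | ∃ f, Au 𝓔 E f ∧ ∀ x ∈ E, g • κ x = κ (f x)}
      one_mem' := ⟨id, ⟨Mor.id _ ET, fun _ h => h⟩, fun x _ => one_smul _ _⟩
      mul_mem' := by
        rintro a b ⟨f, hf, e⟩ ⟨f', hf', e'⟩
        exact ⟨_, hf'.comp hf, fun x hx => by rw [mul_smul, e' x hx, e _ (hf'.2 x hx)]⟩
      inv_mem' := by
        rintro a ⟨f, hf, e⟩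
        obtain ⟨g, hg, -, e2⟩ := hf.exists_inv
        exact ⟨g, hg, fun x hx => by rw [inv_smul_eq_iff, e _ (hg.2 x hx), e2 x hx]⟩ }
  have : N.Normal := ⟨by
    rintro n ⟨f, hf, e⟩ g
    obtain ⟨k, hk, ek⟩ := M.loc.to_au g
    obtain ⟨k', hk', e1, e2⟩ := hk.exists_inv
    have h3 := inv_conj (g := fun x => k (f (k' x))) hI hf.1 hk.1 le_rfl hf.2
      fun x hx => by rw [e1 x hx]
    rw [hk.1.img_eq_self hk.2] at h3
    refine ⟨_, ⟨h3, fun x hx => hk.2 _ (hf.2 _ (hk'.2 x hx))⟩, fun x hx => ?_⟩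
    have h4 : g⁻¹ • κ x = κ (k' x) := by rw [inv_smul_eq_iff, ek _ (hk'.2 x hx), e2 x hx]
    rw [mul_smul, mul_smul, h4, e _ (hk'.2 x hx), ek _ (hf.2 _ (hk'.2 x hx))]⟩
  have hN : U ≤ N := fun t ht => by
    obtain ⟨s, hs, e⟩ := (M.memT t).1 ht
    exact ⟨_, au_conj ET (hR hs) (D.qb_mem hs).2, e⟩
  obtain ⟨t₁, m1, e1⟩ := M.exT s₁ h1
  obtain ⟨t₂, m2, e2⟩ := M.exT s₂ h2
  obtain ⟨g, ⟨f, hf, e⟩, hg, eg⟩ := M.quad.torus hN m1 m2
    (fun h => n1 (M.triv _ h1 fun x hx => by rw [← e1 x hx, h, one_smul]))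
    (fun h => n2 (M.triv _ h2 fun x hx => by rw [← e2 x hx, h, one_smul]))
  refine ⟨f, hf, fun s hs => ?_, fun x hx => ?_⟩
  · obtain ⟨t, ht, et⟩ := M.exT s hs
    obtain ⟨s', hs', et'⟩ := (M.memT _).1 ((mem_normalizer_iff.1 hg t).1 ht)
    refine ⟨s', hs', fun x hx => ?_⟩
    have a1 := (D.qb_mem hs).2 x hx
    refine inj _ ((D.qb_mem hs').2 _ (hf.2 x hx)) _ (hf.2 _ a1) ?_
    rw [← e _ a1, ← et x hx, ← et' _ (hf.2 x hx), ← e x hx, mul_smul, mul_smul, inv_smul_smul]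
  · have a1 := (D.qb_mem h1).2 x hx
    have a2 := (D.qb_mem h2).2 x hx
    have b1 := E.mul_mem (E.inv_mem hx) a1
    refine inj _ (E.mul_mem (E.inv_mem hx) a2) _ (hf.2 _ b1) ?_
    rw [← e _ b1, M.kap.sub hx a1, M.kap.sub hx a2, ← e1 x hx, ← e2 x hx, eg]

end CfsgLib.Th3
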