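import Cfsg.Agent.Lib.Th3.Bas

/-! Package SIFT: soundness of the array algorithms. -/

set_option autoImplicit false
set_option maxRecDepth 100000
set_option linter.unusedSectionVars false

namespace CfsgLib.Th3

open Subgroup Cfsg Cfsg.FusionSystem CfsgLib.Comput CfsgLib.Fusion CfsgLib.ExSp4

variable {Ω : Type*} [Group Ω] {S K : Subgroup Ω} {ν : ℕ → Ω} {g E X Q : ℕ} {P : ℕ → Bool}

theorem closed_wf (h : closed g = true) : wf g = true := (band_eq_true.1 h).1

namespace Sift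

open Bas

/-- the subgroup generated by the entries of depth at least `k` -/
def tl (ν : ℕ → Ω) (g k : ℕ) : Subgroup Ω := closure {x | ∃ d, k ≤ d ∧ d < 10 ∧ ν (ent g d) = x}

theorem tl_le_iff {k : ℕ} : tl ν g k ≤ K ↔ ∀ d, k ≤ d → d < 10 → ν (ent g d) ∈ K := by
  rw [tl, closure_le]
  exact ⟨fun H d h1 hd => H ⟨d, h1, hd, rfl⟩, by rintro H _ ⟨d, h1, hd, rfl⟩; exact H d h1 hd⟩

theorem ent_mem_tl {k d : ℕ} (h1 : k ≤ d) (hd : d < 10) : ν (ent g d) ∈ tl ν g k :=
  subset_closure ⟨d, h1, hd, rfl⟩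

theorem tl_anti {k l : ℕ} (h : k ≤ l) : tl ν g l ≤ tl ν g k :=
  tl_le_iff.2 fun _ h1 hd => ent_mem_tl (h.trans h1) hd

theorem tl_zero : tl ν g 0 = cl ν g :=
  le_antisymm (tl_le_iff.2 fun _ _ hd => ent_mem_cl ν g hd)
    (cl_le_iff.2 fun _ hd => ent_mem_tl (Nat.zero_le _) hd)

theorem tl_ten : tl ν g 10 = ⊥ := le_bot_iff.1 (tl_le_iff.2 fun _ h1 h2 => absurd h2 (by omega))

theorem exists_depth {x : ℕ} (hx : x < 59049) (h0 : x ≠ 0) :
    ∃ d < 10, x % 3 ^ d = 0 ∧ x % 3 ^ (d + 1) ≠ 0 := by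
  have key : ∀ n, x % 3 ^ n = 0 ∨ ∃ d < n, x % 3 ^ d = 0 ∧ x % 3 ^ (d + 1) ≠ 0 := by
    intro n
    induction n with
    | zero => exact Or.inl (Nat.mod_one x)
    | succ n ih =>
      rcases ih with e | ⟨d, hd, e⟩
      · by_cases e' : x % 3 ^ (n + 1) = 0
        · exact Or.inl e'
        · exact Or.inr ⟨n, Nat.lt_succ_self n, e, e'⟩
      · exact Or.inr ⟨d, by omega, e⟩
  refine (key 10).resolve_left fun e => h0 ?_
  rwa [Nat.mod_eq_of_lt (show x < 3 ^ 10 from hx)] at e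

theorem gcd_eq {x d : ℕ} (hd : d < 10) (h1 : x % 3 ^ d = 0) (h2 : x % 3 ^ (d + 1) ≠ 0) :
    Nat.gcd x 59049 = 3 ^ d := by
  obtain ⟨k, -, hk⟩ := (Nat.dvd_prime_pow Nat.prime_three (m := 10)).1 (Nat.gcd_dvd_right x 59049)
  have a1 : 3 ^ d ∣ 3 ^ k := hk ▸ Nat.dvd_gcd (Nat.dvd_of_mod_eq_zero h1) (pow_dvd_pow 3 hd.le)
  have a2 : d ≤ k := (Nat.pow_dvd_pow_iff_le_right (by norm_num)).1 a1
  have a3 : ¬ d + 1 ≤ k := fun h3 => h2 (Nat.mod_eq_zero_of_dvd
    ((pow_dvd_pow 3 h3).trans (hk ▸ Nat.gcd_dvd_left x 59049)))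
  rw [hk, show k = d by omega]

theorem memR_zero (n : ℕ) : memR g (n + 1) 0 = true := rfl

theorem memR_succ {x d : ℕ} (n : ℕ) (hd : d < 10) (h1 : x % 3 ^ d = 0) (h2 : x % 3 ^ (d + 1) ≠ 0) :
    memR g (n + 1) x = (if ent g d = 0 then false else memR g n (mul (ent g d) x)) := by
  have e : memR g (n + 1) x = cnd (Nat.beq x 0) true
      (force (slot g (Nat.log2 (Nat.gcd x 59049))) fun h => cnd (Nat.beq h 0) false
        (force (mul h x) (memR g n))) := rfl
  have h0 : x ≠ 0 := fun e => h2 (by rw [e, Nat.zero_mod])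
  rw [e, cnd_eq, if_neg (fun e => h0 (Nat.eq_of_beq_eq_true e)), force_eq, gcd_eq hd h1 h2, cnd_eq,
    force_eq]
  change (if Nat.beq (ent g d) 0 = true then false else memR g n (mul (ent g d) x)) = _
  simp only [Nat.beq_eq]

theorem skip_eq {h d : ℕ} : skip X h d = true ↔ h = 0 ∨ ent X d ≠ 0 := by
  rw [skip, cnd_eq, cnd_eq]
  simp only [Nat.beq_eq]
  split_ifs <;> simp [*]

theorem inj3 {B : Subgroup Ω} {q : Ω} (h1 : q ∉ B) (h2 : q ^ 2 ∉ B) :
    Function.Injective fun p : Fin 3 × B => q ^ (p.1 : ℕ) * (p.2 : Ω) := by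
  have key : ∀ (i j : ℕ) (b c : B), i + j < 3 → q ^ i * b = q ^ (i + j) * c → j = 0 := by
    intro i j b c hij e
    rw [pow_add, mul_assoc, mul_right_inj] at e
    have : q ^ j ∈ B := by
      rw [eq_mul_inv_of_mul_eq e.symm]; exact mul_mem b.2 (inv_mem c.2)
    have tri : j = 0 ∨ j = 1 ∨ j = 2 := by omega
    rcases tri with rfl | rfl | rfl
    · rfl
    · exact absurd (pow_one q ▸ this) h1
    · exact absurd this h2
  rintro ⟨i, b⟩ ⟨j, c⟩ e
  have e' : q ^ (i : ℕ) * b = q ^ (j : ℕ) * c := e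
  have hij : i = j := by
    apply Fin.ext
    rcases le_total (i : ℕ) j with l | l
    · obtain ⟨k, hk⟩ := Nat.exists_eq_add_of_le l
      have := key i k b c (hk ▸ j.2) (hk ▸ e')
      omega
    · obtain ⟨k, hk⟩ := Nat.exists_eq_add_of_le l
      have := key j k c b (hk ▸ i.2) (hk ▸ e'.symm)
      omega
  subst hij
  exact Prod.ext rfl (Subtype.ext (mul_left_cancel e'))

end Sift

open Bas Sift

namespace Mod

variable (h : Mod S ν)
include h

theorem ent_depth (hg : wf g = true) {d : ℕ} (hd : d < 10) (h0 : ent g d ≠ 0) :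
    ν (ent g d) ∈ G ν d ∧ ν (ent g d) ∉ G ν (d + 1) := by
  have e := (wf_sound hg d hd).resolve_left h0
  rw [h.mem_G hd.le, h.mem_G hd, e, ← Nat.mod_mod_of_dvd _ (pow_dvd_pow 3 (Nat.le_succ d)), e]
  exact ⟨Nat.mod_self _, by positivity⟩

theorem ent_mem_G (hg : wf g = true) {d : ℕ} (hd : d < 10) : ν (ent g d) ∈ G ν d := by
  by_cases h0 : ent g d = 0
  · rw [h0, h.zero]; exact one_mem _
  · exact (h.ent_depth hg hd h0).1

theorem tl_le_G (hg : wf g = true) {k : ℕ} : tl ν g k ≤ G ν k :=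
  tl_le_iff.2 fun _ h1 hd => h.G_anti h1 hd.le (h.ent_mem_G hg hd)

theorem memR_sound {k : ℕ} (hk : k ≤ 10) (hg : k = 0 ∨ wf g = true) : ∀ n x, x < 59049 →
    x % 3 ^ k = 0 → memR g n x = true → ν x ∈ tl ν g k := by
  intro n
  induction n with
  | zero => exact fun _ _ _ h => Bool.noConfusion h
  | succ n ih =>
    intro x hx h1 hm
    by_cases h0 : x = 0
    · rw [h0, h.zero]; exact one_mem _
    obtain ⟨d, hd, h2, h3⟩ := exists_depth hx h0
    have hkd : k ≤ d := by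
      by_contra hn
      exact h3 (mod_of_le (by omega) h1)
    rw [memR_succ n hd h2 h3] at hm
    split_ifs at hm with e
    have := ih _ (mul_lt _ _) (by
      rcases hg with rfl | hg
      · exact Nat.mod_one _
      · rw [dig_le hk ((h.mem_G hk).1 (h.G_anti hkd hd.le (h.ent_mem_G hg hd))), h1]) hm
    rwa [h.mul, mul_mem_cancel_left (ent_mem_tl hkd hd)] at this

theorem mem_tl (hg : wf g = true) {k x : ℕ} (hk : k ≤ 10) (hx : Th3.mem g x = true)
    (h1 : ν x ∈ G ν k) : ν x ∈ tl ν g k := by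
  rw [Th3.mem, force_eq] at hx
  rw [(h.eq_iff x (x % 59049)).2 (Nat.mod_mod _ _).symm] at h1 ⊢
  exact h.memR_sound hk (Or.inr hg) _ _ (Nat.mod_lt _ (by norm_num)) ((h.mem_G hk).1 h1) hx

theorem closed_spec (hg : closed g = true) {d : ℕ} (hd : d < 10) :
    ν (ent g d) ^ 3 ∈ tl ν g (d + 1) ∧ ∀ k < d,
      (ν (ent g k))⁻¹ * ν (ent g d) * ν (ent g k) ∈ tl ν g (k + 1) := by
  have hw := closed_wf hg
  have h1 := allLt_sound (band_eq_true.1 hg).2 d hd
  rw [force_eq, cnd_eq] at h1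
  split_ifs at h1 with e
  · rw [Nat.eq_of_beq_eq_true e, h.zero]
    simp
  obtain ⟨h2, h3⟩ := band_eq_true.1 h1
  refine ⟨?_, fun k hk => ?_⟩
  · rw [← h.cube]
    exact h.mem_tl hw hd h2 (by rw [h.cube]; exact h.G_pow hd (h.ent_mem_G hw hd))
  · have h4 := allLt_sound h3 k hk
    have hE : ν (ent g d) ∈ tl ν g (k + 1) := ent_mem_tl hk hd
    rw [force_eq, cnd_eq] at h4
    split_ifs at h4 with e'
    · rw [Nat.eq_of_beq_eq_true e', h.zero]
      simpa using hE
    have hG : ν (ent g d) ∈ G ν (k + 1) := h.tl_le_G hw hE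
    have h5 := h.mem_tl hw (k := k + 1) (by omega) h4 (by
      rw [h.cm]
      have := h.G_conj (i := k + 1) (by omega) (inv_mem (h.mem (ent g k))) (inv_mem hG)
      rw [inv_inv] at this
      exact mul_mem this hG)
    rw [h.cm, mul_mem_cancel_right hE] at h5
    have := inv_mem h5
    convert this using 1
    group

theorem tl_cases (hg : closed g = true) {k : ℕ} (hk : k < 10) {x : Ω} (hx : x ∈ tl ν g k) :
    ∃ e < 3, ∃ c ∈ tl ν g (k + 1), x = ν (ent g k) ^ e * c := by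
  set q := ν (ent g k) with hq
  have h3 : q ^ 3 ∈ tl ν g (k + 1) := (h.closed_spec hg hk).1
  have hn : ∀ c ∈ tl ν g (k + 1), q⁻¹ * c * q ∈ tl ν g (k + 1) := fun c hc => by
    have := (tl_le_iff (K := (tl ν g (k + 1)).comap (MulAut.conj q⁻¹).toMonoidHom)).2
      (fun d h1 hd => by
        change q⁻¹ * ν (ent g d) * q⁻¹⁻¹ ∈ tl ν g (k + 1)
        rw [inv_inv]; exact (h.closed_spec hg hd).2 k h1) hc
    change q⁻¹ * c * q⁻¹⁻¹ ∈ tl ν g (k + 1) at this
    rwa [inv_inv] at this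
  have hn' : ∀ n : ℕ, ∀ c ∈ tl ν g (k + 1), (q ^ n)⁻¹ * c * q ^ n ∈ tl ν g (k + 1) := by
    intro n
    induction n with
    | zero => intro c hc; simpa using hc
    | succ n ih =>
      intro c hc
      have := hn _ (ih c hc)
      convert this using 1
      group
  have key : ∃ n : ℕ, ∃ c ∈ tl ν g (k + 1), x = q ^ n * c := by
    induction hx using closure_induction with
    | mem x hx =>
      obtain ⟨d, h1, hd, rfl⟩ := hx
      rcases Nat.eq_or_lt_of_le h1 with rfl | h1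
      · exact ⟨1, 1, one_mem _, by rw [pow_one, mul_one]⟩
      · exact ⟨0, _, ent_mem_tl h1 hd, by rw [pow_zero, one_mul]⟩
    | one => exact ⟨0, 1, one_mem _, by simp⟩
    | mul x y _ _ ihx ihy =>
      obtain ⟨n, c, hc, rfl⟩ := ihx
      obtain ⟨m, c', hc', rfl⟩ := ihy
      exact ⟨n + m, _, mul_mem (hn' m c hc) hc', by group⟩
    | inv x _ ih =>
      obtain ⟨n, c, hc, rfl⟩ := ih
      exact ⟨2 * n, _, mul_mem (hn' (2 * n) _ (inv_mem hc)) (inv_mem (pow_mem h3 n)), by group⟩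
  obtain ⟨n, c, hc, rfl⟩ := key
  refine ⟨n % 3, Nat.mod_lt _ (by norm_num), _, mul_mem (pow_mem h3 (n / 3)) hc, ?_⟩
  rw [← mul_assoc, ← pow_mul, ← pow_add, Nat.mod_add_div]

theorem tl_succ_of_zero {k : ℕ} (h0 : ent g k = 0) : tl ν g k ≤ tl ν g (k + 1) :=
  tl_le_iff.2 fun d h1 hd => by
    rcases Nat.eq_or_lt_of_le h1 with rfl | h1
    · rw [h0, h.zero]; exact one_mem _
    · exact ent_mem_tl h1 hd

theorem mem_tl_of_mem (hg : closed g = true) {k : ℕ} (hk : k ≤ 10) {x : Ω} (hx : x ∈ cl ν g)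
    (h1 : x ∈ G ν k) : x ∈ tl ν g k := by
  induction k with
  | zero => rwa [tl_zero]
  | succ k ih =>
    have h2 := ih (by omega) (h.G_anti (Nat.le_succ k) hk h1)
    by_cases h0 : ent g k = 0
    · exact h.tl_succ_of_zero h0 h2
    obtain ⟨e, he, c, hc, rfl⟩ := h.tl_cases hg hk h2
    obtain ⟨a1, a2⟩ := h.ent_depth (closed_wf hg) hk h0
    rw [mul_mem_cancel_right (h.tl_le_G (closed_wf hg) hc)] at h1
    interval_cases e
    · rwa [pow_zero, one_mul]
    · exact absurd (pow_one (ν (ent g k)) ▸ h1) a2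
    · exact absurd h1 (h.sq_not_mem hk a1 a2)

theorem ent_ne (hg : closed g = true) {x : Ω} (hx : x ∈ cl ν g) {d : ℕ} (hd : d < 10)
    (h1 : x ∈ G ν d) (h2 : x ∉ G ν (d + 1)) : ent g d ≠ 0 := fun h0 =>
  h2 (h.tl_le_G (closed_wf hg) (h.tl_succ_of_zero h0 (h.mem_tl_of_mem hg hd.le hx h1)))

theorem mem_sound {x : ℕ} (hx : Th3.mem g x = true) : ν x ∈ cl ν g := by
  rw [Th3.mem, force_eq] at hx
  rw [← tl_zero, (h.eq_iff x (x % 59049)).2 (Nat.mod_mod _ _).symm]
  exact h.memR_sound (k := 0) (Nat.zero_le _) (Or.inl rfl) _ _ (Nat.mod_lt _ (by norm_num))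
    (Nat.mod_one _) hx

theorem mem_complete (hg : closed g = true) {x : ℕ} (hx : ν x ∈ cl ν g) : Th3.mem g x = true := by
  have key : ∀ j ≤ 10, ∀ k, k + j = 10 → ∀ x < 59049, x % 3 ^ k = 0 → ν x ∈ cl ν g →
      ∀ n, 2 * j + 1 ≤ n → memR g n x = true := by
    intro j
    induction j with
    | zero =>
      rintro - k rfl x hx h1 - n hn
      obtain ⟨n, rfl⟩ : ∃ m, n = m + 1 := ⟨n - 1, by omega⟩
      rw [Nat.mod_eq_of_lt (show x < 3 ^ 10 from hx)] at h1
      rw [h1]; exact memR_zero n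
    | succ j ih =>
      intro hj k hk x hx h1 hc n hn
      have hk10 : k < 10 := by omega
      have ih' := ih (by omega) (k + 1) (by omega)
      by_cases h2 : x % 3 ^ (k + 1) = 0
      · exact ih' x hx h2 hc n (by omega)
      have h0 := h.ent_ne hg hc hk10 ((h.mem_G hk10.le).2 h1) (fun e => h2 ((h.mem_G hk10).1 e))
      have hw := (wf_sound (closed_wf hg) k hk10).resolve_left h0
      have p0 := (h.mem_G hk10.le).1 (h.ent_mem_G (closed_wf hg) hk10)
      have p1 : ent g k / 3 ^ k % 3 = 1 := by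
        rw [Nat.mod_pow_succ, p0, Nat.zero_add] at hw
        exact Nat.eq_of_mul_eq_mul_left (by positivity) (hw.trans (mul_one _).symm)
      have hm : ∀ y, ν y ∈ cl ν g → ν (Th3.mul (ent g k) y) ∈ cl ν g := fun y hy => by
        rw [h.mul]; exact mul_mem (ent_mem_cl ν g hk10) hy
      obtain ⟨a1, d1⟩ := dig_digit hk10 p0 h1
      obtain ⟨a2, d2⟩ := dig_digit hk10 p0 a1
      obtain ⟨n, rfl⟩ : ∃ m, n = m + 1 + 1 := ⟨n - 2, by omega⟩
      rw [memR_succ _ hk10 h1 h2, if_neg h0]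
      by_cases h3 : Th3.mul (ent g k) x % 3 ^ (k + 1) = 0
      · exact ih' _ (mul_lt _ _) h3 (hm x hc) _ (by omega)
      rw [memR_succ _ hk10 a1 h3, if_neg h0]
      refine ih' _ (mul_lt _ _) (mod_succ_iff.2 ⟨a2, ?_⟩) (hm _ (hm x hc)) _ (by omega)
      have b1 : x / 3 ^ k % 3 ≠ 0 := fun e => h2 (mod_succ_iff.2 ⟨h1, e⟩)
      have b2 : Th3.mul (ent g k) x / 3 ^ k % 3 ≠ 0 := fun e => h3 (mod_succ_iff.2 ⟨a1, e⟩)
      rw [p1] at d1 d2
      generalize x / 3 ^ k = p, Th3.mul (ent g k) x / 3 ^ k = r at *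
      have hp : p % 3 = 1 := by omega
      rw [hp] at d1
      rw [d2, d1]
  rw [Th3.mem, force_eq]
  exact key 10 le_rfl 0 rfl _ (Nat.mod_lt _ (by norm_num)) (Nat.mod_one _)
    ((h.eq_iff x (x % 59049)).2 (Nat.mod_mod _ _).symm ▸ hx) 21 le_rfl

theorem not_mem (hg : closed g = true) {x : ℕ} (hx : Th3.mem g x = false) : ν x ∉ cl ν g := fun h' => by
  rw [h.mem_complete hg h'] at hx; exact Bool.noConfusion hx

/-- the depths of the elements are the depths of the entries -/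
theorem ent_ne_zero (hg : closed g = true) {x : Ω} (hx : x ∈ cl ν g) {d : ℕ} (hd : d < 10)
    (h1 : x ∈ G ν d) (h2 : x ∉ G ν (d + 1)) : ent g d ≠ 0 := by
  exact h.ent_ne hg hx hd h1 h2

theorem card_cl (hg : closed g = true) : Nat.card (cl ν g) = 3 ^ cnt g := by
  have key : ∀ n ≤ 10, Nat.card (cl ν g) = 3 ^ (Nat.rec 0
      (fun d ih => cnd (Nat.beq (ent g d) 0) ih (Nat.succ ih)) n : ℕ) * Nat.card (tl ν g n) := by
    intro n
    induction n with
    | zero => intro _; rw [tl_zero]; exact (one_mul _).symm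
    | succ n ih =>
      intro hn
      rw [ih (by omega)]
      change _ = 3 ^ cnd (Nat.beq (ent g n) 0) _ (Nat.succ _) * _
      rw [cnd_eq]
      split_ifs with e
      · rw [le_antisymm (h.tl_succ_of_zero (Nat.eq_of_beq_eq_true e)) (tl_anti (Nat.le_succ n))]
      · obtain ⟨a1, a2⟩ := h.ent_depth (closed_wf hg) hn (fun e' => e (by rw [e']; rfl))
        have hle := h.tl_le_G (ν := ν) (closed_wf hg) (k := n + 1)
        have : Function.Bijective fun p : Fin 3 × tl ν g (n + 1) =>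
            (⟨ν (ent g n) ^ (p.1 : ℕ) * p.2, mul_mem (pow_mem (ent_mem_tl le_rfl hn) _)
              (tl_anti (Nat.le_succ n) p.2.2)⟩ : tl ν g n) := by
          refine ⟨fun a b e => inj3 (fun e => a2 (hle e)) (fun e => h.sq_not_mem hn a1 a2 (hle e))
            (congrArg Subtype.val e), fun x => ?_⟩
          obtain ⟨e, he, c, hc, e1⟩ := h.tl_cases hg hn x.2
          exact ⟨(⟨e, he⟩, ⟨c, hc⟩), Subtype.ext e1.symm⟩
        rw [← Nat.card_eq_of_bijective _ this, Nat.card_prod, Nat.card_fin, Nat.succ_eq_add_one,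
          pow_succ, mul_assoc]
  rw [key 10 le_rfl, tl_ten, card_bot, mul_one]
  rfl

theorem allR_sound (hE : closed E = true) (hX : wf X = true) (hXE : cl ν X ≤ cl ν E) :
    ∀ k ≤ 10, ∀ r, allR E X P k r = true → ∀ y ∈ cl ν E, y ∈ G ν (10 - k) →
      ∃ x ∈ cl ν X, ∃ t, P t = true ∧ y * ν r = x * ν t := by
  intro k
  induction k with
  | zero =>
    intro _ r hr y _ hy
    rw [Nat.sub_zero, h.G_ten] at hy
    exact ⟨1, one_mem _, r, hr, by rw [mem_bot.1 hy]⟩
  | succ k ih =>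
    intro hk r hr y hy hyG
    obtain ⟨d, hd⟩ : ∃ d, d = 9 - k := ⟨_, rfl⟩
    have e1 : allR E X P (k + 1) r = force (9 - k) fun d =>
      force (ent E d) fun q => cnd (skip X q d) (allR E X P k r) (band (allR E X P k r)
        (force (Th3.mul q r) fun r1 => band (allR E X P k r1) (force (Th3.mul q r1) (allR E X P k)))) :=
      rfl
    rw [e1, force_eq, force_eq, force_eq, force_eq, ← hd, cnd_eq] at hr
    have ih' := ih (by omega)
    rw [show 10 - k = d + 1 by omega] at ih'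
    rw [show 10 - (k + 1) = d by omega] at hyG
    have hd10 : d < 10 := by omega
    by_cases h1 : y ∈ G ν (d + 1)
    · refine ih' r ?_ y hy h1
      split_ifs at hr
      · exact hr
      · exact (band_eq_true.1 hr).1
    have h0 := h.ent_ne hE hy hd10 hyG h1
    split_ifs at hr with e
    · obtain ⟨a1, a2⟩ := h.ent_depth hX hd10 ((skip_eq.1 e).resolve_left h0)
      have hx := ent_mem_cl ν X hd10
      obtain ⟨n, -, hn⟩ := h.exists_pow_mul hd10 a1 a2 hyG
      obtain ⟨x, hx', t, ht, e2⟩ := ih' r hr _ (mul_mem (pow_mem (hXE hx) n) hy) hn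
      exact ⟨_, mul_mem (inv_mem (pow_mem hx n)) hx', t, ht, by
        rw [mul_assoc, ← e2]; group⟩
    · obtain ⟨a1, a2⟩ := h.ent_depth (closed_wf hE) hd10 h0
      have hq := ent_mem_cl ν E hd10
      obtain ⟨b0, hr⟩ := band_eq_true.1 hr
      obtain ⟨b1, b2⟩ := band_eq_true.1 hr
      obtain ⟨n, hn3, hn⟩ := h.exists_pow_mul hd10 (inv_mem a1) (fun e => a2 (inv_mem_iff.1 e)) hyG
      have h2 := h.G_conj hd10 (pow_mem (h.mem (ent E d)) n) hn
      rw [inv_pow, mul_inv_cancel_left] at h2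
      obtain ⟨r', b, e2⟩ : ∃ r', allR E X P k r' = true ∧ ν r' = ν (ent E d) ^ n * ν r := by
        interval_cases n
        · exact ⟨r, b0, by rw [pow_zero, one_mul]⟩
        · exact ⟨_, b1, by rw [pow_one, h.mul]⟩
        · exact ⟨_, b2, by rw [pow_two, h.mul, h.mul, mul_assoc]⟩
      obtain ⟨x, hx', t, ht, e3⟩ := ih' r' b _ (mul_mem hy (inv_mem (pow_mem hq n))) h2
      exact ⟨x, hx', t, ht, by rw [← e3, e2]; group⟩

theorem allT_sound (hE : closed E = true) (hX : wf X = true) (hXE : cl ν X ≤ cl ν E)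
    (hP : allT E X P = true) {y : Ω} (hy : y ∈ cl ν E) :
    ∃ x ∈ cl ν X, ∃ t, P t = true ∧ y = x * ν t := by
  have := h.allR_sound hE hX hXE 10 le_rfl 0 hP y hy (h.G_zero.symm ▸ h.cl_le _ hy)
  rwa [h.zero, mul_one] at this

theorem allT1_sound (hE : closed E = true) (hX : wf X = true) (hP : allT1 E X P = true)
    {D : Subgroup Ω} (hXD : cl ν X ≤ D) (hDE : D ≤ cl ν E) (hD : ∀ t, P t = true → ν t ∉ D) :
    D ≤ cl ν X := by
  intro y hy
  refine h.inf_le_of_depths (A := D) (k := 0) (by norm_num) (fun d _ hd y hy h1 h2 => ?_) y hy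
    (h.G_zero.symm ▸ h.cl_le _ (hDE hy))
  by_cases hx : ent X d = 0
  · exfalso
    have h0 := h.ent_ne hE (hDE hy) hd h1 h2
    have h3 := allLt_sound hP (9 - d) (by omega)
    rw [force_eq, force_eq, show Nat.sub 9 (9 - d) = d by change 9 - (9 - d) = d; omega, cnd_eq,
      if_neg (fun e => (skip_eq.1 e).elim h0 fun e' => e' hx)] at h3
    obtain ⟨a1, -⟩ := h.ent_depth (closed_wf hE) hd h0
    obtain ⟨n, -, hn⟩ := h.exists_pow_mul hd h1 h2 (inv_mem a1)
    obtain ⟨x, hx', t, ht, e⟩ := h.allR_sound hE hX (hXD.trans hDE) (9 - d) (by omega) _ h3 _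
      (mul_mem (pow_mem (hDE hy) n) (inv_mem (ent_mem_cl ν E hd)))
      (by rwa [show 10 - (9 - d) = d + 1 by omega])
    rw [inv_mul_cancel_right] at e
    refine hD t ht ?_
    rw [← mul_mem_cancel_left (hXD hx'), ← e]
    exact pow_mem hy n
  · exact ⟨_, hXD (ent_mem_cl ν X hd), ent_mem_cl ν X hd, h.ent_depth hX hd hx⟩

theorem subs_sound (hQ : closed Q = true) (hX : wf X = true) {leaf : ℕ → List ℕ → ℕ → Bool}
    (hs : subs Q X leaf = true) {M : Subgroup Ω} (hXM : cl ν X ≤ M) (hMQ : M ≤ cl ν Q)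
    (hc : Nat.card (cl ν Q) = 3 * Nat.card M) :
    ∃ k L i, leaf k L i = true ∧ ∀ K : Subgroup Ω, cl ν X ≤ K →
      (∀ d < 10, k < d → ent X d = 0 → ν (ent Q d) ∈ K) → (∀ a ∈ L, ν a ∈ K) → M ≤ K := by
  haveI := h.finite
  haveI : Finite (cl ν Q) := Finite.of_injective _ (inclusion_injective (h.cl_le Q))
  obtain ⟨k, hk, hk1, hk2⟩ : ∃ k < 10, (∀ y ∈ cl ν Q, y ∈ G ν (k + 1) → y ∈ M) ∧
      ¬ ∀ y ∈ cl ν Q, y ∈ G ν k → y ∈ M := by
    by_contra hn
    push Not at hn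
    have key : ∀ j ≤ 10, ∀ i, i + j = 10 → ∀ y ∈ cl ν Q, y ∈ G ν i → y ∈ M := by
      intro j
      induction j with
      | zero =>
        rintro - i rfl y - hy
        rw [h.G_ten] at hy
        rw [mem_bot.1 hy]; exact one_mem _
      | succ j ih => exact fun hj i hi => hn i (by omega) (ih (by omega) (i + 1) (by omega))
    have hle : cl ν Q ≤ M := fun y hy => key 10 le_rfl 0 rfl y hy (h.G_zero.symm ▸ h.cl_le _ hy)
    rw [le_antisymm hle hMQ] at hc
    haveI : Finite M := Finite.of_injective _ (inclusion_injective hMQ)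
    have : 0 < Nat.card M := Nat.card_pos
    omega
  have hno : ∀ z ∈ M, z ∈ G ν k → z ∈ G ν (k + 1) := fun z hz h1 => by
    by_contra h2
    refine hk2 fun y hy hyk => ?_
    obtain ⟨n, -, hn⟩ := h.exists_pow_mul hk h1 h2 hyk
    have := hk1 _ (mul_mem (pow_mem (hMQ hz) n) hy) hn
    rwa [mul_mem_cancel_left (pow_mem hz n)] at this
  have h0 : ent Q k ≠ 0 := by
    push Not at hk2
    obtain ⟨y, hy, h1, h2⟩ := hk2
    exact h.ent_ne hQ hy hk h1 fun h3 => h2 (hk1 y hy h3)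
  obtain ⟨a1, a2⟩ := h.ent_depth (closed_wf hQ) hk h0
  have hXk : ent X k = 0 := by
    by_contra hx
    obtain ⟨b1, b2⟩ := h.ent_depth hX hk hx
    exact b2 (hno _ (hXM (ent_mem_cl ν X hk)) b1)
  have hq := ent_mem_cl ν Q hk
  have cover : ∀ y ∈ cl ν Q, ∃ e < 3, y * ν (ent Q k) ^ e ∈ M := by
    have hinj : Function.Injective fun p : Fin 3 × M =>
        (⟨ν (ent Q k) ^ (p.1 : ℕ) * p.2, mul_mem (pow_mem hq _) (hMQ p.2.2)⟩ : cl ν Q) :=
      fun a b e => inj3 (fun e => a2 (hno _ e a1))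
        (fun e => h.sq_not_mem hk a1 a2 (hno _ e (pow_mem a1 2))) (congrArg Subtype.val e)
    have hbij := (Nat.bijective_iff_injective_and_card _).2
      ⟨hinj, by rw [Nat.card_prod, Nat.card_fin, hc]⟩
    intro y hy
    obtain ⟨⟨e, m⟩, he⟩ := hbij.2 ⟨y⁻¹, inv_mem hy⟩
    have he' : ν (ent Q k) ^ (e : ℕ) * m = y⁻¹ := congrArg Subtype.val he
    refine ⟨e, e.2, ?_⟩
    rw [← inv_inv y, ← he', mul_inv_rev, inv_mul_cancel_right]
    exact inv_mem m.2
  have key : ∀ n ≤ k, ∀ L i, subR Q X (ent Q k) (leaf k) n L i = true → (∀ a ∈ L, ν a ∈ M) →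
      ∃ L' i', leaf k L' i' = true ∧ (∀ a ∈ L', ν a ∈ M) ∧ (∀ a ∈ L, a ∈ L') ∧
        ∀ d < n, ent Q d ≠ 0 → ent X d = 0 → ∃ a ∈ L', ν a ∈ G ν d ∧ ν a ∉ G ν (d + 1) := by
    intro n
    induction n with
    | zero => exact fun _ L i hl hL => ⟨L, i, hl, hL, fun _ ha => ha, fun _ hd => absurd hd (by omega)⟩
    | succ n ih =>
      intro hn L i hl hL
      have e1 : subR Q X (ent Q k) (leaf k) (n + 1) L i = force (ent Q n) fun a =>
        cnd (skip X a n) (subR Q X (ent Q k) (leaf k) n L i) (force (Nat.mul 3 i) fun j =>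
          band (subR Q X (ent Q k) (leaf k) n (a :: L) (Nat.add j 1))
          (force (Th3.mul a (ent Q k)) fun h1 => band (subR Q X (ent Q k) (leaf k) n (h1 :: L) (Nat.add j 2))
            (force (Th3.mul h1 (ent Q k)) fun h2 =>
              subR Q X (ent Q k) (leaf k) n (h2 :: L) (Nat.add j 3)))) := rfl
      rw [e1, force_eq, force_eq, force_eq, force_eq, cnd_eq] at hl
      have hn10 : n < 10 := by omega
      split_ifs at hl with e
      · obtain ⟨L', i', c1, c2, c3, c4⟩ := ih (by omega) L i hl hL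
        refine ⟨L', i', c1, c2, c3, fun d hd d1 d2 => ?_⟩
        rcases Nat.lt_succ_iff_lt_or_eq.1 hd with hd | rfl
        · exact c4 d hd d1 d2
        · exact ((skip_eq.1 e).elim d1 fun e' => e' d2).elim
      · have hn0 : ent Q n ≠ 0 := fun e' => e (skip_eq.2 (Or.inl e'))
        obtain ⟨b1, b2⟩ := h.ent_depth (closed_wf hQ) hn10 hn0
        obtain ⟨c0, hl⟩ := band_eq_true.1 hl
        obtain ⟨c1, c2⟩ := band_eq_true.1 hl
        obtain ⟨m, hm3, hm⟩ := cover _ (ent_mem_cl ν Q hn10)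
        obtain ⟨a, j, c, ea⟩ : ∃ a j, subR Q X (ent Q k) (leaf k) n (a :: L) j = true ∧
            ν a = ν (ent Q n) * ν (ent Q k) ^ m := by
          interval_cases m
          · exact ⟨_, _, c0, by rw [pow_zero, mul_one]⟩
          · exact ⟨_, _, c1, by rw [pow_one, h.mul]⟩
          · exact ⟨_, _, c2, by rw [pow_two, h.mul, h.mul, mul_assoc]⟩
        obtain ⟨L', i', d1, d2, d3, d4⟩ := ih (by omega) (a :: L) j c
          (List.forall_mem_cons.2 ⟨ea ▸ hm, hL⟩)
        refine ⟨L', i', d1, d2, fun x hx => d3 x (List.mem_cons_of_mem _ hx), fun d hd f1 f2 => ?_⟩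
        rcases Nat.lt_succ_iff_lt_or_eq.1 hd with hd | rfl
        · exact d4 d hd f1 f2
        · have hp := pow_mem (h.G_anti hn hk.le a1) m
          refine ⟨a, d3 a List.mem_cons_self, ?_, ?_⟩
          · rw [ea]; exact mul_mem b1 (h.G_anti (Nat.le_succ d) hn10 hp)
          · rwa [ea, mul_mem_cancel_right hp]
  have h3 := allLt_sound hs k hk
  rw [force_eq, cnd_eq, if_neg (fun e => (skip_eq.1 e).elim h0 fun e' => e' hXk)] at h3
  obtain ⟨L, i, c1, c2, -, c4⟩ := key k le_rfl [] 0 h3 (fun _ ha => absurd ha List.not_mem_nil)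
  refine ⟨k, L, i, c1, fun K hXK hK hL y hy => ?_⟩
  refine h.inf_le_of_depths (A := M) (k := 0) (by norm_num) (fun d _ hd y hy h1 h2 => ?_) y hy
    (h.G_zero.symm ▸ h.cl_le _ (hMQ hy))
  have hd0 := h.ent_ne hQ (hMQ hy) hd h1 h2
  by_cases hx : ent X d = 0
  · rcases lt_trichotomy d k with l | rfl | l
    · obtain ⟨a, ha, b⟩ := c4 d l hd0 hx
      exact ⟨_, c2 a ha, hL a ha, b⟩
    · exact absurd (hno y hy h1) h2
    · obtain ⟨b1, b2⟩ := h.ent_depth (closed_wf hQ) hd hd0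
      exact ⟨_, hk1 _ (ent_mem_cl ν Q hd) (h.G_anti l hd.le b1), hK d hd l hx, b1, b2⟩
  · exact ⟨_, hXM (ent_mem_cl ν X hd), hXK (ent_mem_cl ν X hd), h.ent_depth hX hd hx⟩

end Mod

end CfsgLib.Th3
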