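import Cfsg.Agent.Lib.Th3.Qb
import Cfsg.Agent.Lib.Th3.Sift
import Cfsg.Agent.Lib.PGroup.Basic

/-! Package QC: the two quadratic configurations in the model. -/

set_option autoImplicit false
set_option maxRecDepth 100000
set_option linter.unusedSectionVars false

namespace CfsgLib.Th3

open Subgroup Cfsg Cfsg.FusionSystem CfsgLib.Comput CfsgLib.Fusion CfsgLib.ExSp4

variable {Ω : Type*} [Group Ω] {S : Subgroup Ω} {ν : ℕ → Ω}

/-- the entries of `A` lie in `B` -/
noncomputable def qcLe (A B : ℕ) : Bool := allE A (mem B)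

/-- conjugation by `t` maps the entries of `B` into `B` -/
noncomputable def qcNr (B t : ℕ) : Bool := force (inv t) fun ti => allE B fun b => mem B (cj t ti b)

/-- the commutators of the entries of `A`, `B` lie in `K` -/
noncomputable def qcCm (A B K : ℕ) : Bool := allE A fun a => allE B fun b => mem K (cm a b)

/-- freeness on transversals -/
noncomputable def qcFr (E R K C : ℕ) : Bool := allT R E fun t => cnd (mem E t) true
  (force (inv t) fun ti => allT E C fun w => cnd (mem C w) true (cnd (mem K (cm w ti)) false true))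

/-- the two codes commute -/
noncomputable def qcCt (a b : ℕ) : Bool := Nat.beq (Nat.mod (mul a b) 59049) (Nat.mod (mul b a) 59049)

theorem qc_allLt {p : ℕ → Bool} {n : ℕ} (h : ∀ i < n, p i = true) : allLt p n = true := by
  induction n with
  | zero => rfl
  | succ n ih => exact band_eq_true.2 ⟨h n (Nat.lt_succ_self n), ih fun i hi => h i (by omega)⟩

theorem qc_allE {g : ℕ} {P : ℕ → Bool} (h : ∀ d < 10, P (ent g d) = true) : allE g P = true :=
  qc_allLt fun d hd => by rw [force_eq, cnd_eq, h d hd, ite_self]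

namespace Mod

variable (h : Mod S ν) {A B K E R C : ℕ}
include h

theorem qc_le (hc : qcLe A B = true) : cl ν A ≤ cl ν B :=
  h.cl_le_of_allE hc fun _ => h.mem_sound

theorem qc_norm (hc : allE A (qcNr B) = true) : cl ν A ≤ normalizer (cl ν B : Set Ω) := by
  have := h.finite
  have : Finite (cl ν B : Set Ω) := Finite.Set.subset (S : Set Ω) (h.cl_le B)
  refine h.cl_le_of_allE hc fun a ha => mem_normalizer_fintype (h.conj_cl fun d hd => ?_)
  rw [qcNr, force_eq] at ha
  rcases allE_sound ha d hd with e | e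
  · rw [e, h.zero, mul_one, mul_inv_cancel]; exact one_mem _
  · rw [← h.cj]; exact h.mem_sound e

theorem qc_cm (hA : cl ν A ≤ normalizer (cl ν K : Set Ω)) (hB : cl ν B ≤ normalizer (cl ν K : Set Ω))
    (hc : qcCm A B K = true) : ∀ s ∈ cl ν B, ∀ x ∈ cl ν A, x⁻¹ * (s * x * s⁻¹) ∈ cl ν K := by
  intro s hs x hx
  have := h.cm_cl (fun x hx k hk => (mem_normalizer_iff''.1 (hA hx) k).1 hk)
    (fun x hx k hk => (mem_normalizer_iff''.1 (hB hx) k).1 hk) (fun d hd d' hd' => by
      rcases allE_sound hc d hd with e | e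
      · rw [h.cm, e, h.zero]; simp
      rcases allE_sound e d' hd' with e | e
      · rw [h.cm, e, h.zero]; simp
      · exact h.mem_sound e) x hx s⁻¹ (inv_mem hs)
  simpa [mul_assoc] using this

theorem qc_data (cE : closed E = true) (cR : closed R = true) (cK : closed K = true)
    (cC : closed C = true) (KC : qcLe K C = true) (CE : qcLe C E = true) (ER : qcLe E R = true)
    (nK : allE R (qcNr K) = true) (nC : allE R (qcNr C) = true) (nE : allE R (qcNr E) = true)
    (c1 : qcCm E E K = true) (c2 : qcCm E R C = true) (c3 : qcCm C R K = true)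
    (hK : cl ν K ≤ ⁅cl ν E, cl ν E⁆) (hp : allT E K (fun t => Th3.mem K (Th3.cube t)) = true)
    (k1 : cnt E = 5 + cnt K) (k2 : cnt C = 3 + cnt K) (k3 : cnt R = 2 + cnt E)
    (hn : allT1 (aG 0) R (fun t => cnd (qcNr E t) false true) = true) (hf : qcFr E R K C = true) :
    QData S (cl ν E) (cl ν R) (cl ν K) (cl ν C) := by
  have KC := h.qc_le KC
  have CE := h.qc_le CE
  have ER := h.qc_le ER
  have nK := h.qc_norm nK
  have nC := h.qc_norm nC
  have nE := h.qc_norm nE
  have c1 := h.qc_cm (ER.trans nK) (ER.trans nK) c1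
  have c3 := h.qc_cm (CE.trans (ER.trans nK)) nK c3
  have cK' : ∀ x ∈ cl ν R, ∀ k ∈ cl ν K, x * k * x⁻¹ ∈ cl ν K := fun x hx k hk =>
    (mem_normalizer_iff.1 (nK hx) k).1 hk
  refine ⟨h.cl_le E, KC, CE, le_antisymm (commutator_le.2 fun x hx y hy => ?_) hK, fun x hx => ?_,
    ?_, ?_, le_antisymm ?_ (le_inf (h.cl_le R) nE), ?_, h.qc_cm (ER.trans nC) nC c2, c3,
    fun s hs x hx hk => ?_⟩
  · have := c1 y hy x⁻¹ (inv_mem hx)
    simpa [commutatorElement_def, mul_assoc] using this
  · obtain ⟨k, hk, t, ht, rfl⟩ := h.allT_sound cE (closed_wf cK) (KC.trans CE) hp hx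
    have h1 : ν t ∈ cl ν R := ER ((mul_mem_cancel_left (CE (KC hk))).1 hx)
    have h2 := h.mem_sound ht
    rw [h.cube] at h2
    rw [show (k * ν t) ^ 3 = k * (ν t * k * (ν t)⁻¹) * (ν t * (ν t * k * (ν t)⁻¹) * (ν t)⁻¹) * ν t ^ 3 by
      simp only [pow_succ]; group]
    exact mul_mem (mul_mem (mul_mem hk (cK' _ h1 _ hk)) (cK' _ h1 _ (cK' _ h1 _ hk))) h2
  · rw [h.card_cl cE, h.card_cl cK, k1, pow_add]; rfl
  · rw [h.card_cl cC, h.card_cl cK, k2, pow_add]; rfl
  · refine h.allT1_sound (by decide +kernel) (closed_wf cR) hn (le_inf (h.cl_le R) nE)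
      (inf_le_left.trans h.G_zero.ge) fun t ht hD => ?_
    have h1 : qcNr E t = true := by
      rw [qcNr, force_eq]
      refine qc_allE fun d hd => h.mem_complete cE ?_
      rw [h.cj]
      exact (mem_normalizer_iff.1 hD.2 _).1 (ent_mem_cl ν E hd)
    rw [h1] at ht
    exact Bool.noConfusion ht
  · rw [h.card_cl cR, h.card_cl cE, k3, pow_add]; rfl
  · obtain ⟨e, he, t, ht, rfl⟩ := h.allT_sound cR (closed_wf cE) ER hf hs
    have h1 : ν t ∈ cl ν R := (mul_mem_cancel_left (ER he)).1 hs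
    rw [cnd_eq] at ht
    split_ifs at ht with h2
    · exact .inl (mul_mem he (h.mem_sound h2))
    rw [force_eq] at ht
    obtain ⟨c, hc, w, hw, rfl⟩ := h.allT_sound cE (closed_wf cC) CE ht hx
    have h3 : ν w ∈ cl ν E := (mul_mem_cancel_left (CE hc)).1 hx
    rw [cnd_eq] at hw
    split_ifs at hw with h4
    · exact .inr (mul_mem hc (h.mem_sound h4))
    have h5 : ν (Th3.cm w (Th3.inv t)) ∈ cl ν K := by
      have k1 := cK' _ (inv_mem (ER h3)) _ (c3 _ h1 c hc)
      have k2 := c1 e he _ ((mem_normalizer_iff.1 (nE h1) _).1 hx)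
      have k3 := mul_mem (mul_mem (inv_mem k1) hk) (inv_mem k2)
      rw [h.cm, h.inv]
      convert k3 using 1
      group
    rw [h.mem_complete cK h5] at hw
    exact Bool.noConfusion hw

end Mod

theorem qd3 (h : Mod S ν) : QData S (E3 ν) (R3 ν) ⊥ (C3 ν) := by
  rw [← h.cl_zero]
  exact h.qc_data (by decide +kernel) (by decide +kernel) (by decide +kernel) (by decide +kernel)
    (by decide +kernel) (by decide +kernel) (by decide +kernel) (by decide +kernel)
    (by decide +kernel) (by decide +kernel) (by decide +kernel) (by decide +kernel)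
    (by decide +kernel) (h.cl_zero.le.trans bot_le) (by decide +kernel) (by decide +kernel)
    (by decide +kernel) (by decide +kernel) (by decide +kernel) (by decide +kernel)

theorem qd98 (h : Mod S ν) : QData S (R3 ν) (G ν 1) (G ν 8) (G ν 5) := by
  have key : ∀ a b, Th3.mem aR3 a = true → Th3.mem aR3 b = true →
      ν (cm (inv a) (inv b)) ∈ ⁅R3 ν, R3 ν⁆ := fun a b ha hb => by
    rw [h.cmM]
    exact commutator_mem_commutator (h.mem_sound ha) (h.mem_sound hb)
  refine h.qc_data (by decide +kernel) (by decide +kernel) (by decide +kernel) (by decide +kernel)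
    (by decide +kernel) (by decide +kernel) (by decide +kernel) (by decide +kernel)
    (by decide +kernel) (by decide +kernel) (by decide +kernel) (by decide +kernel)
    (by decide +kernel) (h.le_of_depths (by norm_num) fun d h1 h2 => ?_) (by decide +kernel)
    (by decide +kernel) (by decide +kernel) (by decide +kernel) (by decide +kernel)
    (by decide +kernel)
  interval_cases d
  · exact ⟨_, key 2187 84 (by decide +kernel) (by decide +kernel), (h.mem_G (by norm_num)).2
      (by decide +kernel), (h.mem_G (by norm_num)).not.2 (by decide +kernel)⟩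
  · exact ⟨_, key 2187 144 (by decide +kernel) (by decide +kernel), (h.mem_G (by norm_num)).2
      (by decide +kernel), (h.mem_G (by norm_num)).not.2 (by decide +kernel)⟩

theorem E3_comm (h : Mod S ν) : ∀ s ∈ R3 ν, ∀ x ∈ E3 ν, x⁻¹ * (s * x * s⁻¹) ∈ G ν 8 :=
  h.qc_cm ((h.cl_le _).trans (h.G_norm (by norm_num))) ((h.cl_le _).trans (h.G_norm (by norm_num)))
    (by decide +kernel)

theorem E3_le_R3 (h : Mod S ν) : E3 ν ≤ R3 ν := h.qc_le (by decide +kernel)

theorem R3_le_G1 (h : Mod S ν) : R3 ν ≤ G ν 1 := h.qc_le (by decide +kernel)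

theorem C3_le_G5 (h : Mod S ν) : C3 ν ≤ G ν 5 := h.qc_le (by decide +kernel)

theorem G8_le_E3 (h : Mod S ν) : G ν 8 ≤ E3 ν := h.qc_le (by decide +kernel)

theorem card_E3 (h : Mod S ν) : Nat.card (E3 ν) = 243 :=
  (h.card_cl (g := aE3) (by decide +kernel)).trans (by decide +kernel)

theorem card_R3 (h : Mod S ν) : Nat.card (R3 ν) = 2187 :=
  (h.card_cl (g := aR3) (by decide +kernel)).trans (by decide +kernel)

theorem qc_center : allT1 (aG 0) (aG 9)
    (fun t => cnd (qcCt t 1) (cnd (qcCt t 3) (cnd (qcCt t 9) false true) true) true) = true := by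
  decide +kernel

/-- a nontrivial normal subgroup contains the centre -/
theorem G9_le (h : Mod S ν) {T : Subgroup Ω} (hS : T ≤ S) (hn : ∀ s ∈ S, ∀ x ∈ T, s * x * s⁻¹ ∈ T)
    (h1 : T ≠ ⊥) : G ν 9 ≤ T := by
  have := h.finite
  have : Fact (Nat.Prime 3) := ⟨Nat.prime_three⟩
  have hZ : S ⊓ centralizer (S : Set Ω) ≤ G ν 9 := by
    refine h.allT1_sound (by decide +kernel) (by decide +kernel) qc_center
      (le_inf (h.cl_le _) fun x hx s hs => ?_) (inf_le_left.trans h.G_zero.ge) fun t ht hD => ?_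
    · have h2 := h.G_step (by norm_num) hs hx
      rw [h.G_ten, mem_bot, inv_mul_eq_one, eq_mul_inv_iff_mul_eq] at h2
      exact h2.symm
    · have h2 : ∀ b, qcCt t b = true := fun b =>
        Nat.beq_eq.mpr ((h.eq_iff _ _).1 (by rw [h.mul, h.mul]; exact (hD.2 _ (h.mem b)).symm))
      rw [h2, h2, h2] at ht
      exact Bool.noConfusion ht
  have hN : (T.subgroupOf S).Normal := ⟨fun x hx s => hn s s.2 x hx⟩
  obtain ⟨z, hz, hc, ho⟩ := PGroup.exists_mem_center_orderOf_eq h.isPGroup (T.subgroupOf S)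
    (by rwa [Ne, subgroupOf_eq_bot, disjoint_iff, inf_eq_left.2 hS])
  have h2 : (z : Ω) ∈ G ν 9 := hZ ⟨z.2, fun s hs => congrArg Subtype.val (mem_center_iff.1 hc ⟨s, hs⟩)⟩
  refine h.le_of_depths (by norm_num) fun d h3 h4 => ?_
  obtain rfl : d = 9 := by omega
  refine ⟨z, hz, h2, fun e => ?_⟩
  rw [h.G_ten, mem_bot, OneMemClass.coe_eq_one] at e
  simp [e] at ho

theorem no98 [Finite S] (h : Mod S ν) {F : FusionSystem S} (hF : F.IsSaturated 3) :
    ¬ F.IsEssential 3 (R3 ν) := fun hE => by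
  obtain ⟨A, h1, h2, h3, h4⟩ := (qd98 h).small h.isPGroup hF hE
  have key : ∀ s x, Th3.mem (aG 1) s = true → Th3.mem aR3 x = true → ν (cm x (inv s)) ∈ A :=
    fun s x hs hx => by
      have := h4 _ (h.mem_sound hs) _ (h.mem_sound hx)
      rw [h.cm, h.inv]
      simpa [mul_assoc] using this
  have h5 : G ν 5 ≤ A := h.le_of_depths (by norm_num) fun d k1 k2 => by
    interval_cases d
    · exact ⟨_, key 27 84 (by decide +kernel) (by decide +kernel), (h.mem_G (by norm_num)).2
        (by decide +kernel), (h.mem_G (by norm_num)).not.2 (by decide +kernel)⟩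
    · exact ⟨_, key 81 84 (by decide +kernel) (by decide +kernel), (h.mem_G (by norm_num)).2
        (by decide +kernel), (h.mem_G (by norm_num)).not.2 (by decide +kernel)⟩
    · exact ⟨_, key 81 144 (by decide +kernel) (by decide +kernel), (h.mem_G (by norm_num)).2
        (by decide +kernel), (h.mem_G (by norm_num)).not.2 (by decide +kernel)⟩
    · exact ⟨ν 6561, h1 ((h.mem_G (by norm_num)).2 (by norm_num)), (h.mem_G (by norm_num)).2
        (by norm_num), (h.mem_G (by norm_num)).not.2 (by norm_num)⟩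
    · exact ⟨ν 19683, h1 ((h.mem_G (by norm_num)).2 (by norm_num)), (h.mem_G (by norm_num)).2
        (by norm_num), (h.mem_G (by norm_num)).not.2 (by norm_num)⟩
  have : Finite A := Finite.Set.subset (S : Set Ω) (h2.trans (h.cl_le _))
  have h6 := Subgroup.card_le_of_le h5
  rw [h.card_G (by norm_num)] at h3 h6
  omega

/-- an automorphism of `R3` acting on `Z₂(S)` with order `8` -/
theorem torus3 [Finite S] (h : Mod S ν) {F : FusionSystem S} (hF : F.IsSaturated 3)
    (hE : F.IsEssential 3 (E3 ν)) {T : Subgroup Ω} {𝓔 : FusionSystem T} (hI : 𝓔.IsInvariantIn F)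
    (h𝓔 : 𝓔.IsSaturated 3) (hR : R3 ν ≤ T) :
    ∃ f, Au 𝓔 (R3 ν) f ∧ f (ν 6561) = ν 26244 ∧ f (ν 19683) = ν 32805 := by
  have : Fact (Nat.Prime 3) := ⟨Nat.prime_three⟩
  have D := qd3 h
  obtain ⟨f, hf, f1, f2⟩ := D.torus h.isPGroup hF hE rfl hI hR (s₁ := ν 2916) (s₂ := ν 729)
    (h.mem_sound (by decide +kernel)) (h.not_mem (by decide +kernel) (by decide +kernel))
    (h.mem_sound (by decide +kernel)) (h.not_mem (by decide +kernel) (by decide +kernel))
  have hTS : T ≤ S := le_of_isSubsystemOf (inv_sub hI)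
  have : Finite T := Finite.Set.subset (S : Set Ω) hTS
  have hc : 𝓔.IsCentric (E3 ν) := ⟨(E3_le_R3 h).trans hR, fun Q hQ =>
    (inf_le_inf_right _ hTS).trans (hE.1.2 Q (isConj_sub (inv_sub hI) hQ))⟩
  obtain ⟨g, hg, e⟩ := sat_extend_centric (h.isPGroup.to_le hTS) h𝓔 hc hf.1
  have hN : R3 ν ≤ Nf T (E3 ν) f := fun s hs => by
    obtain ⟨s', hs', e'⟩ := f1 s hs
    exact ⟨hR hs, (D.norm.ge hs).2, s', hR hs', e'⟩
  have hg' := hg.mono hN
  have val : ∀ x a b, Th3.mem aE3 x = true → cm x (inv 2916) = a → cm x (inv 729) = b →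
      g (ν a) = ν b := fun x a b hx ha hb => by
    have h1 := h.mem_sound hx
    have h2 : ∀ s, ν (cm x (inv s)) = (ν x)⁻¹ * (ν s * ν x * (ν s)⁻¹) := fun s => by
      rw [h.cm, h.inv]; group
    rw [← ha, ← hb, h2, h2, e _ (D.CE (D.sub _ (h.mem_sound (by decide +kernel)) _ h1)), f2 _ h1]
  refine ⟨g, ⟨hg', fun s hs => D.norm.le ⟨hTS (hg'.mem hs), ?_⟩⟩,
    val 4518 _ _ (by decide +kernel) (by decide +kernel) (by decide +kernel),
    val 4458 _ _ (by decide +kernel) (by decide +kernel) (by decide +kernel)⟩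
  have : Finite (E3 ν : Set Ω) := Finite.Set.subset (S : Set Ω) D.ES
  refine mem_normalizer_fintype fun y hy => ?_
  obtain ⟨k, hk, -, e2⟩ := hf.exists_inv
  have h1 := hk.2 y hy
  have h2 := (mem_normalizer_iff.1 (D.norm.ge hs).2 _).1 h1
  rw [← e2 y hy, ← e _ h1, ← hg'.map_conj hs (E3_le_R3 h h1), e _ h2]
  exact hf.2 _ h2

end CfsgLib.Th3
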