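import Cfsg.Agent.Lib.Th3.Defs

/-! Package QD: quadratic modules of order `3 ^ 5`. -/

set_option autoImplicit false
set_option maxRecDepth 100000
set_option linter.unusedSectionVars false

namespace CfsgLib.Th3

open Subgroup Cfsg Cfsg.FusionSystem CfsgLib.Comput CfsgLib.Fusion CfsgLib.ExSp4
open scoped Pointwise

variable {H W : Type*} [Group H] [AddCommGroup W] [DistribMulAction H W] [Finite H] [Finite W]
  [FaithfulSMul H W] {T : Subgroup H} {C : AddSubgroup W}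

theorem qd_card (A B : AddSubgroup W) :
    Nat.card (A ⊔ B : AddSubgroup W) * Nat.card (A ⊓ B : AddSubgroup W) = Nat.card A * Nat.card B := by
  have h1 := AddSubgroup.relIndex_mul_relIndex ⊥ A (A ⊔ B) bot_le le_sup_left
  have h2 := AddSubgroup.relIndex_mul_relIndex ⊥ (A ⊓ B) B bot_le inf_le_right
  simp only [AddSubgroup.relIndex_bot_left] at h1 h2
  rw [AddSubgroup.relIndex_sup_left] at h1
  rw [AddSubgroup.inf_relIndex_right] at h2
  rw [← h1, ← h2]; ring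

/-- two conjugate quadratic configurations with an intersection of maximal order -/
structure QP (T T' : Subgroup H) (C C' : AddSubgroup W) : Prop where
  three : ∀ v : W, 3 • v = 0
  cardW : Nat.card W = 243
  cardC : Nat.card C = 27
  cardC' : Nat.card C' = 27
  cardT : 9 ≤ Nat.card T
  cardT' : 9 ≤ Nat.card T'
  sub : ∀ t ∈ T, ∀ v, t • v - v ∈ C
  sub' : ∀ t ∈ T', ∀ v, t • v - v ∈ C'
  fix : ∀ t ∈ T, ∀ c ∈ C, t • c = c
  fix' : ∀ t ∈ T', ∀ c ∈ C', t • c = c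
  ne : C ≠ C'
  key : ∀ t ∈ T, ∀ e ∈ C', e ∉ C → t • e - e ∈ C' → t = 1
  key' : ∀ t ∈ T', ∀ e ∈ C, e ∉ C' → t • e - e ∈ C → t = 1
  eqn : ∀ h k : H, C ⊓ C' ≤ h • C → C ⊓ C' ≤ k • C' → ∀ e ∈ h • C, e ∈ k • C' → e ∉ C ⊓ C' → h • C = k • C'

theorem Quad.ti (Q : Quad T C) : TI 3 T C := by
  refine ⟨Q.syl, Q.fix, Q.free, fun g hg => ?_⟩
  rw [← flag_eq Q.syl le_rfl (fun v _ => Q.three v) fun t ht => ⟨Q.fix t ht, fun v _ => Q.sub t ht v,
    sm_eq_of_mem fun v hv => by rw [Q.fix t ht v hv]; exact hv, Q.sub t ht⟩]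
  exact mem_normalizer_flag hg hg

theorem Quad.exists_qp (Q : Quad T C) : ∃ (g : H) (C' : AddSubgroup W),
    QP T (T.map (MulAut.conj g).toMonoidHom) C C' := by
  have : Fact (Nat.Prime 3) := ⟨Nat.prime_three⟩
  obtain ⟨g0, c, hc, hgc⟩ := Q.move
  obtain ⟨g, hg, M⟩ := exists_maxI (g := g0) (Z := C) fun e => hgc (mem_of_sm_eq e hc)
  refine ⟨g, g • C, Q.three, Q.cardW, Q.cardC, by rw [card_sm, Q.cardC], Q.cardT,
    by rw [card_map_of_injective (MulAut.conj g).injective]; exact Q.cardT, Q.sub, ?_, Q.fix, ?_, hg.symm,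
    fun t ht e he he' hd => Q.ti.key M hg ht he he' ⟨Q.sub t ht e, hd⟩, ?_, fun h k h1 h2 e e1 e2 he => ?_⟩
  · rintro _ ⟨t, ht, rfl⟩ v
    have := Q.sub t ht (g⁻¹ • v)
    simpa [mem_sm, smul_sub, mul_smul] using this
  · rintro _ ⟨t, ht, rfl⟩ v hv
    simp [mul_smul, Q.fix t ht _ (mem_sm.1 hv)]
  · rintro _ ⟨t, ht, rfl⟩ e he he' hd
    have M' : MaxI H C (Nat.card (C ⊓ g⁻¹ • C : AddSubgroup W)) := by
      rwa [← card_sm g, sm_inf, smul_inv_smul, inf_comm]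
    have := Q.ti.key M' (fun e => hg (by rw [inv_smul_eq_iff] at e; exact e.symm)) ht (e := g⁻¹ • e)
      (sm_mem_sm.2 he) (fun h => he' (mem_sm.2 h)) ⟨Q.sub t ht _, mem_sm.2 (by
        simpa [smul_sub, mul_smul] using hd)⟩
    simp [this]
  · rw [← mul_smul] at h2 e2 ⊢
    exact M.eq rfl h1 h2 e1 e2 he

namespace QP

variable {T' : Subgroup H} {C' : AddSubgroup W} (P : QP T T' C C')
include P

theorem symm : QP T' T C' C :=
  ⟨P.three, P.cardW, P.cardC', P.cardC, P.cardT', P.cardT, P.sub', P.sub, P.fix', P.fix, P.ne.symm, P.key', P.key,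
    fun h k h1 h2 e e1 e2 he => by
      rw [inf_comm] at h1 h2 he
      exact (P.eqn k h h2 h1 e e2 e1 he).symm⟩

theorem ex : ∃ e ∈ C', e ∉ C := exists_not_mem (P.cardC'.trans P.cardC.symm) P.ne.symm

theorem eq_of {s t : H} (hs : s ∈ T) (ht : t ∈ T) {e : W} (he : e ∈ C') (he' : e ∉ C)
    (h : t • e - s • e ∈ C ⊓ C') : s = t := by
  refine inv_mul_eq_one.1 (P.key _ (mul_mem (inv_mem hs) ht) e he he' ?_)
  have := P.fix _ (inv_mem hs) _ h.1
  rw [smul_sub, inv_smul_smul, ← mul_smul] at this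
  rw [this]; exact h.2

theorem inj {e : W} (he : e ∈ C') (he' : e ∉ C) : Function.Injective fun x : T × (C ⊓ C' : AddSubgroup W) =>
    (⟨x.1.1 • e - e + x.2.1, C.add_mem (P.sub _ x.1.2 e) x.2.2.1⟩ : C) := by
  rintro ⟨⟨t, ht⟩, ⟨d, hd⟩⟩ ⟨⟨s, hs⟩, ⟨d', hd'⟩⟩ h
  have h1 : t • e - e + d = s • e - e + d' := congrArg Subtype.val h
  obtain rfl : s = t := P.eq_of hs ht he he' (by
    have : t • e - s • e = d' - d := by linear_combination (norm := abel1) h1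
    rw [this]; exact sub_mem hd' hd)
  obtain rfl : d = d' := add_left_cancel h1
  rfl

theorem cards : Nat.card (C ⊓ C' : AddSubgroup W) = 3 ∧ Nat.card T = 9 ∧ C ⊔ C' = ⊤ := by
  obtain ⟨e, he, he'⟩ := P.ex
  have h1 := Nat.card_le_card_of_injective _ (P.inj he he')
  rw [Nat.card_prod, P.cardC] at h1
  have h2 := qd_card C C'
  rw [P.cardC, P.cardC'] at h2
  have h3 := AddSubgroup.card_le_card_addGroup (C ⊔ C')
  rw [P.cardW] at h3
  have h4 := P.cardT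
  have h5 : Nat.card (C ⊓ C' : AddSubgroup W) = 3 := by nlinarith
  rw [h5] at h1 h2
  exact ⟨h5, by omega, AddSubgroup.eq_top_of_card_eq _ (by rw [P.cardW]; omega)⟩

theorem dec (v : W) : ∃ c ∈ C, ∃ e ∈ C', c + e = v :=
  AddSubgroup.mem_sup.1 (by rw [P.cards.2.2]; trivial)

theorem onto {e : W} (he : e ∈ C') (he' : e ∉ C) {c : W} (hc : c ∈ C) : ∃ t ∈ T, t • e - e - c ∈ C' := by
  obtain ⟨⟨⟨t, ht⟩, ⟨d, hd⟩⟩, h⟩ := ((P.inj he he').bijective_of_nat_card_le (by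
    rw [Nat.card_prod, P.cardC, P.cards.1, P.cards.2.1])).2 ⟨c, hc⟩
  have h1 : t • e - e + d = c := congrArg Subtype.val h
  refine ⟨t, ht, ?_⟩
  rw [← h1, sub_add_cancel_left]; exact neg_mem hd.2

theorem partner {t : H} (ht : t ∈ T) (h1 : t ≠ 1) : ∃ t' ∈ T', t' • C = t • C' := by
  obtain ⟨e, he, he'⟩ := P.ex
  have hc := P.sub t ht e
  obtain ⟨t', ht', h⟩ := P.symm.onto hc (fun h => h1 (P.key t ht e he he' h)) he
  have h' := C'.sub_mem (P.sub' t' ht' (t • e - e)) he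
  refine ⟨t', ht', P.eqn t' t (fun d hd => ?_) (fun d hd => ?_) (t • e) ?_ (sm_mem_sm.2 he) fun h => he' ?_⟩
  · rw [← P.fix' t' ht' d hd.2]; exact sm_mem_sm.2 hd.1
  · rw [← P.fix t ht d hd.1]; exact sm_mem_sm.2 hd.2
  · have h2 : t • e = t' • (t • e - e - (t' • (t • e - e) - (t • e - e) - e)) := by
      rw [smul_sub _ (t • e - e), P.fix' t' ht' _ h']; abel
    rw [h2]; exact sm_mem_sm.2 (C.sub_mem hc h)
  · simpa using C.sub_mem h.1 hc

theorem rel {t t' : H} (ht : t ∈ T) (ht' : t' ∈ T') {c e : W} (hc : c ∈ C) (he : e ∈ C') (h : t' • c = t • e) :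
    c - (t • e - e) ∈ C ⊓ C' := by
  refine ⟨C.sub_mem hc (P.sub t ht e), ?_⟩
  have : c - (t • e - e) = e - (t' • c - c) := by rw [h]; abel
  rw [this]; exact C'.sub_mem he (P.sub' t' ht' c)

/-- the two commutator maps are inverse to each other modulo the intersection -/
theorem back {t t' : H} (ht : t ∈ T) (ht' : t' ∈ T') (h : t' • C = t • C') {e : W} (he : e ∈ C') :
    t' • (t • e - e) - (t • e - e) - e ∈ C ⊓ C' := by
  obtain ⟨c, hc, e1⟩ : ∃ c ∈ C, t' • c = t • e :=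
    ⟨t'⁻¹ • t • e, mem_sm.1 (h ▸ sm_mem_sm.2 he), smul_inv_smul _ _⟩
  have h1 := P.rel ht ht' hc he e1
  have h2 := P.fix' t' ht' _ h1.2
  have : t' • (t • e - e) - (t • e - e) - e = -(c - (t • e - e)) := by
    rw [smul_sub t' c, e1] at h2
    linear_combination (norm := abel1) h2.symm
  rw [this]; exact neg_mem h1

theorem exists_ne : ∃ t ∈ T, t ≠ 1 := by
  refine (T.bot_or_exists_ne_one).resolve_left fun h => ?_
  have := P.cardT
  rw [h, card_bot] at this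
  omega

theorem exists_z : ∃ z : H, (∀ d ∈ C ⊓ C', z • d = d) ∧ ∀ v, z • v + v ∈ C ⊓ C' := by
  obtain ⟨t, ht, h1⟩ := P.exists_ne
  obtain ⟨t', ht', h⟩ := P.partner ht h1
  have fx : ∀ d ∈ C ⊓ C', (t * t') • d = d := fun d hd => by
    rw [mul_smul, P.fix' t' ht' d hd.2, P.fix t ht d hd.1]
  have yc : ∀ c ∈ C, (t * t') • c + c - (t' • c - c) ∈ C ⊓ C' := fun c hc => by
    have h2 := P.symm.back ht' ht h.symm hc
    have h3 := P.three c
    have : (t * t') • c + c - (t' • c - c) = t • (t' • c - c) - (t' • c - c) - c := by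
      rw [mul_smul, smul_sub t, P.fix t ht c hc]
      linear_combination (norm := abel1) h3
    rw [this, inf_comm]; exact h2
  have ye : ∀ e ∈ C', (t * t') • e = t • e := fun e he => by rw [mul_smul, P.fix' t' ht' e he]
  refine ⟨t * t' * (t * t'), fun d hd => by rw [mul_smul, fx d hd, fx d hd], fun v => ?_⟩
  obtain ⟨c, hc, e, he, rfl⟩ := P.dec v
  have h2 : (t * t' * (t * t')) • c + c ∈ C ⊓ C' := by
    have a1 := yc c hc
    have a2 := fx _ a1
    have a3 := ye _ (P.sub' t' ht' c)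
    have a4 := P.symm.back ht' ht h.symm hc
    rw [inf_comm] at a4
    have h3 := P.three c
    have : (t * t' * (t * t')) • c + c = t • (t' • c - c) - (t' • c - c) - c := by
      rw [smul_sub, smul_add, a3, ← mul_smul] at a2
      linear_combination (norm := abel1) a2 + h3
    rw [this]; exact a4
  have h3 : (t * t' * (t * t')) • e + e ∈ C ⊓ C' := by
    have a1 := yc _ (P.sub t ht e)
    have a2 := P.back ht ht' h he
    have h3 := P.three e
    have : (t * t' * (t * t')) • e + e = ((t * t') • (t • e - e) + (t • e - e) - (t' • (t • e - e) - (t • e - e))) +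
        (t' • (t • e - e) - (t • e - e) - e) := by
      rw [mul_smul (t * t'), smul_sub (t * t'), ye e he]
      linear_combination (norm := abel1) h3
    rw [this]; exact add_mem a1 a2
  have := add_mem h2 h3
  rwa [add_add_add_comm, ← smul_add] at this

theorem exists_A (nrm : ∀ g : H, g • C = C → g ∈ normalizer (T : Set H)) :
    ∃ A : AddSubgroup W, A ≤ C ∧ (∀ a ∈ A, a ∈ C' → a = 0) ∧ ∀ t ∈ T, ∀ v, t • v - v ∈ A := by
  obtain ⟨z, fx, hz⟩ := P.exists_z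
  have hn := nrm z (sm_eq_of_mem fun v hv => by simpa using C.sub_mem (hz v).1 hv)
  obtain ⟨e, he, he'⟩ := P.ex
  have cm : ∀ s ∈ T, s * z = z * s := fun s hs => by
    have h1 : z⁻¹ * s * z ∈ T := by simpa using (mem_normalizer_iff.1 (inv_mem hn) s).1 hs
    have h2 := P.eq_of hs h1 he he' (by
      have a1 := P.fix s hs _ (hz e).1
      have a2 := hz ((z⁻¹ * s * z) • e)
      have : (z⁻¹ * s * z) • e - s • e = (z • (z⁻¹ * s * z) • e + (z⁻¹ * s * z) • e) - (z • e + e) := by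
        rw [smul_add] at a1
        rw [mul_smul, mul_smul, smul_inv_smul]
        linear_combination (norm := abel1) a1.symm
      rw [this]; exact sub_mem a2 (hz e))
    calc s * z = z * (z⁻¹ * s * z) := by group
      _ = z * s := by rw [← h2]
  refine ⟨{ carrier := {c | c ∈ C ∧ z • c = -c}
            zero_mem' := ⟨zero_mem _, by simp⟩
            add_mem' := fun ha hb => ⟨add_mem ha.1 hb.1, by rw [smul_add, ha.2, hb.2, neg_add]⟩
            neg_mem' := fun ha => ⟨neg_mem ha.1, by rw [smul_neg, ha.2]⟩ }, fun c hc => hc.1,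
    fun a ha ha' => ?_, fun t ht v => ⟨P.sub t ht v, ?_⟩⟩
  · have h1 := ha.2
    rw [fx a ⟨ha.1, ha'⟩] at h1
    have h3 := P.three a
    linear_combination (norm := abel1) h3 + h1.symm
  · have h1 := P.fix t ht _ (hz v).1
    rw [smul_add, ← mul_smul, cm t ht, mul_smul] at h1
    rw [smul_sub]
    linear_combination (norm := abel1) h1

end QP

theorem Quad.small (Q : Quad T C) :
    ∃ A : AddSubgroup W, Nat.card A ≤ 9 ∧ ∀ t ∈ T, ∀ v, t • v - v ∈ A := by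
  obtain ⟨g, C', P⟩ := Q.exists_qp
  obtain ⟨A, hA, hd, h⟩ := P.exists_A Q.ti.nrm
  refine ⟨A, ?_, h⟩
  have h1 := qd_card A (C ⊓ C')
  have h2 : A ⊓ (C ⊓ C') = ⊥ := eq_bot_iff.2 fun a ha => hd a ha.1 ha.2.2
  have h3 := AddSubgroup.card_le_of_le (sup_le hA (inf_le_left : C ⊓ C' ≤ C))
  rw [h2, AddSubgroup.card_bot, P.cards.1] at h1
  rw [Q.cardC] at h3
  omega

theorem Quad.torus (Q : Quad T C) {N : Subgroup H} [N.Normal] (hN : T ≤ N) {t₁ t₂ : H}
    (h1 : t₁ ∈ T) (h2 : t₂ ∈ T) (n1 : t₁ ≠ 1) (n2 : t₂ ≠ 1) :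
    ∃ h ∈ N, h ∈ normalizer (T : Set H) ∧ ∀ v : W, h • (t₁ • v - v) = t₂ • v - v := by
  obtain ⟨g, C', P⟩ := Q.exists_qp
  obtain ⟨A, hA, hd, hTA⟩ := P.exists_A Q.ti.nrm
  have hN' : T.map (MulAut.conj g).toMonoidHom ≤ N := by
    rintro _ ⟨t, ht, rfl⟩
    exact ‹N.Normal›.conj_mem t (hN ht) g
  obtain ⟨s₁, k1, e1⟩ := P.partner h1 n1
  obtain ⟨s₂, k2, e2⟩ := P.partner h2 n2
  have hC : (s₂⁻¹ * t₂ * (s₁⁻¹ * t₁)⁻¹) • C = C := by
    rw [mul_inv_rev, inv_inv, mul_smul, mul_smul, mul_smul, e1, inv_smul_smul, ← e2, inv_smul_smul]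
  have hn := Q.ti.nrm _ hC
  refine ⟨_, mul_mem (mul_mem (inv_mem (hN' k2)) (hN h2)) (inv_mem (mul_mem (inv_mem (hN' k1)) (hN h1))), hn,
    fun v => ?_⟩
  obtain ⟨c, hc, e, he, rfl⟩ := P.dec v
  have r : ∀ t ∈ T, t • (c + e) - (c + e) = t • e - e := fun t ht => by rw [smul_add, Q.fix t ht c hc]; abel
  rw [r _ h1, r _ h2]
  have d1 := P.rel h1 k1 (mem_sm.1 (e1 ▸ sm_mem_sm.2 he)) he (smul_inv_smul _ _)
  have d2 := P.rel h2 k2 (mem_sm.1 (e2 ▸ sm_mem_sm.2 he)) he (smul_inv_smul _ _)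
  have f1 : (s₂⁻¹ * t₂ * (s₁⁻¹ * t₁)⁻¹) • (s₁⁻¹ • t₁ • e - (t₁ • e - e)) = s₁⁻¹ • t₁ • e - (t₁ • e - e) := by
    rw [mul_inv_rev, inv_inv, mul_smul, mul_smul, mul_smul, P.fix' _ k1 _ d1.2, P.fix _ (inv_mem h1) _ d1.1,
      P.fix _ h2 _ d1.1, P.fix' _ (inv_mem k2) _ d1.2]
  have f2 : (s₂⁻¹ * t₂ * (s₁⁻¹ * t₁)⁻¹) • s₁⁻¹ • t₁ • e = s₂⁻¹ • t₂ • e := by
    rw [← mul_smul s₁⁻¹, mul_smul, inv_smul_smul, mul_smul]
  generalize s₂⁻¹ * t₂ * (s₁⁻¹ * t₁)⁻¹ = h at hn f1 f2 ⊢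
  have m1 : h • (t₁ • e - e) ∈ A := by
    have := hTA _ ((mem_normalizer_iff.1 hn t₁).1 h1) (h • e)
    rwa [mul_smul, inv_smul_smul, mul_smul, ← smul_sub] at this
  refine sub_eq_zero.1 (hd _ (sub_mem m1 (hTA _ h2 e)) ?_)
  have : h • (t₁ • e - e) - (t₂ • e - e) = (s₂⁻¹ • t₂ • e - (t₂ • e - e)) - (s₁⁻¹ • t₁ • e - (t₁ • e - e)) := by
    rw [smul_sub, f2] at f1
    linear_combination (norm := abel1) f1.symm
  rw [this]; exact sub_mem d2.2 d1.2

theorem Quad.span (Q : Quad T C) {X : AddSubgroup W} (hX : ∀ g : H, ∀ x ∈ X, g • x ∈ X)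
    (hT : ∀ t ∈ T, ∀ v, t • v - v ∈ X) : X ⊔ C = ⊤ := by
  obtain ⟨g, C', P⟩ := Q.exists_qp
  refine top_le_iff.1 (P.cards.2.2 ▸ sup_le le_sup_right fun e he => ?_)
  obtain ⟨c, hc, hc'⟩ := P.symm.ex
  obtain ⟨_, ⟨t, ht, rfl⟩, h⟩ := P.symm.onto hc hc' he
  have h1 : ((MulAut.conj g).toMonoidHom t) • c - c ∈ X := by
    simpa [smul_sub, mul_smul] using hX g _ (hT t ht (g⁻¹ • c))
  simpa using sub_mem (AddSubgroup.mem_sup_left (T := C) h1) (AddSubgroup.mem_sup_right (S := X) h)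

end CfsgLib.Th3
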