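import Cfsg.Agent.Lib.Th3.Neg
import Cfsg.Agent.Lib.Th3.Aut

/-! Package T12: strongly closed subgroups not contained in `E1` or `E2`. -/

set_option autoImplicit false
set_option maxRecDepth 100000
set_option linter.unusedSectionVars false

namespace CfsgLib.Th3

open Subgroup Cfsg Cfsg.FusionSystem CfsgLib.Comput CfsgLib.Fusion CfsgLib.ExSp4
open scoped commutatorElement

variable {Ω : Type*} [Group Ω] {S T : Subgroup Ω} [Finite S] {F : FusionSystem S} {ν : ℕ → Ω}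

theorem t12_max {E W : Subgroup Ω} (h1 : E ≤ W) (h2 : W ≤ S) (hc : Nat.card S = 3 * Nat.card E) (h : ¬ W ≤ E) :
    W = S := by
  have := finite_of_le_S (h1.trans h2)
  have e1 := relIndex_mul_relIndex ⊥ E S bot_le (h1.trans h2)
  rw [relIndex_bot_left, relIndex_bot_left, hc, mul_comm] at e1
  have e2 := Nat.eq_of_mul_eq_mul_right Nat.card_pos e1
  rw [← relIndex_mul_relIndex E W S h1 h2] at e2
  rcases (Nat.dvd_prime Nat.prime_three).1 (Dvd.intro _ e2) with e | e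
  · exact absurd (relIndex_eq_one.1 e) h
  · rw [e] at e2
    exact le_antisymm h2 (relIndex_eq_one.1 (by omega))

theorem t12_gen {E : Subgroup Ω} (hE : E ≤ S) (hn : S ≤ normalizer (E : Set Ω)) (hc : Nat.card S = 3 * Nat.card E)
    (hT : F.StronglyClosed T) (h : ¬ T ≤ E) : ∃ N : Subgroup (MulAut E), N ≤ F.autGroup E ∧
      F.autGroup E ≤ normalizer (N : Set (MulAut E)) ∧ autInducedBy S E ≤ N ∧
      ∀ k ∈ N, ∀ y ∈ E, ∃ t ∈ T, t⁻¹ * (y⁻¹ * extAut k y) ∈ ⁅E, E⁆ := by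
  have hX : AInv (F.autGroup E) (T.subgroupOf E ⊔ _root_.commutator E) :=
    (aInv_subgroupOf fun α hα x hx xT => (au_ext hE hα).1.mem_of_stronglyClosed hT hx xT).sup (aInv_commutator _)
  refine ⟨stabSub _ (T.subgroupOf E ⊔ _root_.commutator E) (aInv_top (F.autGroup E)), stabSub_le _,
    le_normalizer_stabSub hX _, fun u hu => ?_, fun k hk y hy => ?_⟩
  · let φ : S →* MulAut E := E.normalizerMonoidHom.comp (inclusion hn)
    have hφ : ∀ s : S, φ s = conjAut E s (hn s.2) := fun s => aut_ext fun x hx => by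
      rw [extAut_conjAut _ hx]; exact extAut_normalizerMonoidHom _ hx
    have mem : ∀ s (hs : s ∈ S), StabOn (conjAut E s (hn hs)) (T.subgroupOf E ⊔ _root_.commutator E) ⊤ →
        s ∈ ((stabSub _ (T.subgroupOf E ⊔ _root_.commutator E) (aInv_top (F.autGroup E))).comap φ).map S.subtype :=
      fun s hs h => ⟨⟨s, hs⟩, mem_comap.2 (by
        rw [hφ]; exact mem_stabSub.2 ⟨conjAut_mem_autGroup F hE hs _, h⟩), rfl⟩
    obtain ⟨x, xT, xE⟩ := SetLike.not_le_iff_exists.1 h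
    have hW := t12_max (fun e he => mem e (hE he) fun y _ => mem_sup_right (by
        have : y⁻¹ * conjAut E e (hn (hE he)) y = ⁅y⁻¹, (⟨e, he⟩ : E)⁆ :=
          Subtype.ext (by simp [coe_conjAut, commutatorElement_def, mul_assoc])
        rw [this]; exact commutator_mem_commutator (mem_top _) (mem_top _))) (map_subtype_le _) hc
      fun hle => xE (hle (mem x (hT.1 xT) fun y _ => mem_sup_left (by
        have := mul_mem (conj_mem_of_stronglyClosed hT (inv_mem (hE y.2)) xT) (inv_mem xT)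
        simpa [mem_subgroupOf, coe_conjAut, mul_assoc] using this)))
    obtain ⟨s, hs', hs, rfl⟩ := mem_autInducedBy'.1 hu
    obtain ⟨s', h1, rfl⟩ := hW.ge hs
    exact hφ s' ▸ mem_comap.1 h1
  · obtain ⟨t, ht, c, hc, e⟩ := mem_sup_of_normal_right.1 ((mem_stabSub.1 hk).2 ⟨y, hy⟩ (mem_top _))
    refine ⟨t, ht, ?_⟩
    have e1 : (t : Ω) * c = y⁻¹ * extAut k y := by
      rw [extAut_apply k hy]; exact congrArg Subtype.val e
    rw [← e1, inv_mul_cancel_left, ← map_subtype_commutator]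
    exact ⟨c, hc, rfl⟩

theorem t12_sq (h : Mod S ν) {i : ℕ} (hi : i < 10) {x : Ω} (hx : x ∈ G ν i) (h2 : x ^ 2 ∈ G ν (i + 1)) :
    x ∈ G ν (i + 1) := by
  have := mul_mem (h.G_pow hi hx) (inv_mem h2)
  rwa [pow_succ', mul_inv_cancel_right] at this

theorem t12_gen_mem (h : Mod S ν) {i : ℕ} (hi : i < 10) : ν (3 ^ i) ∈ G ν i ∧ ν (3 ^ i) ∉ G ν (i + 1) := by
  refine ⟨(h.mem_G hi.le).2 (Nat.mod_self _), fun e => ?_⟩
  have := (h.mem_G hi).1 e
  rw [Nat.mod_eq_of_lt (Nat.pow_lt_pow_right (by norm_num) (Nat.lt_succ_self i))] at this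
  exact absurd this (by positivity)

theorem t12_G2 (h : Mod S ν) : G ν 2 ≤ E2 ν := fun x hx => by
  obtain ⟨a, rfl⟩ := h.surj x (h.G_le 2 hx)
  have := (h.mem_G (by norm_num)).1 hx
  exact h.mem_E2.2 (by omega)

/-- an element inverted modulo `G (i + 1)` is not fixed modulo `G (i + 1)` -/
theorem t12_inv (h : Mod S ν) {i n : ℕ} (hi : i < 10) (hn : n = 1 ∨ n = 4) {y : Ω}
    (h1 : (ν (3 ^ i) ^ n)⁻¹ * y ∈ G ν (i + 1)) (h2 : ν (3 ^ i) * y ∈ G ν (i + 1)) : False := by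
  obtain ⟨a1, a2⟩ := t12_gen_mem h hi
  have h3 := mul_mem h2 (inv_mem h1)
  rw [mul_inv_rev, inv_inv, mul_assoc, mul_inv_cancel_left, ← pow_succ'] at h3
  refine a2 (t12_sq h hi a1 ?_)
  rcases hn with rfl | rfl
  · exact h3
  · have := mul_mem h3 (inv_mem (h.G_pow hi a1))
    rwa [show 4 + 1 = 2 + 3 from rfl, pow_add, mul_inv_cancel_right] at this

variable (C : Ctx F ν)
include C

theorem t1 (hE : F.IsEssential 3 (G ν 1)) (hT : F.StronglyClosed T) (h : ¬ T ≤ G ν 1) : T = S := by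
  have : Fact (Nat.Prime 3) := ⟨Nat.prime_three⟩
  have m := C.mod
  obtain ⟨N, n1, n2, n3, hN⟩ := t12_gen (m.G_le 1) (m.G_norm (by norm_num))
    (by rw [m.card, m.card_G (by norm_num)]; norm_num) hT h
  obtain ⟨k, hk, kn, hneg⟩ := neg1 C hE n1 n2 n3
  obtain ⟨f, hf, e⟩ := extend_top m.isPGroup C.sat (m.G_le 1) (m.G_norm (by norm_num)) (n1 hk) kn
  obtain ⟨a, b, ha, hb, -, a1, a2, -, a8, a9⟩ := aut m C.chr hf
  have m8 := (t12_gen_mem m (i := 8) (by norm_num)).1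
  have m9 := m.G_anti (i := 8) (by norm_num) (by norm_num) (t12_gen_mem m (i := 9) (by norm_num)).1
  have f8 : f (ν (3 ^ 8)) = (ν (3 ^ 8))⁻¹ := by
    rw [e _ (m.G_anti (by norm_num) (by norm_num) m8), hneg _ m8]
  have f9 : f (ν (3 ^ 9)) = (ν (3 ^ 9))⁻¹ := by
    rw [e _ (m.G_anti (by norm_num) (by norm_num) m9), hneg _ m9]
  obtain rfl : b = 2 := hb.resolve_left fun b1 => t12_inv m (i := 9) (by norm_num) (Or.inl b1)
    (y := f (ν (3 ^ 9))) (by rw [show f (ν (3 ^ 9)) = ν (3 ^ 9) ^ b from a9, inv_mul_cancel]; exact one_mem _)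
    (by rw [f9, mul_inv_cancel]; exact one_mem _)
  obtain rfl : a = 1 := ha.resolve_right fun a2 => t12_inv m (i := 8) (by norm_num) (Or.inr (by rw [a2]))
    a8 (by rw [show f (ν 6561) = _ from f8, mul_inv_cancel]; exact one_mem _)
  have cm : ⁅G ν 1, G ν 1⁆ ≤ G ν 5 := commutator_le.2 fun x hx y hy => by
    simpa [commutatorElement_def] using m.comm_G (i := 1) (j := 1) (k := 5) (by norm_num) (by norm_num)
      (by norm_num) (by decide +kernel) _ (inv_mem hx) _ (inv_mem hy)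
  have dep : ∀ d, 1 ≤ d → d < 5 → (ν (3 ^ d) ^ 2)⁻¹ * f (ν (3 ^ d)) ∈ G ν (d + 1) →
      ∃ y ∈ T, y ∈ G ν d ∧ y ∉ G ν (d + 1) := by
    intro d d1 d5 hd
    obtain ⟨b1, b2⟩ := t12_gen_mem m (i := d) (by omega)
    have b3 := m.G_anti d1 (by omega) b1
    obtain ⟨t, ht, c⟩ := hN k hk _ b3
    rw [← e _ b3] at c
    have c' := m.G_anti (i := d + 1) (by omega) (by norm_num) (cm c)
    have e1 : t = ν (3 ^ d) * (((ν (3 ^ d) ^ 2)⁻¹ * f (ν (3 ^ d))) *
      (t⁻¹ * ((ν (3 ^ d))⁻¹ * f (ν (3 ^ d))))⁻¹) := by group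
    have c2 := mul_mem hd (inv_mem c')
    refine ⟨t, ht, ?_, fun c3 => b2 ?_⟩
    · rw [e1]; exact mul_mem b1 (m.G_anti (Nat.le_succ d) (by omega) c2)
    · rw [e1] at c3; exact (mul_mem_cancel_right c2).1 c3
  obtain ⟨x, hx, x1, x2⟩ := dep 1 le_rfl (by norm_num) a1
  obtain ⟨y, hy, y1, y2⟩ := dep 2 (by norm_num) (by norm_num) a2
  exact m.eq_top_of_G1 hT.1 (m.G1_le hT.1 (fun s hs x hx => conj_mem_of_stronglyClosed hT hs hx) hx x1 x2 hy y1 y2) h

theorem t2 (hE : F.IsEssential 3 (E2 ν)) (hT : F.StronglyClosed T) (h : ¬ T ≤ E2 ν) :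
    ¬ T ≤ G ν 1 := by
  have : Fact (Nat.Prime 3) := ⟨Nat.prime_three⟩
  have m := C.mod
  intro hle
  obtain ⟨N, n1, n2, n3, hN⟩ := t12_gen (E := E2 ν) (m.cl_le _) m.E2_norm (by rw [m.card, m.card_E2]; norm_num) hT h
  obtain ⟨k, hk, kn, hneg⟩ := neg2 C hE n1 n2 n3
  obtain ⟨f, hf, e⟩ := extend_top (E := E2 ν) m.isPGroup C.sat (m.cl_le _) m.E2_norm (n1 hk) kn
  obtain ⟨a, b, ha, -, a0, -, -, a7, -⟩ := aut m C.chr hf
  have m7 := (t12_gen_mem m (i := 7) (by norm_num)).1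
  obtain rfl : a = 2 := ha.resolve_left fun a1 => t12_inv m (i := 7) (by norm_num) (Or.inl a1) a7 (by
    rw [show f (ν 2187) = _ from e _ (t12_G2 m (m.G_anti (by norm_num) (by norm_num) m7))]
    exact m.G_anti (by norm_num) (by norm_num) (hneg _ m7))
  have cm : ⁅E2 ν, E2 ν⁆ ≤ G ν 1 := commutator_le.2 fun x hx y hy => by
    have := m.G_step (i := 0) (by norm_num) (m.cl_le _ hy) (m.G_zero ▸ m.cl_le _ (inv_mem hx))
    rw [inv_inv] at this
    simpa [commutatorElement_def, mul_assoc] using this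
  have b3 : ν 1 ∈ E2 ν := m.mem_E2.2 (by norm_num)
  obtain ⟨t, ht, c⟩ := hN k hk _ b3
  rw [← e _ b3] at c
  have c1 := mul_mem (mul_mem (hle ht) (cm c)) (inv_mem (m.G_anti (i := 1) (by norm_num) (by norm_num) a0))
  have e1 : t * (t⁻¹ * ((ν 1)⁻¹ * f (ν 1))) * ((ν 1 ^ 2)⁻¹ * f (ν 1))⁻¹ = ν 1 := by group
  rw [e1, m.mem_G (by norm_num)] at c1
  norm_num at c1

theorem alpha1 (hE : F.IsEssential 3 (G ν 1)) {𝓔 : FusionSystem S} (h𝓔 : 𝓔.IsSaturated 3)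
    (hI : 𝓔.IsInvariantIn F) :
    ∃ f, Au 𝓔 S f ∧ f (ν 19683) = (ν 19683)⁻¹ ∧ ν 6561 * f (ν 6561) ∈ G ν 9 := by
  have : Fact (Nat.Prime 3) := ⟨Nat.prime_three⟩
  have m := C.mod
  obtain ⟨k, hk, kn, hneg⟩ := neg1 C hE (autGroup_mono (inv_sub hI) _) (le_normalizer_of_conj_mem
    fun _ ha _ hb => inv_conj_mem_autGroup hI (m.G_le 1) ha hb) (autInducedBy_le_autGroup 𝓔 (m.G_le 1))
  obtain ⟨f, hf, e⟩ := extend_top m.isPGroup h𝓔 (m.G_le 1) (m.G_norm (by norm_num)) hk kn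
  have m8 : ν 6561 ∈ G ν 8 := (m.mem_G (by norm_num)).2 (by norm_num)
  have m9 : ν 19683 ∈ G ν 8 := (m.mem_G (by norm_num)).2 (by norm_num)
  refine ⟨f, hf, by rw [e _ (m.G_anti (by norm_num) (by norm_num) m9), hneg _ m9], ?_⟩
  rw [e _ (m.G_anti (by norm_num) (by norm_num) m8), hneg _ m8, mul_inv_cancel]
  exact one_mem _

theorem alpha2 (hE : F.IsEssential 3 (E2 ν)) {𝓔 : FusionSystem S} (h𝓔 : 𝓔.IsSaturated 3)
    (hI : 𝓔.IsInvariantIn F) :
    ∃ f, Au 𝓔 S f ∧ f (ν 19683) = ν 19683 ∧ ν 6561 * f (ν 6561) ∈ G ν 9 := by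
  have : Fact (Nat.Prime 3) := ⟨Nat.prime_three⟩
  have m := C.mod
  obtain ⟨k, hk, kn, hneg⟩ := neg2 C hE (autGroup_mono (inv_sub hI) _) (le_normalizer_of_conj_mem
    fun _ ha _ hb => inv_conj_mem_autGroup hI (m.cl_le _) ha hb) (autInducedBy_le_autGroup 𝓔 (m.cl_le _))
  obtain ⟨f, hf, e⟩ := extend_top (E := E2 ν) m.isPGroup h𝓔 (m.cl_le _) m.E2_norm hk kn
  obtain ⟨a, b, ha, hb, -, -, -, a7, a8, a9⟩ := aut m C.chr ⟨hf.1.sub (inv_sub hI), hf.2⟩
  have m7 : ν 2187 ∈ G ν 7 := (m.mem_G (by norm_num)).2 (by norm_num)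
  have m8 : ν 6561 ∈ G ν 7 := (m.mem_G (by norm_num)).2 (by norm_num)
  have f8 : ν 6561 * f (ν 6561) ∈ G ν 9 := by
    rw [e _ (t12_G2 m (m.G_anti (by norm_num) (by norm_num) m8))]; exact hneg _ m8
  obtain rfl : a = 2 := ha.resolve_left fun a1 => t12_inv m (i := 7) (by norm_num) (Or.inl a1) a7 (by
    rw [e _ (t12_G2 m (m.G_anti (by norm_num) (by norm_num) m7))]
    exact m.G_anti (by norm_num) (by norm_num) (hneg _ m7))
  obtain rfl : b = 1 := hb.resolve_right fun b2 => t12_inv m (i := 8) (by norm_num) (Or.inr (by rw [b2])) a8 f8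
  exact ⟨f, hf, by rw [a9, pow_one], f8⟩

end CfsgLib.Th3
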