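import Cfsg.Agent.Lib.Th3.Code

/-! Package TAB: the tables describe the multiplication. -/

set_option autoImplicit false
set_option maxRecDepth 100000
set_option linter.unusedSectionVars false

namespace CfsgLib.Th3

open Subgroup Cfsg Cfsg.FusionSystem CfsgLib.Comput CfsgLib.Fusion CfsgLib.ExSp4

/-- the largest power of `3` below `j` -/
noncomputable def tbP (j : ℕ) : ℕ :=
  cnd (Nat.ble 81 j) 81 (cnd (Nat.ble 27 j) 27 (cnd (Nat.ble 9 j) 9 (cnd (Nat.ble 3 j) 3 1)))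

/-- a commutator with a generator -/
noncomputable def tbN (v : ℕ) : ℕ := force v fun v =>
  cnd (Nat.beq (ta v 1) v) (cnd (Nat.beq (ta v 3) v) (cnd (Nat.beq (ta v 9) v) (cnd (Nat.beq (ta v 27) v)
    v (ad (ng v) (ta v 27))) (ad (ng v) (ta v 9))) (ad (ng v) (ta v 3))) (ad (ng v) (ta v 1))

theorem tbP_spec {j : ℕ} (h : j ≠ 0) : ∃ k < 5, tbP j = 3 ^ k ∧ 3 ^ k ≤ j := by
  simp only [tbP, cnd_eq, Nat.ble_eq]
  split_ifs with h1 h2 h3 h4
  exacts [⟨4, by omega, rfl, h1⟩, ⟨3, by omega, rfl, h2⟩, ⟨2, by omega, rfl, h3⟩,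
    ⟨1, by omega, rfl, h4⟩, ⟨0, by omega, rfl, by omega⟩]

theorem tbN_spec (v : ℕ) : tbN v = v ∨ ∃ k < 5, tbN v = ad (ng v) (ta v (3 ^ k)) := by
  simp only [tbN, force_eq, cnd_eq]
  split_ifs
  exacts [Or.inl rfl, Or.inr ⟨3, by omega, rfl⟩, Or.inr ⟨2, by omega, rfl⟩, Or.inr ⟨1, by omega, rfl⟩,
    Or.inr ⟨0, by omega, rfl⟩]

theorem tb_c1 : allLt (fun i => allLt (fun j => band (band (Nat.ble (ad i j) 242) (Nat.ble (ta i j) 242))
    (band (band (Nat.ble (tq i j) 59048) (Nat.beq (ad i j) (ad j i)))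
      (cnd (Nat.beq (ad (ng i) j) 0) (Nat.beq i j) true))) 243) 243 = true := by
  decide +kernel

theorem tb_c2 : allLt (fun j => cnd (Nat.beq j 0) true (force (tbP j) fun P => force (Nat.sub j P) fun j' =>
    allLt (fun i => band (band (Nat.beq (ad i j) (force (ad i j') fun x => ad x P))
      (Nat.beq (ta i j) (force (ta i j') fun x => ta x P)))
      (Nat.beq (tq i j) (force (tq i j') fun x => mul x P))) 243)) 243 = true := by
  decide +kernel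

theorem tb_c3 : ∀ j < 243, ad j 0 = j ∧ ta j 0 = j ∧ tq j 0 = j ∧ ng j < 243 ∧ ad (ng j) j = 0 ∧
    (j = 0 ∨ (ad (j - tbP j) (tbP j) = j ∧ tq (j - tbP j) (tbP j) = j ∧
      (tbN (tbN (tbN (tbN j))) = 81 ∨ tbN (tbN (tbN (tbN j))) = 162) ∧ ∃ k < 5, ta (3 ^ k) j ≠ 3 ^ k)) := by
  decide +kernel

theorem tb_d1 {i j : ℕ} (hi : i < 243) (hj : j < 243) : ad i j < 243 ∧ ta i j < 243 ∧ tq i j < 59049 ∧
    ad i j = ad j i ∧ (ad (ng i) j = 0 → i = j) := by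
  have := allLt_sound (allLt_sound tb_c1 i hi) j hj
  simp only [band_eq_true, cnd_eq, Nat.ble_eq, Nat.beq_eq] at this
  refine ⟨by omega, by omega, by omega, this.2.1.2, fun h => ?_⟩
  simpa [h] using this.2.2

theorem tb_d2 {i j : ℕ} (hi : i < 243) (hj : j < 243) (h0 : j ≠ 0) : ∃ k < 5, ∃ j' < j,
    ad j' (3 ^ k) = j ∧ tq j' (3 ^ k) = j ∧ ad i j = ad (ad i j') (3 ^ k) ∧
      ta i j = ta (ta i j') (3 ^ k) ∧ tq i j = mul (tq i j') (3 ^ k) := by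
  have h1 := allLt_sound tb_c2 j hj
  rw [cnd_eq, if_neg (by simpa using h0), force_eq, force_eq] at h1
  have h2 := allLt_sound h1 i hi
  simp only [band_eq_true, force_eq, Nat.beq_eq] at h2
  obtain ⟨k, hk, e, h3⟩ := tbP_spec h0
  have h4 := ((tb_c3 j hj).2.2.2.2.2.resolve_left h0)
  rw [e] at h2 h4
  exact ⟨k, hk, j - 3 ^ k, Nat.sub_lt (by omega) (by positivity), h4.1, h4.2.1, h2.1.1, h2.1.2, h2.2⟩

variable {Γ : Type*} [Group Γ] {γ : ℕ → Γ}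

theorem tb_Q0 : Qe γ 0 = 1 := by simp [Qe]

theorem tb_V0 : Ve γ 0 = 1 := tb_Q0

theorem tb_nu {x y : ℕ} (hx : x < 243) (hy : y < 243) : nu γ (x + 243 * y) = Qe γ x * Ve γ y := by
  rw [nu, show (x + 243 * y) % 243 = x by omega, show (x + 243 * y) / 243 % 243 = y by omega]

theorem tb_nuQ {x : ℕ} (hx : x < 243) : nu γ x = Qe γ x := by
  simpa [tb_V0] using tb_nu (γ := γ) hx (show 0 < 243 by omega)

theorem tb_gen {k : ℕ} (hk : k < 10) : nu γ (3 ^ k) = γ k := by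
  interval_cases k <;> simp [nu, Ve, Qe]

namespace Base

variable (h : Base γ)
include h

theorem t1 {i : ℕ} (hi : i < 243) (j : ℕ) (hj : j < 243) : Ve γ i * Ve γ j = Ve γ (ad i j) := by
  induction j using Nat.strong_induction_on with | h j ih => ?_
  by_cases h0 : j = 0
  · rw [h0, tb_V0, mul_one, (tb_c3 i hi).1]
  obtain ⟨k, hk, j', h1, h2, -, h3, -⟩ := tb_d2 hi hj h0
  rw [h3, ← h.b3 _ (tb_d1 hi (by omega)).1 k hk, ← ih j' h1 (by omega), ← h2,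
    ← h.b3 _ (by omega) k hk, mul_assoc]

theorem tQ {j j' k : ℕ} (hj : j < 243) (h1 : j' < j) (hk : k < 5) (h2 : tq j' (3 ^ k) = j) :
    Qe γ j = Qe γ j' * γ k := by
  rw [h.b1 _ (by omega) k hk, h2, tb_nuQ hj]

theorem t2 {i : ℕ} (hi : i < 243) (j : ℕ) (hj : j < 243) : Ve γ i * Qe γ j = Qe γ j * Ve γ (ta i j) := by
  induction j using Nat.strong_induction_on with | h j ih => ?_
  by_cases h0 : j = 0
  · rw [h0, tb_Q0, mul_one, one_mul, (tb_c3 i hi).2.1]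
  obtain ⟨k, hk, j', h1, -, h2, -, h3, -⟩ := tb_d2 hi hj h0
  rw [h3, h.tQ hj h1 hk h2, ← mul_assoc, ih j' h1 (by omega), mul_assoc, mul_assoc,
    h.b2 _ (tb_d1 hi (by omega)).2.1 k hk]

theorem mul_of {a b : ℕ} (e : Qe γ (a % 243) * Qe γ (b % 243) = nu γ (tq (a % 243) (b % 243))) :
    nu γ (mul a b) = nu γ a * nu γ b := by
  have m : ∀ x, x % 243 < 243 := fun x => Nat.mod_lt _ (by omega)
  have h1 : tq (a % 243) (b % 243) / 243 < 243 := by have := (tb_d1 (m a) (m b)).2.2.1; omega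
  have h2 := (tb_d1 (m (a / 243)) (m b)).2.1
  have h3 := (tb_d1 h1 h2).1
  rw [mul_eq, tb_nu (m _) (tb_d1 h3 (m _)).1, ← h.t1 h3 _ (m _), ← h.t1 h1 _ h2,
    ← Nat.mod_eq_of_lt h1, ← mul_assoc, ← mul_assoc, ← nu, ← e, mul_assoc (Qe γ _),
    ← h.t2 (m _) _ (m _), nu, nu]
  simp only [mul_assoc]

theorem t3 {i : ℕ} (hi : i < 243) (j : ℕ) (hj : j < 243) : Qe γ i * Qe γ j = nu γ (tq i j) := by
  induction j using Nat.strong_induction_on with | h j ih => ?_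
  by_cases h0 : j = 0
  · rw [h0, tb_Q0, mul_one, (tb_c3 i hi).2.2.1, tb_nuQ hi]
  obtain ⟨k, hk, j', h1, -, h2, -, -, h3⟩ := tb_d2 hi hj h0
  have h4 : 3 ^ k < 243 := Nat.pow_lt_pow_right (by omega) hk
  rw [h3, h.tQ hj h1 hk h2, ← mul_assoc, ih j' h1 (by omega), h.mul_of, tb_gen (by omega)]
  rw [Nat.mod_eq_of_lt h4, ← tb_nuQ h4, tb_gen (by omega), h.b1 _ (Nat.mod_lt _ (by omega)) k hk]

theorem t4 (a b : ℕ) : nu γ (mul a b) = nu γ a * nu γ b :=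
  h.mul_of (h.t3 (Nat.mod_lt _ (by omega)) _ (Nat.mod_lt _ (by omega)))

theorem t_inv (a : ℕ) : nu γ (inv a) * nu γ a = 1 := by
  rw [← h.t4, inv_mul_code, tb_nuQ (by omega), tb_Q0]

theorem t_sub {v w : ℕ} (hv : v < 243) (hw : w < 243) (e : Ve γ w = Ve γ v) :
    Ve γ (ad (ng v) w) = 1 := by
  obtain ⟨-, -, -, h1, h2, -⟩ := tb_c3 v hv
  rw [← h.t1 h1 _ hw, e, h.t1 h1 _ hv, h2, tb_V0]

theorem t_ker {v : ℕ} (hv : v < 243) (e : Ve γ v = 1) : v = 0 := by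
  have step : ∀ v, v < 243 ∧ Ve γ v = 1 → tbN v < 243 ∧ Ve γ (tbN v) = 1 := fun v ⟨hv, e⟩ => by
    rcases tbN_spec v with h1 | ⟨k, hk, h1⟩ <;> rw [h1]
    · exact ⟨hv, e⟩
    · have h2 := (tb_d1 hv (Nat.pow_lt_pow_right (by omega) hk : 3 ^ k < 3 ^ 5)).2.1
      have h3 := h.b2 v hv k hk
      rw [e, one_mul, left_eq_mul] at h3
      exact ⟨(tb_d1 (tb_c3 v hv).2.2.2.1 h2).1, h.t_sub hv h2 (h3.trans e.symm)⟩
  by_contra h0
  have h1 := (step _ (step _ (step _ (step _ ⟨hv, e⟩)))).2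
  have h2 := h.b3 162 (by omega) 4 (by omega)
  rw [show ad 162 (3 ^ 4) = 0 by decide +kernel, tb_V0] at h2
  rcases ((tb_c3 v hv).2.2.2.2.2.resolve_left h0).2.2.1 with h3 | h3 <;> rw [h3] at h1
  · exact h.ne (by simpa [Ve, Qe] using h1)
  · exact h.ne (by rwa [h1, one_mul] at h2)

theorem t_one {c : ℕ} (e : nu γ c = 1) : c % 59049 = 0 := by
  have m : ∀ x, x % 243 < 243 := fun x => Nat.mod_lt _ (by omega)
  have h0 : c % 243 = 0 := by
    by_contra h0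
    obtain ⟨k, hk, h1⟩ := ((tb_c3 _ (m c)).2.2.2.2.2.resolve_left h0).2.2.2
    have h2 : 3 ^ k < 243 := Nat.pow_lt_pow_right (by omega) hk
    have h3 := (tb_d1 h2 (m c)).2.1
    refine h1 ((tb_d1 h2 h3).2.2.2.2 (h.t_ker (tb_d1 (tb_c3 _ h2).2.2.2.1 h3).1
      (h.t_sub h2 h3 ?_))).symm
    have h4 := h.t2 h2 _ (m c)
    rw [eq_inv_of_mul_eq_one_left e, mul_inv_eq_iff_eq_mul, mul_assoc, eq_inv_mul_iff_mul_eq,
      h.t1 (m _) _ h2, (tb_d1 (m _) h2).2.2.2.1, ← h.t1 h2 _ (m _)] at h4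
    exact (mul_right_cancel h4).symm
  rw [nu, h0, tb_Q0, one_mul] at e
  have := h.t_ker (m _) e
  omega

end Base

theorem mod_of_base {Γ : Type*} [Group Γ] {γ : ℕ → Γ} (h : Base γ) :
    Mod (closure (γ '' Set.Iio 10)) (nu γ) := by
  refine ⟨h.t4, fun a => ?_, fun x hx => ?_, fun a b => ⟨fun e => ?_, fun e => ?_⟩⟩
  · have g : ∀ k < 10, ∀ n : ℕ, γ k ^ n ∈ closure (γ '' Set.Iio 10) := fun k hk n =>
      pow_mem (Subgroup.subset_closure (Set.mem_image_of_mem γ (Set.mem_Iio.2 hk))) n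
    unfold nu Ve Qe
    refine mul_mem ?_ ?_ <;>
      exact mul_mem (mul_mem (mul_mem (mul_mem (g _ (by omega) _) (g _ (by omega) _))
        (g _ (by omega) _)) (g _ (by omega) _)) (g _ (by omega) _)
  · induction hx using closure_induction with
    | mem x hx => obtain ⟨k, hk, rfl⟩ := hx; exact ⟨_, tb_gen hk⟩
    | one => exact ⟨0, by rw [tb_nuQ (by omega), tb_Q0]⟩
    | mul x y _ _ hx hy => obtain ⟨a, rfl⟩ := hx; obtain ⟨b, rfl⟩ := hy; exact ⟨_, h.t4 a b⟩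
    | inv x _ hx => obtain ⟨a, rfl⟩ := hx; exact ⟨_, eq_inv_of_mul_eq_one_left (h.t_inv a)⟩
  · have h1 := h.t_one (c := mul (inv a) b) (by rw [h.t4, ← e, h.t_inv])
    rw [Nat.mod_eq_of_lt (mul_lt _ _)] at h1
    exact mul_cancel_code ((inv_mul_code a).trans h1.symm)
  · rw [nu, nu, show a % 243 = b % 243 by omega, show a / 243 % 243 = b / 243 % 243 by omega]

end CfsgLib.Th3
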